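import Mathlib
import Cfsg.Agent.Lib.BlockX.SLn

/-! Matrix facts for small Baumann blocks (`SL₂(2)`, `SL₂(3)`). -/

set_option autoImplicit false

namespace Cfsg.Agent.Lib.BlockY.CasesMat
open Subgroup Cfsg Cfsg.Agent.Lib.BlockX Cfsg.Agent.Lib.BlockX.SLn Matrix
open scoped commutatorElement

/-- `k` has no eigenvector. -/
def NoEig {p : ℕ} [Fact p.Prime] (k : SL2 (ZMod p)) : Prop :=
  ∀ u : F2 (ZMod p), u ≠ 0 → ∀ c : ZMod p, sact k u ≠ c • u

/-- The facts on `K = SL₂(p)'` used for small blocks. -/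
structure MatFacts (p r s N : ℕ) [Fact p.Prime] : Prop where
  noEig : ∀ k ∈ commutator (SL2 (ZMod p)), k ≠ 1 → k ≠ -1 → NoEig k
  exK : ∃ k ∈ commutator (SL2 (ZMod p)), k ≠ 1 ∧ k ≠ -1
  typeS : ∀ k ∈ commutator (SL2 (ZMod p)), k ≠ 1 → k ≠ -1 →
    (if p = 2 then k * k * k = 1 else k * k = -1)
  sqS : ∀ k ∈ commutator (SL2 (ZMod p)), k ≠ 1 → k ≠ -1 → ∀ u : F2 (ZMod p), u ≠ 0 → sact (k * k) u ≠ u
  cov : ∀ M : Matrix (Fin 2) (Fin 2) (ZMod p),
    (if p = 2 then ∀ a : F2 (ZMod p), M.mulVec (M.mulVec (M.mulVec a)) = a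
      else ∀ a : F2 (ZMod p), M.mulVec (M.mulVec a) = -a) →
    ∃ k ∈ commutator (SL2 (ZMod p)), (k : Matrix (Fin 2) (Fin 2) (ZMod p)) = M
  powN : ∀ k ∈ commutator (SL2 (ZMod p)), k ^ (r ^ N) = 1
  neg : (-1 : SL2 (ZMod p)) = 1 ∨
    ∃ k ∈ commutator (SL2 (ZMod p)), k ≠ 1 ∧ k ≠ -1 ∧ k * k = -1
  t0 : ∃ k₀ ∈ commutator (SL2 (ZMod p)), k₀ ^ s = 1 ∧
    (∀ k ∈ commutator (SL2 (ZMod p)), k * k₀ = k₀ * k) ∧ (∀ a : F2 (ZMod p), sact k₀ a = a → a = 0)
  hcop : Nat.Coprime s p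
  hr : r.Prime
  hrp : r + p = 5

/-! ### `p = 2` -/

instance : Fact (Nat.Prime 2) := ⟨Nat.prime_two⟩
instance : Fact (Nat.Prime 3) := ⟨Nat.prime_three⟩

theorem phi2_mul : ∀ a b c d a' b' c' d' : ZMod 2, a * d - b * c = 1 → a' * d' - b' * c' = 1 →
    (a * b' + b * d') + (c * a' + d * c') + (1 + (a * a' + b * c')) * (1 + (c * b' + d * d')) =
    (b + c + (1 + a) * (1 + d)) + (b' + c' + (1 + a') * (1 + d')) := by decide

/-- the sign map of `SL₂(2)`. -/
def phi2 : SL2 (ZMod 2) →* Multiplicative (ZMod 2) where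
  toFun k := Multiplicative.ofAdd (k.1 0 1 + k.1 1 0 + (1 + k.1 0 0) * (1 + k.1 1 1))
  map_one' := by
    show Multiplicative.ofAdd _ = Multiplicative.ofAdd 0
    congr 1
  map_mul' x y := by
    have := phi2_mul _ _ _ _ _ _ _ _ (det_SL2 x) (det_SL2 y)
    rw [← ofAdd_add]
    congr 1
    rw [← this, mul_00, mul_01, mul_10, mul_11]

theorem phi2_K {k : SL2 (ZMod 2)} (hk : k ∈ commutator (SL2 (ZMod 2))) :
    k.1 0 1 + k.1 1 0 + (1 + k.1 0 0) * (1 + k.1 1 1) = 0 := by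
  have h1 : phi2 k = 1 := Abelianization.commutator_subset_ker phi2 hk
  exact h1

/-- the element of order three -/
def g2 : SL2 (ZMod 2) := ⟨!![0, 1; 1, 1], by decide⟩
def u2 : SL2 (ZMod 2) := ⟨!![1, 1; 0, 1], by decide⟩
def l2 : SL2 (ZMod 2) := ⟨!![1, 0; 1, 1], by decide⟩

set_option synthInstance.maxSize 4000 in
theorem list2 : ∀ a b c d : ZMod 2, a * d - b * c = 1 → b + c + (1 + a) * (1 + d) = 0 →
    (a = 1 ∧ b = 0 ∧ c = 0 ∧ d = 1) ∨ (a = 0 ∧ b = 1 ∧ c = 1 ∧ d = 1) ∨ (a = 1 ∧ b = 1 ∧ c = 1 ∧ d = 0) := by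
  decide

theorem K2 {k : SL2 (ZMod 2)} (hk : k ∈ commutator (SL2 (ZMod 2))) :
    k = 1 ∨ k = g2 ∨ k = g2 * g2 := by
  rcases list2 _ _ _ _ (det_SL2 k) (phi2_K hk) with ⟨a, b, c, d⟩ | ⟨a, b, c, d⟩ | ⟨a, b, c, d⟩
  · exact Or.inl (SL2_ext (by rw [a, one_00]) (by rw [b, one_01]) (by rw [c, one_10]) (by rw [d, one_11]))
  · exact Or.inr (Or.inl (SL2_ext a b c d))
  · right; right
    exact SL2_ext (by rw [a]; decide) (by rw [b]; decide) (by rw [c]; decide) (by rw [d]; decide)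

theorem g2_mem : g2 ∈ commutator (SL2 (ZMod 2)) := by
  have h : ⁅u2, l2⁆ ∈ commutator (SL2 (ZMod 2)) :=
    Subgroup.commutator_mem_commutator (mem_top u2) (mem_top l2)
  have h2 : g2 = ⁅u2, l2⁆ * ⁅u2, l2⁆ ∨ g2 = ⁅u2, l2⁆ := by decide
  rcases h2 with h2 | h2
  · rw [h2]; exact mul_mem h h
  · rw [h2]; exact h

theorem noEig_g2 : ∀ u : Fin 2 → ZMod 2, u ≠ 0 → ∀ c : ZMod 2, sact g2 u ≠ c • u := by decide +kernel
theorem noEig_g22 : ∀ u : Fin 2 → ZMod 2, u ≠ 0 → ∀ c : ZMod 2, sact (g2 * g2) u ≠ c • u := by decide +kernel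

theorem sq_g2 : ∀ u : Fin 2 → ZMod 2, u ≠ 0 → sact (g2 * g2) u ≠ u := by decide +kernel
theorem sq_g22 : ∀ u : Fin 2 → ZMod 2, u ≠ 0 → sact (g2 * g2 * (g2 * g2)) u ≠ u := by decide +kernel

theorem matFacts2 : MatFacts 2 3 3 1 where
  sqS := by
    intro k hk h1 _
    rcases K2 hk with rfl | rfl | rfl
    · exact (h1 rfl).elim
    · exact sq_g2
    · exact sq_g22
  noEig := by
    intro k hk h1 _
    rcases K2 hk with rfl | rfl | rfl
    · exact (h1 rfl).elim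
    · exact noEig_g2
    · exact noEig_g22
  exK := ⟨g2, g2_mem, by decide, by decide⟩
  typeS := by
    intro k hk h1 _
    rw [if_pos rfl]
    rcases K2 hk with rfl | rfl | rfl
    · exact (h1 rfl).elim
    · decide
    · decide
  cov := by
    intro M hM
    rw [if_pos rfl] at hM
    have key : ∀ M : Matrix (Fin 2) (Fin 2) (ZMod 2),
        (∀ a : Fin 2 → ZMod 2, M.mulVec (M.mulVec (M.mulVec a)) = a) →
        M = (1 : SL2 (ZMod 2)).1 ∨ M = g2.1 ∨ M = (g2 * g2).1 := by decide +kernel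
    rcases key M hM with rfl | rfl | rfl
    · exact ⟨1, one_mem _, rfl⟩
    · exact ⟨g2, g2_mem, rfl⟩
    · exact ⟨g2 * g2, mul_mem g2_mem g2_mem, rfl⟩
  powN := by
    intro k hk
    rcases K2 hk with rfl | rfl | rfl <;> decide
  neg := Or.inl (by decide)
  t0 := by
    refine ⟨g2, g2_mem, by decide, ?_, by decide +kernel⟩
    intro k hk
    rcases K2 hk with rfl | rfl | rfl <;> decide
  hcop := by decide
  hr := Nat.prime_three
  hrp := by norm_num

/-! ### `p = 3` -/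

theorem phi3_mul : ∀ a b c d a' b' c' d' : ZMod 3, a * d - b * c = 1 → a' * d' - b' * c' = 1 →
    (c * a' + d * c') * (c * b' + d * d') + (a * b' + b * d') * (c * b' + d * d') +
      (a * a' + b * c') * (c * a' + d * c') -
      (a * b' + b * d') * (c * a' + d * c') * (c * a' + d * c') * (c * b' + d * d') =
    (c * d + b * d + a * c - b * c * c * d) + (c' * d' + b' * d' + a' * c' - b' * c' * c' * d') := by
  decide +kernel

/-- the map of `SL₂(3)` with kernel `Q₈`. -/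
def phi3 : SL2 (ZMod 3) →* Multiplicative (ZMod 3) where
  toFun k := Multiplicative.ofAdd (k.1 1 0 * k.1 1 1 + k.1 0 1 * k.1 1 1 + k.1 0 0 * k.1 1 0 -
    k.1 0 1 * k.1 1 0 * k.1 1 0 * k.1 1 1)
  map_one' := by
    show Multiplicative.ofAdd _ = Multiplicative.ofAdd 0
    congr 1
  map_mul' x y := by
    have := phi3_mul _ _ _ _ _ _ _ _ (det_SL2 x) (det_SL2 y)
    rw [← ofAdd_add]
    congr 1
    rw [← this, mul_00, mul_01, mul_10, mul_11]

theorem phi3_K {k : SL2 (ZMod 3)} (hk : k ∈ commutator (SL2 (ZMod 3))) :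
    k.1 1 0 * k.1 1 1 + k.1 0 1 * k.1 1 1 + k.1 0 0 * k.1 1 0 -
    k.1 0 1 * k.1 1 0 * k.1 1 0 * k.1 1 1 = 0 := by
  have h1 : phi3 k = 1 := Abelianization.commutator_subset_ker phi3 hk
  exact h1

set_option synthInstance.maxSize 4000 in
theorem list3 : ∀ a b c d : ZMod 3, a * d - b * c = 1 → c * d + b * d + a * c - b * c * c * d = 0 →
    (a = 1 ∧ b = 0 ∧ c = 0 ∧ d = 1) ∨ (a = -1 ∧ b = 0 ∧ c = 0 ∧ d = -1) ∨ a + d = 0 := by
  decide

instance : CharP (ZMod 3) 3 := ZMod.charP 3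

theorem K3 {k : SL2 (ZMod 3)} (hk : k ∈ commutator (SL2 (ZMod 3))) :
    k = 1 ∨ k = -1 ∨ k.1 0 0 + k.1 1 1 = 0 := by
  rcases list3 _ _ _ _ (det_SL2 k) (phi3_K hk) with ⟨a, b, c, d⟩ | ⟨a, b, c, d⟩ | h
  · exact Or.inl (SL2_ext (by rw [a, one_00]) (by rw [b, one_01]) (by rw [c, one_10]) (by rw [d, one_11]))
  · exact Or.inr (Or.inl (SL2_ext (by rw [a, neg_00, one_00]) (by rw [b, neg_01, one_01]; simp)
      (by rw [c, neg_10, one_10]; simp) (by rw [d, neg_11, one_11])))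
  · exact Or.inr (Or.inr h)

theorem noEig3 : ∀ a b c d u0 u1 t : ZMod 3, a + d = 0 → a * d - b * c = 1 → ¬ (u0 = 0 ∧ u1 = 0) →
    ¬ (a * u0 + b * u1 = t * u0 ∧ c * u0 + d * u1 = t * u1) := by decide +kernel

set_option synthInstance.maxSize 4000 in
theorem list3' : ∀ a b c d : ZMod 3, a + d = 0 → a * d - b * c = 1 →
    (a = 0 ∧ b = -1 ∧ c = 1 ∧ d = 0) ∨ (a = 0 ∧ b = 1 ∧ c = -1 ∧ d = 0) ∨
    (a = 1 ∧ b = 1 ∧ c = 1 ∧ d = -1) ∨ (a = -1 ∧ b = -1 ∧ c = -1 ∧ d = 1) ∨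
    (a = -1 ∧ b = 1 ∧ c = 1 ∧ d = 1) ∨ (a = 1 ∧ b = -1 ∧ c = -1 ∧ d = -1) := by
  decide +kernel

theorem K3_of_trace {k : SL2 (ZMod 3)} (h : k.1 0 0 + k.1 1 1 = 0) : k ∈ commutator (SL2 (ZMod 3)) := by
  have hi : (ii : SL2 (ZMod 3)) ∈ commutator (SL2 (ZMod 3)) := ii_mem
  have hj : (jj : SL2 (ZMod 3)) ∈ commutator (SL2 (ZMod 3)) := jj_mem
  have hn : (-1 : SL2 (ZMod 3)) ∈ commutator (SL2 (ZMod 3)) := neg_one_mem_K
  have hneg : ∀ x, x ∈ commutator (SL2 (ZMod 3)) → -x ∈ commutator (SL2 (ZMod 3)) := by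
    intro x hx
    have : -x = (-1) * x := by simp
    rw [this]
    exact mul_mem hn hx
  rcases list3' _ _ _ _ h (det_SL2 k) with ⟨a, b, c, d⟩ | ⟨a, b, c, d⟩ | ⟨a, b, c, d⟩ | ⟨a, b, c, d⟩ | ⟨a, b, c, d⟩ | ⟨a, b, c, d⟩
  · have : k = ii := SL2_ext (by rw [a, ii_00]) (by rw [b, ii_01]) (by rw [c, ii_10]) (by rw [d, ii_11])
    rwa [this]
  · have : k = -ii := SL2_ext (by rw [a, neg_00, ii_00]; simp) (by rw [b, neg_01, ii_01]; simp) (by rw [c, neg_10, ii_10]) (by rw [d, neg_11, ii_11]; simp)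
    rw [this]; exact hneg _ hi
  · have : k = jj := SL2_ext (by rw [a, jj_00]) (by rw [b, jj_01]) (by rw [c, jj_10]) (by rw [d, jj_11])
    rwa [this]
  · have : k = -jj := SL2_ext (by rw [a, neg_00, jj_00]) (by rw [b, neg_01, jj_01]) (by rw [c, neg_10, jj_10]) (by rw [d, neg_11, jj_11]; simp)
    rw [this]; exact hneg _ hj
  · have : k = ii * jj := SL2_ext (by rw [a, mul_00, ii_00, ii_01, jj_00, jj_10]; decide)
      (by rw [b, mul_01, ii_00, ii_01, jj_01, jj_11]; decide) (by rw [c, mul_10, ii_10, ii_11, jj_00, jj_10]; decide)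
      (by rw [d, mul_11, ii_10, ii_11, jj_01, jj_11]; decide)
    rw [this]; exact mul_mem hi hj
  · have : k = -(ii * jj) := SL2_ext (by rw [a, neg_00, mul_00, ii_00, ii_01, jj_00, jj_10]; decide)
      (by rw [b, neg_01, mul_01, ii_00, ii_01, jj_01, jj_11]; decide) (by rw [c, neg_10, mul_10, ii_10, ii_11, jj_00, jj_10]; decide)
      (by rw [d, neg_11, mul_11, ii_10, ii_11, jj_01, jj_11]; decide)
    rw [this]; exact hneg _ (mul_mem hi hj)

theorem sq_of_trace {k : SL2 (ZMod 3)} (h : k.1 0 0 + k.1 1 1 = 0) : k * k = -1 := by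
  have hd := det_SL2 k
  apply SL2_ext
  · rw [mul_00, neg_00, one_00]; linear_combination k.1 0 0 * h - hd
  · rw [mul_01, neg_01, one_01]; linear_combination k.1 0 1 * h
  · rw [mul_10, neg_10, one_10]; linear_combination k.1 1 0 * h
  · rw [mul_11, neg_11, one_11]; linear_combination k.1 1 1 * h - hd

theorem noEig_of_trace {k : SL2 (ZMod 3)} (h : k.1 0 0 + k.1 1 1 = 0) : NoEig k := by
  intro u hu c hc
  have h0 := congrFun hc 0
  have h1 := congrFun hc 1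
  simp only [sact, Matrix.mulVec, dotProduct, Fin.sum_univ_two, Pi.smul_apply, smul_eq_mul] at h0 h1
  refine noEig3 _ _ _ _ (u 0) (u 1) c h (det_SL2 k) ?_ ⟨h0, h1⟩
  rintro ⟨h2, h3⟩
  apply hu
  funext i
  fin_cases i
  · exact h2
  · exact h3

theorem cov3 : ∀ a b c d : ZMod 3, (a * a + b * c = -1) → (a * b + b * d = 0) → (c * a + d * c = 0) →
    (c * b + d * d = -1) → a + d = 0 ∧ a * d - b * c = 1 := by decide +kernel

theorem matFacts3 : MatFacts 3 2 2 2 where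
  sqS := by
    intro k hk h1 h2 u hu hc
    rcases K3 hk with h | h | h
    · exact h1 h
    · exact h2 h
    · rw [sq_of_trace h] at hc
      have h3 : sact (-1 : SL2 (ZMod 3)) u = -u := by simp [sact, Matrix.neg_mulVec]
      rw [h3] at hc
      apply hu
      funext i
      have h4 := congrFun hc i
      simp only [Pi.neg_apply, Pi.zero_apply] at h4 ⊢
      have h5 : ∀ x : ZMod 3, -x = x → x = 0 := by decide
      exact h5 _ h4
  noEig := by
    intro k hk h1 h2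
    rcases K3 hk with h | h | h
    · exact (h1 h).elim
    · exact (h2 h).elim
    · exact noEig_of_trace h
  exK := ⟨ii, ii_mem, by decide +kernel, by decide +kernel⟩
  typeS := by
    intro k hk h1 h2
    rw [if_neg (by norm_num)]
    rcases K3 hk with h | h | h
    · exact (h1 h).elim
    · exact (h2 h).elim
    · exact sq_of_trace h
  cov := by
    intro M hM
    rw [if_neg (by norm_num)] at hM
    have e0 := hM (Pi.single 0 1)
    have e1 := hM (Pi.single 1 1)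
    have e00 := congrFun e0 0
    have e10 := congrFun e0 1
    have e01 := congrFun e1 0
    have e11 := congrFun e1 1
    simp only [Matrix.mulVec, dotProduct, Fin.sum_univ_two, Pi.single_apply, Pi.neg_apply] at e00 e10 e01 e11
    simp at e00 e10 e01 e11
    obtain ⟨ht, hdet⟩ := cov3 (M 0 0) (M 0 1) (M 1 0) (M 1 1)
      (by linear_combination e00) (by linear_combination e01) (by linear_combination e10) (by linear_combination e11)
    refine ⟨⟨M, by rw [Matrix.det_fin_two]; exact hdet⟩, K3_of_trace ht, rfl⟩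
  powN := by
    intro k hk
    rcases K3 hk with rfl | rfl | h
    · simp
    · have : (-1 : SL2 (ZMod 3)) * (-1) = 1 := by simp
      have h4 : (2 : ℕ) ^ 2 = 2 + 2 := by norm_num
      rw [h4, pow_add, pow_two, this]; simp
    · have h4 : (2 : ℕ) ^ 2 = 2 + 2 := by norm_num
      rw [h4, pow_add, pow_two, sq_of_trace h]; simp
  neg := Or.inr ⟨ii, ii_mem, by decide +kernel, by decide +kernel, sq_of_trace (by decide +kernel)⟩
  t0 := by
    refine ⟨-1, neg_one_mem_K, by rw [pow_two]; simp, ?_, ?_⟩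
    · intro k _; simp
    · intro a ha
      have h1 : sact (-1 : SL2 (ZMod 3)) a = -a := by simp [sact, Matrix.neg_mulVec]
      rw [h1] at ha
      funext i
      have h2 := congrFun ha i
      simp only [Pi.neg_apply, Pi.zero_apply] at h2 ⊢
      have h3 : ∀ x : ZMod 3, -x = x → x = 0 := by decide
      exact h3 _ h2
  hcop := by decide
  hr := Nat.prime_two
  hrp := by norm_num

end Cfsg.Agent.Lib.BlockY.CasesMat
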