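import Mathlib
import Cfsg.Prelude.Def_BaumannBlocks
import Cfsg.Agent.Lib.PGroup.BaumannSect
import Cfsg.Agent.Lib.Basic.PCore

/-! Notation for two subnormal Baumann blocks. -/

namespace Cfsg.Agent.Lib.BlockY
open Subgroup Cfsg
open scoped commutatorElement

variable {G : Type*} [Group G]

abbrev QQ (p : ℕ) (E : Subgroup G) : Subgroup G := pCoreOf p E
abbrev WW (p : ℕ) (E : Subgroup G) : Subgroup G := omegaOneCenter p (pCoreOf p E)
abbrev ZZ (p : ℕ) (E : Subgroup G) : Subgroup G := omegaOneCenter p (pCoreOf p E) ⊓ centralizer (E : Set G)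
abbrev VV (p : ℕ) (E : Subgroup G) : Subgroup G := ⁅omegaOneCenter p (pCoreOf p E), E⁆
abbrev YY (p : ℕ) (G : Type*) [Group G] : Subgroup G := pCore p G
abbrev MM (p : ℕ) (G : Type*) [Group G] : Subgroup G := omegaOneCenter p (pCore p G)

instance MM_normal (p : ℕ) : (MM p G).Normal := by
  have h1 : normalizer (pCore p G : Set G) = ⊤ :=
    Subgroup.normalizer_eq_top_iff.2 (Cfsg.Agent.Lib.Basic.PCore.pCore_normal p G)
  refine Subgroup.normalizer_eq_top_iff.1 (eq_top_iff.2 ?_)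
  rw [← h1]
  exact Cfsg.Agent.Lib.PGroup.BaumannSect.normalizer_le_omegaOneCenter _

/-- the map `G → G/Y` -/
noncomputable abbrev toQ (p : ℕ) (G : Type*) [Group G] : G →* G ⧸ (pCore p G) :=
  haveI := Cfsg.Agent.Lib.Basic.PCore.pCore_normal p G
  QuotientGroup.mk' (pCore p G)

/-- the action on `M = Ω₁(Z(Y))`. -/
noncomputable abbrev act (p : ℕ) (G : Type*) [Group G] : G →* MulAut ↥(MM p G) :=
  MulAut.conjNormal (H := MM p G)

end Cfsg.Agent.Lib.BlockY
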