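import Mathlib

/-! ## Piece Y3 of S2986: the abstract pair lemma

`A` is a finite abelian group, `x y` automorphisms of "type T" generating an `r`-group.  Then
`[A,x] = [A,y]`, or `x` and `y` commute and centralize each other's commutator subgroup. -/

set_option autoImplicit false

namespace Cfsg.Agent.Lib.BlockY
open Subgroup

section Pair
variable {A : Type*} [Group A] [Finite A]

/-- `[A, x]` -/
def commSub (x : MulAut A) : Subgroup A := closure {u | ∃ a : A, u = a * (x a)⁻¹}

/-- Type `𝒯`: `[A,x]` has `n` elements, no proper `x`-invariant subgroup, `x²` is not trivial on it. -/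
structure IsT (n : ℕ) (x : MulAut A) : Prop where
  card : Nat.card (commSub x) = n
  irr : ∀ U : Subgroup A, U ≤ commSub x → (∀ u ∈ U, x u ∈ U) → U = ⊥ ∨ U = commSub x
  sq : ∃ v ∈ commSub x, x (x v) ≠ v

end Pair

section Core
variable {A : Type*} [CommGroup A]

theorem id_a {a b c d : A} (h : a * b⁻¹ = c * d⁻¹) : a * c⁻¹ = b * d⁻¹ := by
  simp only [← div_eq_mul_inv] at h ⊢
  exact div_eq_div_iff_div_eq_div.1 h

theorem id_b {a b c d : A} (h : a * b⁻¹ = c * d⁻¹) : a * d = c * b := by
  simp only [← div_eq_mul_inv] at h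
  exact div_eq_div_iff_mul_eq_mul.1 h

theorem mem_commSub {x : MulAut A} {u : A} : u ∈ commSub x ↔ ∃ a : A, u = a * (x a)⁻¹ := by
  constructor
  · intro hu
    induction hu using Subgroup.closure_induction with
    | mem u hu => exact hu
    | one => exact ⟨1, by simp⟩
    | mul u v _ _ hu hv =>
      obtain ⟨a, rfl⟩ := hu
      obtain ⟨b, rfl⟩ := hv
      refine ⟨a * b, ?_⟩
      rw [map_mul, mul_inv_rev, mul_comm (x b)⁻¹]
      exact mul_mul_mul_comm _ _ _ _
    | inv u _ hu =>
      obtain ⟨a, rfl⟩ := hu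
      exact ⟨a⁻¹, by simp [mul_comm]⟩
  · rintro ⟨a, rfl⟩
    exact subset_closure ⟨a, rfl⟩

theorem self_mul_mem (x : MulAut A) (a : A) : a * (x a)⁻¹ ∈ commSub x := subset_closure ⟨a, rfl⟩

theorem map_mem_commSub {x : MulAut A} {v : A} (hv : v ∈ commSub x) : x v ∈ commSub x := by
  obtain ⟨a, rfl⟩ := mem_commSub.1 hv
  rw [map_mul, map_inv]
  exact self_mul_mem x (x a)

theorem mem_commSub_conj {h x : MulAut A} {u : A} :
    u ∈ commSub (h * x * h⁻¹) ↔ h⁻¹ u ∈ commSub x := by
  rw [mem_commSub, mem_commSub]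
  constructor
  · rintro ⟨a, rfl⟩
    refine ⟨h⁻¹ a, ?_⟩
    simp [MulAut.mul_apply]
  · rintro ⟨a, ha⟩
    refine ⟨h a, ?_⟩
    have e : u = h (h⁻¹ u) := by simp
    rw [e, ha]
    simp [MulAut.mul_apply]

theorem apply_mem_conj {h x : MulAut A} {v : A} (hv : v ∈ commSub x) :
    h v ∈ commSub (h * x * h⁻¹) := by
  rw [mem_commSub_conj]
  simpa using hv

theorem IsT.conj {n : ℕ} {x : MulAut A} (hx : IsT n x) (h : MulAut A) : IsT n (h * x * h⁻¹) where
  card := by
    rw [← hx.card]
    refine Nat.card_congr (Equiv.subtypeEquiv h.symm.toEquiv ?_)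
    intro u
    rw [mem_commSub_conj]
    rfl
  irr := by
    intro U hU hinv
    let U' : Subgroup A := U.comap h.toMonoidHom
    have hU'mem : ∀ v, v ∈ U' ↔ h v ∈ U := fun v => Iff.rfl
    have h1 : U' ≤ commSub x := by
      intro v hv
      have := hU ((hU'mem v).1 hv)
      rw [mem_commSub_conj] at this
      simpa using this
    have h2 : ∀ u ∈ U', x u ∈ U' := by
      intro v hv
      rw [hU'mem]
      have := hinv _ ((hU'mem v).1 hv)
      simpa [MulAut.mul_apply] using this
    rcases hx.irr U' h1 h2 with hb | he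
    · left
      rw [eq_bot_iff]
      intro u hu
      have h3 : h⁻¹ u ∈ U' := by
        rw [hU'mem]
        simpa using hu
      rw [hb, Subgroup.mem_bot] at h3
      rw [Subgroup.mem_bot]
      have e : u = h (h⁻¹ u) := by simp
      rw [e, h3, map_one]
    · right
      refine le_antisymm hU ?_
      intro u hu
      rw [mem_commSub_conj, ← he, hU'mem] at hu
      simpa using hu
  sq := by
    obtain ⟨v, hv, hne⟩ := hx.sq
    refine ⟨h v, apply_mem_conj hv, ?_⟩
    intro e
    apply hne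
    have : h (x (x v)) = h v := by simpa [MulAut.mul_apply] using e
    exact h.injective this

theorem IsT.eq_one_of_fix {n : ℕ} {x : MulAut A} (hx : IsT n x) {v : A} (hv : v ∈ commSub x)
    (hf : x v = v) : v = 1 := by
  let U : Subgroup A :=
    { carrier := {v | v ∈ commSub x ∧ x v = v}
      mul_mem' := fun ha hb => ⟨mul_mem ha.1 hb.1, by rw [map_mul, ha.2, hb.2]⟩
      one_mem' := ⟨one_mem _, map_one _⟩
      inv_mem' := fun ha => ⟨inv_mem ha.1, by rw [map_inv, ha.2]⟩ }
  rcases hx.irr U (fun v hv => hv.1) (fun u hu => ⟨map_mem_commSub hu.1, congrArg x hu.2⟩) with h | h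
  · have : v ∈ U := ⟨hv, hf⟩
    rw [h] at this
    exact this
  · exfalso
    obtain ⟨w, hw, hne⟩ := hx.sq
    have : w ∈ U := h ▸ hw
    apply hne
    rw [this.2, this.2]

/-- The conclusion of the pair lemma. -/
def Pr (x y : MulAut A) : Prop :=
  commSub x = commSub y ∨
    (x * y = y * x ∧ (∀ v ∈ commSub x, y v = v) ∧ (∀ v ∈ commSub y, x v = v))

theorem step_one [Finite A] {n : ℕ} {x y : MulAut A} (hx : IsT n x) (hy : IsT n y)
    (h01 : Pr y (x * y * x⁻¹)) (h02 : Pr y (x * (x * y * x⁻¹) * x⁻¹))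
    (h12 : Pr (x * y * x⁻¹) (x * (x * y * x⁻¹) * x⁻¹)) : ∀ v ∈ commSub y, x v ∈ commSub y := by
  by_contra hno
  push Not at hno
  obtain ⟨v₀, hv₀, hv₀'⟩ := hno
  have hne : commSub y ≠ commSub (x * y * x⁻¹) := fun e => hv₀' (by
    rw [e]; exact apply_mem_conj hv₀)
  obtain ⟨-, hf1, hf2⟩ := h01.resolve_left hne
  have hdisj : ∀ u, u ∈ commSub y → u ∈ commSub (x * y * x⁻¹) → u = 1 :=
    fun u h1 h2 => hy.eq_one_of_fix h1 (hf2 u h2)
  -- the map `v ↦ v (x v)⁻¹` is a bijection
  have surj : ∀ u ∈ commSub x, ∃ w ∈ commSub y, u = w * (x w)⁻¹ := by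
    let f : commSub y → commSub x := fun v => ⟨(v : A) * (x v)⁻¹, self_mul_mem x v⟩
    have hinj : Function.Injective f := by
      intro v w e
      have e1 : (v : A) * (x v)⁻¹ = w * (x w)⁻¹ := congrArg Subtype.val e
      have e2 : (v : A) * (w : A)⁻¹ = x ((v : A) * (w : A)⁻¹) := by
        rw [map_mul, map_inv]
        exact id_a e1
      have e3 : (v : A) * (w : A)⁻¹ = 1 := by
        apply hdisj _ (mul_mem v.2 (inv_mem w.2))
        rw [e2, map_mul, map_inv]
        exact mul_mem (apply_mem_conj v.2) (inv_mem (apply_mem_conj w.2))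
      exact Subtype.ext (mul_inv_eq_one.1 e3)
    have hb := hinj.bijective_of_nat_card_le (by rw [hx.card, hy.card])
    intro u hu
    obtain ⟨w, hw⟩ := hb.2 ⟨u, hu⟩
    exact ⟨w, w.2, (congrArg Subtype.val hw).symm⟩
  have key : ∀ v ∈ commSub y, ∃ w ∈ commSub y, x v * (x (x v))⁻¹ = w * (x w)⁻¹ := by
    intro v hv
    obtain ⟨w, hw, e⟩ := surj (x (v * (x v)⁻¹)) (map_mem_commSub (self_mul_mem x v))
    refine ⟨w, hw, ?_⟩
    rw [map_mul, map_inv] at e
    exact e
  by_cases h2 : commSub y = commSub (x * (x * y * x⁻¹) * x⁻¹)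
  · -- case `V_{y₂} = V_y`
    have hx2 : ∀ v ∈ commSub y, x (x v) = v := by
      intro v hv
      obtain ⟨w, hw, e⟩ := key v hv
      have hv2 : x (x v) ∈ commSub y := by
        rw [h2]
        exact apply_mem_conj (apply_mem_conj hv)
      have e1 : x v * x w = w * x (x v) := id_b e
      have e2 : x v * x w = 1 :=
        hdisj _ (by rw [e1]; exact mul_mem hw hv2)
          (mul_mem (apply_mem_conj hv) (apply_mem_conj hw))
      have e3 : w = v⁻¹ := by
        have h3 : x (v * w) = 1 := by rw [map_mul, e2]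
        have h4 : v * w = 1 := (map_eq_one_iff x x.injective).1 h3
        exact eq_inv_of_mul_eq_one_right h4
      have e4 : w * x (x v) = 1 := by rw [← e1, e2]
      rw [e3] at e4
      exact (inv_mul_eq_one.1 e4).symm
    obtain ⟨u, hu, hne'⟩ := hx.sq
    obtain ⟨w, hw, rfl⟩ := surj u hu
    apply hne'
    rw [map_mul, map_mul, map_inv, map_inv, hx2 w hw]
  · -- case `V_{y₂} ≠ V_y`
    obtain ⟨-, hf3, -⟩ := h02.resolve_left h2
    have h3 : commSub (x * y * x⁻¹) ≠ commSub (x * (x * y * x⁻¹) * x⁻¹) := by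
      intro e
      have h4 : v₀ ∈ commSub (x * y * x⁻¹) := by
        have h5 : x v₀ ∈ commSub (x * (x * y * x⁻¹) * x⁻¹) := by
          rw [← e]
          exact apply_mem_conj hv₀
        rw [mem_commSub_conj] at h5
        simpa using h5
      have h6 : v₀ = 1 := hdisj _ hv₀ h4
      apply hv₀'
      rw [h6, map_one]
      exact one_mem _
    obtain ⟨-, hf5, -⟩ := h12.resolve_left h3
    have hT₂ : IsT n (x * (x * y * x⁻¹) * x⁻¹) := (hy.conj x).conj x
    have hall : ∀ v ∈ commSub y, v = 1 := by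
      intro v hv
      obtain ⟨w, hw, e⟩ := key v hv
      have hxx : x (x v) = x v * (w * (x w)⁻¹)⁻¹ := by
        rw [← e]
        simp
      have hfix : (x * (x * y * x⁻¹) * x⁻¹) (x (x v)) = x (x v) := by
        rw [hxx, map_mul, map_inv, map_mul, map_inv, hf5 _ (apply_mem_conj hv), hf3 _ hw,
          hf5 _ (apply_mem_conj hw)]
      have h7 := hT₂.eq_one_of_fix (apply_mem_conj (apply_mem_conj hv)) hfix
      have h8 : x v = 1 := (map_eq_one_iff x x.injective).1 h7
      exact (map_eq_one_iff x x.injective).1 h8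
    obtain ⟨u, hu, hne'⟩ := hy.sq
    apply hne'
    rw [hall u hu]
    simp

theorem final_step [Finite A] {n : ℕ} {x y : MulAut A} (hx : IsT n x) (hy : IsT n y)
    (h1 : ∀ v ∈ commSub y, x v ∈ commSub y) (h2 : ∀ v ∈ commSub x, y v ∈ commSub x) : Pr x y := by
  rcases hx.irr (commSub x ⊓ commSub y) inf_le_left
    (fun u hu => ⟨map_mem_commSub hu.1, h1 u hu.2⟩) with hb | he
  · right
    have hdis : ∀ u, u ∈ commSub x → u ∈ commSub y → u = 1 := by
      intro u a b
      have : u ∈ commSub x ⊓ commSub y := ⟨a, b⟩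
      rw [hb] at this
      exact this
    have fx : ∀ v ∈ commSub y, x v = v := by
      intro v hv
      have := hdis (v * (x v)⁻¹) (self_mul_mem x v) (mul_mem hv (inv_mem (h1 v hv)))
      exact (mul_inv_eq_one.1 this).symm
    have fy : ∀ v ∈ commSub x, y v = v := by
      intro v hv
      have := hdis (v * (y v)⁻¹) (mul_mem hv (inv_mem (h2 v hv))) (self_mul_mem y v)
      exact (mul_inv_eq_one.1 this).symm
    refine ⟨?_, fy, fx⟩
    ext a
    have e1 := fy _ (self_mul_mem x a)
    have e2 := fx _ (self_mul_mem y a)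
    rw [map_mul, map_inv] at e1 e2
    show x (y a) = y (x a)
    -- `y a (y x a)⁻¹ = a (x a)⁻¹`, `x a (x y a)⁻¹ = a (y a)⁻¹`
    have h3 : y a * x a = a * y (x a) := id_b e1
    have h4 : x a * y a = a * x (y a) := id_b e2
    apply mul_left_cancel (a := a)
    rw [← h3, ← h4, mul_comm]
  · left
    have hle : commSub x ≤ commSub y := by
      rw [← he]
      exact inf_le_right
    exact Subgroup.eq_of_le_of_card_ge hle (by rw [hx.card, hy.card])

theorem commSub_le_of_mem_zpowers {x y : MulAut A} (h : y ∈ zpowers x) :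
    commSub y ≤ commSub x := by
  let K : Subgroup (MulAut A) :=
    { carrier := {z | ∀ a, a * (z a)⁻¹ ∈ commSub x}
      mul_mem' := by
        intro z w hz hw a
        have h1 := mul_mem (hw a) (hz (w a))
        have e : a * (w a)⁻¹ * (w a * (z (w a))⁻¹) = a * ((z * w) a)⁻¹ := by
          simp [MulAut.mul_apply]
        rwa [e] at h1
      one_mem' := by
        intro a
        simp
      inv_mem' := by
        intro z hz a
        have h1 := inv_mem (hz (z⁻¹ a))
        have e : (z⁻¹ a * (z (z⁻¹ a))⁻¹)⁻¹ = a * (z⁻¹ a)⁻¹ := by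
          simp
        rwa [e] at h1 }
  have hxK : x ∈ K := fun a => self_mul_mem x a
  have hyK : y ∈ K := (Subgroup.zpowers_le.2 hxK) h
  intro u hu
  obtain ⟨a, rfl⟩ := mem_commSub.1 hu
  exact hyK a

end Core

section Normal

/-- In an `r`-group `H`, a cyclic proper subgroup lies in a proper normal subgroup. -/
theorem exists_proper_normal {Γ : Type*} [Group Γ] [Finite Γ] {r : ℕ} [Fact r.Prime]
    (H : Subgroup Γ) (hH : IsPGroup r H) {z w : Γ} (hz : z ∈ H) (hw : w ∈ H)
    (hne : w ∉ zpowers z) :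
    ∃ M : Subgroup Γ, M < H ∧ z ∈ M ∧ ∀ h ∈ H, ∀ m ∈ M, h * m * h⁻¹ ∈ M := by
  haveI : Group.IsNilpotent H := hH.isNilpotent
  have hK : (zpowers z).subgroupOf H ≠ ⊤ := by
    intro e
    have : (⟨w, hw⟩ : H) ∈ (zpowers z).subgroupOf H := e ▸ Subgroup.mem_top _
    exact hne (Subgroup.mem_subgroupOf.1 this)
  obtain ⟨M', hM', hle⟩ := (eq_top_or_exists_le_coatom ((zpowers z).subgroupOf H)).resolve_left hK
  haveI hn : M'.Normal := Group.normalizerCondition_of_isNilpotent.normal_of_coatom M' hM'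
  refine ⟨M'.map H.subtype, ?_, ?_, ?_⟩
  · refine lt_of_le_of_ne ?_ ?_
    · rintro _ ⟨u, -, rfl⟩
      exact u.2
    · intro e
      apply hM'.1
      rw [eq_top_iff]
      intro u _
      have : (u : Γ) ∈ M'.map H.subtype := by
        rw [e]
        exact u.2
      obtain ⟨u', hu', hu2⟩ := this
      have : u' = u := Subtype.ext hu2
      exact this ▸ hu'
  · refine ⟨⟨z, hz⟩, hle ?_, rfl⟩
    rw [Subgroup.mem_subgroupOf]
    exact Subgroup.mem_zpowers z
  · rintro h hh _ ⟨m, hm, rfl⟩
    exact ⟨⟨h, hh⟩ * m * ⟨h, hh⟩⁻¹, hn.conj_mem m hm _, rfl⟩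

end Normal

section Main
variable {A : Type*} [CommGroup A] [Finite A]

theorem pair_core {r n : ℕ} [Fact r.Prime] : ∀ (k : ℕ) (x y : MulAut A),
    Nat.card (closure {x, y} : Subgroup (MulAut A)) = k → IsT n x → IsT n y →
    IsPGroup r (closure {x, y} : Subgroup (MulAut A)) → Pr x y := by
  haveI : Finite (MulAut A) :=
    Finite.of_injective (fun f : MulAut A => (f : A → A)) (fun f g h => MulEquiv.ext (congrFun h))
  intro k
  induction k using Nat.strong_induction_on with
  | _ k ih =>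
    intro x y hk hx hy hr
    have hxH : x ∈ (closure {x, y} : Subgroup (MulAut A)) :=
      subset_closure (Set.mem_insert _ _)
    have hyH : y ∈ (closure {x, y} : Subgroup (MulAut A)) :=
      subset_closure (Set.mem_insert_of_mem _ rfl)
    by_cases hyx : y ∈ zpowers x
    · left
      exact (Subgroup.eq_of_le_of_card_ge (commSub_le_of_mem_zpowers hyx)
        (by rw [hx.card, hy.card])).symm
    by_cases hxy : x ∈ zpowers y
    · left
      exact Subgroup.eq_of_le_of_card_ge (commSub_le_of_mem_zpowers hxy)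
        (by rw [hx.card, hy.card])
    obtain ⟨M₁, hM₁lt, hxM₁, hM₁n⟩ := exists_proper_normal _ hr hxH hyH hyx
    obtain ⟨M₂, hM₂lt, hyM₂, hM₂n⟩ := exists_proper_normal _ hr hyH hxH hxy
    have aux : ∀ M : Subgroup (MulAut A), M < closure {x, y} → ∀ z ∈ M, ∀ w ∈ M,
        IsT n z → IsT n w → Pr z w := by
      intro M hM z hz w hw hTz hTw
      have hle : (closure {z, w} : Subgroup (MulAut A)) ≤ M := by
        rw [closure_le]
        rintro _ (rfl | rfl)
        · exact hz
        · exact hw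
      refine ih (Nat.card (closure {z, w} : Subgroup (MulAut A))) ?_ z w rfl hTz hTw
        (hr.to_le (hle.trans hM.le))
      rw [← hk]
      have h1 : Nat.card (closure {z, w} : Subgroup (MulAut A)) ≤ Nat.card M :=
        Subgroup.card_le_of_le hle
      have h2 : Nat.card M < Nat.card (closure {x, y} : Subgroup (MulAut A)) := by
        refine lt_of_le_of_ne (Subgroup.card_le_of_le hM.le) ?_
        intro e
        exact hM.ne (Subgroup.eq_of_le_of_card_ge hM.le e.ge)
      omega
    have h1 : ∀ v ∈ commSub y, x v ∈ commSub y := by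
      have hy₁ : x * y * x⁻¹ ∈ M₂ := hM₂n x hxH y hyM₂
      have hy₂ : x * (x * y * x⁻¹) * x⁻¹ ∈ M₂ := hM₂n x hxH _ hy₁
      exact step_one hx hy (aux M₂ hM₂lt _ hyM₂ _ hy₁ hy (hy.conj x))
        (aux M₂ hM₂lt _ hyM₂ _ hy₂ hy ((hy.conj x).conj x))
        (aux M₂ hM₂lt _ hy₁ _ hy₂ (hy.conj x) ((hy.conj x).conj x))
    have h2 : ∀ v ∈ commSub x, y v ∈ commSub x := by
      have hy₁ : y * x * y⁻¹ ∈ M₁ := hM₁n y hyH x hxM₁
      have hy₂ : y * (y * x * y⁻¹) * y⁻¹ ∈ M₁ := hM₁n y hyH _ hy₁
      exact step_one hy hx (aux M₁ hM₁lt _ hxM₁ _ hy₁ hx (hx.conj y))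
        (aux M₁ hM₁lt _ hxM₁ _ hy₂ hx ((hx.conj y).conj y))
        (aux M₁ hM₁lt _ hy₁ _ hy₂ (hx.conj y) ((hx.conj y).conj y))
    exact final_step hx hy h1 h2

end Main

section Final
variable {A : Type*} [Group A] [Finite A]

theorem pair_lemma {r n : ℕ} [Fact r.Prime] (hA : ∀ a b : A, a * b = b * a) {x y : MulAut A}
    (hx : IsT n x) (hy : IsT n y) (hr : IsPGroup r (closure {x, y} : Subgroup (MulAut A))) :
    commSub x = commSub y ∨
      (x * y = y * x ∧ (∀ v ∈ commSub x, y v = v) ∧ (∀ v ∈ commSub y, x v = v)) := by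
  letI C : CommGroup A := { (inferInstance : Group A) with mul_comm := hA }
  exact @pair_core A C _ r n _ _ x y rfl hx hy hr

end Final

end Cfsg.Agent.Lib.BlockY
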