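import Mathlib
import Cfsg.Agent.Lib.BlockY.Defs
import Cfsg.Agent.Lib.BlockY.Pair

/-! The structure `Small` of piece Y4 (small Baumann blocks, `p ∈ {2,3}`, `r = 5 - p`). -/

namespace Cfsg.Agent.Lib.BlockY
open Subgroup Cfsg
open scoped commutatorElement

variable {G : Type*} [Group G]

/-- A small block: `p ∈ {2,3}`, `r = 5 - p`. `act` is conjugation on `M`. -/
structure Small (p r : ℕ) (E : Subgroup G) (S : Set G) : Prop where
  hS : S ⊆ E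
  hgen : E ≤ closure S ⊔ QQ p E
  hr : IsPGroup r (E.map (toQ p G))
  hrM : IsPGroup r (E.map (act p G))
  hcomm : ∀ x ∈ S, (commSub (act p G x)).map (MM p G).subtype = VV p E
  hT : ∀ x ∈ S, IsT (p ^ 2) (act p G x)
  /-- cover: any automorphism of `V` of the right type is induced by `E` -/
  hcov : ∀ f : G, (∀ v ∈ VV p E, f * v * f⁻¹ ∈ VV p E) → (if p = 2 then ∀ v ∈ VV p E, f ^ 3 * v * (f ^ 3)⁻¹ = v else ∀ v ∈ VV p E, f ^ 2 * v * (f ^ 2)⁻¹ = v⁻¹) →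
    ∃ e ∈ E, ∀ v ∈ VV p E, f * v * f⁻¹ = e * v * e⁻¹
  htype : ∀ x ∈ S, (if p = 2 then ∀ v ∈ VV p E, x ^ 3 * v * (x ^ 3)⁻¹ = v else ∀ v ∈ VV p E, x ^ 2 * v * (x ^ 2)⁻¹ = v⁻¹)

end Cfsg.Agent.Lib.BlockY
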