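import Mathlib
import Cfsg.Agent.Lib.BlockX.RawOf
import Cfsg.Agent.Lib.BlockY.SmallDef
import Cfsg.Agent.Lib.BlockY.CasesMat

/-! Small Baumann blocks from elementwise data over the prime field (piece Y4 of S2986). -/

set_option autoImplicit false

namespace Cfsg.Agent.Lib.BlockY.CasesCore
open Subgroup Cfsg Cfsg.Agent.Lib.BlockX Matrix Cfsg.Agent.Lib.BlockY.CasesMat
open Cfsg.Agent.Lib.PGroup.BaumannSect
open scoped commutatorElement

variable {G : Type*} [Group G]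

/-- Elementwise data on `W/Z` over the prime field. -/
structure D (p : ℕ) [Fact p.Prime] (E Q W Z : Subgroup G) (ψ : G → F2 (ZMod p)) (ρ : G → SL2 (ZMod p)) : Prop where
  hEW : ∀ e ∈ E, ∀ w ∈ W, e * w * e⁻¹ ∈ W
  hZW : Z ≤ W
  hZE : ∀ z ∈ Z, ∀ e ∈ E, e * z * e⁻¹ = z
  hQE : Q ≤ E
  hQW : ∀ q ∈ Q, ∀ w ∈ W, q * w * q⁻¹ = w
  hWc : ∀ x ∈ W, ∀ y ∈ W, x * y = y * x
  hWp : ∀ w ∈ W, w ^ p = 1
  a1 : ∀ x ∈ W, ∀ y ∈ W, ψ (x * y) = ψ x + ψ y
  a2 : ∀ b, ∃ u ∈ W, ψ u = b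
  a3 : ∀ u ∈ W, ψ u = 0 ↔ u ∈ Z
  a4 : ∀ x ∈ E, ∀ y ∈ E, ρ (x * y) = ρ x * ρ y
  a5 : ∀ e ∈ E, ρ e ∈ commutator (SL2 (ZMod p))
  a6 : ∀ k ∈ commutator (SL2 (ZMod p)), ∃ e ∈ E, ρ e = k
  a7 : ∀ e ∈ E, ∀ u ∈ W, ψ (e * u * e⁻¹) = sact (ρ e) (ψ u)
  a8 : ∀ e ∈ E, ρ e = 1 ↔ e ∈ Q

theorem ext2 {F : Type*} {a b : F2 F} (h0 : a 0 = b 0) (h1 : a 1 = b 1) : a = b := by
  funext i
  fin_cases i
  · exact h0
  · exact h1

theorem sact_mul' {F : Type*} [Field F] (k l : SL2 F) (a : F2 F) : sact (k * l) a = sact k (sact l a) := by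
  simp only [sact, Matrix.SpecialLinearGroup.coe_mul, Matrix.mulVec_mulVec]

theorem sact_one' {F : Type*} [Field F] (a : F2 F) : sact (1 : SL2 F) a = a := by simp [sact]

theorem sact_neg' {F : Type*} [Field F] (a : F2 F) : sact (-1 : SL2 F) a = -a := by
  simp [sact, Matrix.neg_mulVec]

section
variable {p : ℕ} [Fact p.Prime] {E Q W Z : Subgroup G} {ψ : G → F2 (ZMod p)} {ρ : G → SL2 (ZMod p)}

theorem D.psi_one (d : D p E Q W Z ψ ρ) : ψ 1 = 0 := by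
  have h := d.a1 1 W.one_mem 1 W.one_mem
  simpa using h

theorem D.psi_inv (d : D p E Q W Z ψ ρ) {w : G} (hw : w ∈ W) : ψ w⁻¹ = - ψ w := by
  have h := d.a1 w hw w⁻¹ (W.inv_mem hw)
  rw [mul_inv_cancel, d.psi_one] at h
  exact (eq_neg_of_add_eq_zero_right h.symm)

theorem D.psi_pow (d : D p E Q W Z ψ ρ) {w : G} (hw : w ∈ W) (n : ℕ) : ψ (w ^ n) = n • ψ w := by
  induction n with
  | zero => simp [d.psi_one]
  | succ n ih => rw [pow_succ, d.a1 _ (W.pow_mem hw n) _ hw, ih, succ_nsmul]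

theorem D.rho_one (d : D p E Q W Z ψ ρ) : ρ 1 = 1 := by
  have h := d.a4 1 E.one_mem 1 E.one_mem
  rw [mul_one] at h
  exact (mul_eq_left.1 h.symm)

theorem D.rho_pow (d : D p E Q W Z ψ ρ) {e : G} (he : e ∈ E) (n : ℕ) : ρ (e ^ n) = ρ e ^ n := by
  induction n with
  | zero => simp [d.rho_one]
  | succ n ih => rw [pow_succ, d.a4 _ (E.pow_mem he n) _ he, ih, pow_succ]

theorem D.rho_inv (d : D p E Q W Z ψ ρ) {e : G} (he : e ∈ E) : ρ e⁻¹ = (ρ e)⁻¹ := by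
  have h := d.a4 e he e⁻¹ (E.inv_mem he)
  rw [mul_inv_cancel, d.rho_one] at h
  exact (eq_inv_of_mul_eq_one_right h.symm)

theorem comm_eq (w e : G) : ⁅w, e⁆ = w * (e * w * e⁻¹)⁻¹ := by
  simp only [commutatorElement_def]; group

theorem D.comm_W (d : D p E Q W Z ψ ρ) {w e : G} (hw : w ∈ W) (he : e ∈ E) : ⁅w, e⁆ ∈ W := by
  rw [comm_eq]
  exact W.mul_mem hw (W.inv_mem (d.hEW e he w hw))

theorem D.psi_comm (d : D p E Q W Z ψ ρ) {w e : G} (hw : w ∈ W) (he : e ∈ E) :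
    ψ ⁅w, e⁆ = ψ w - sact (ρ e) (ψ w) := by
  rw [comm_eq, d.a1 _ hw _ (W.inv_mem (d.hEW e he w hw)), d.psi_inv (d.hEW e he w hw), d.a7 e he w hw,
    sub_eq_add_neg]

theorem D.V_le_W (d : D p E Q W Z ψ ρ) : ⁅W, E⁆ ≤ W := by
  rw [Subgroup.commutator_le]
  intro w hw e he
  exact d.comm_W hw he

theorem D.conj_V (d : D p E Q W Z ψ ρ) {e v : G} (he : e ∈ E) (hv : v ∈ ⁅W, E⁆) : e * v * e⁻¹ ∈ ⁅W, E⁆ := by
  have h : ⁅W, E⁆ ≤ (⁅W, E⁆ : Subgroup G).comap (MulAut.conj e).toMonoidHom := by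
    rw [Subgroup.commutator_le]
    intro w hw x hx
    rw [Subgroup.mem_comap]
    have h1 : (MulAut.conj e).toMonoidHom ⁅w, x⁆ = ⁅e * w * e⁻¹, e * x * e⁻¹⁆ := by
      simp only [commutatorElement_def, MulEquiv.toMonoidHom_eq_coe, MonoidHom.coe_coe, MulAut.conj_apply]
      group
    rw [h1]
    exact Subgroup.commutator_mem_commutator (d.hEW e he w hw) (E.mul_mem (E.mul_mem he hx) (E.inv_mem he))
  have := h hv
  rwa [Subgroup.mem_comap] at this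

/-- The norm of `w` under `t`. -/
def Phi (t : G) : ℕ → G → G
  | 0, _ => 1
  | n + 1, w => w * (t * Phi t n w * t⁻¹)

section Phi
variable {t : G} (d : D p E Q W Z ψ ρ) (ht : t ∈ E)
include d ht

theorem phi_mem (n : ℕ) {w : G} (hw : w ∈ W) : Phi t n w ∈ W := by
  induction n with
  | zero => exact W.one_mem
  | succ n ih => exact W.mul_mem hw (d.hEW t ht _ ih)

theorem phi_mul (n : ℕ) {w w' : G} (hw : w ∈ W) (hw' : w' ∈ W) :
    Phi t n (w * w') = Phi t n w * Phi t n w' := by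
  induction n with
  | zero => simp [Phi]
  | succ n ih =>
    simp only [Phi]
    rw [ih]
    have h1 := d.hEW t ht _ (phi_mem d ht n hw)
    have h2 := d.hEW t ht _ (phi_mem d ht n hw')
    have e1 : t * (Phi t n w * Phi t n w') * t⁻¹ = (t * Phi t n w * t⁻¹) * (t * Phi t n w' * t⁻¹) := by group
    rw [e1]
    calc w * w' * ((t * Phi t n w * t⁻¹) * (t * Phi t n w' * t⁻¹))
        = w * (w' * (t * Phi t n w * t⁻¹)) * (t * Phi t n w' * t⁻¹) := by group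
      _ = w * ((t * Phi t n w * t⁻¹) * w') * (t * Phi t n w' * t⁻¹) := by rw [d.hWc _ hw' _ h1]
      _ = _ := by group

theorem phi_one (n : ℕ) : Phi t n 1 = 1 := by
  induction n with
  | zero => rfl
  | succ n ih => simp [Phi, ih]

/-- `e t e⁻¹` acts as `t` on `W`. -/
theorem conj_act (hc : ∀ e ∈ E, ρ e * ρ t = ρ t * ρ e) {e y : G} (he : e ∈ E) (hy : y ∈ W) :
    (e * t * e⁻¹) * y * (e * t * e⁻¹)⁻¹ = t * y * t⁻¹ := by
  have hq : e * t * e⁻¹ * t⁻¹ ∈ Q := by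
    have hm : e * t * e⁻¹ * t⁻¹ ∈ E :=
      E.mul_mem (E.mul_mem (E.mul_mem he ht) (E.inv_mem he)) (E.inv_mem ht)
    apply (d.a8 _ hm).1
    rw [d.a4 _ (E.mul_mem (E.mul_mem he ht) (E.inv_mem he)) _ (E.inv_mem ht),
      d.a4 _ (E.mul_mem he ht) _ (E.inv_mem he), d.a4 _ he _ ht, d.rho_inv he, d.rho_inv ht, hc e he]
    group
  have h1 := d.hQW _ hq _ (d.hEW t ht y hy)
  calc (e * t * e⁻¹) * y * (e * t * e⁻¹)⁻¹
      = (e * t * e⁻¹ * t⁻¹) * (t * y * t⁻¹) * (e * t * e⁻¹ * t⁻¹)⁻¹ := by group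
    _ = t * y * t⁻¹ := h1

theorem phi_conj (hc : ∀ e ∈ E, ρ e * ρ t = ρ t * ρ e) (n : ℕ) {e w : G} (he : e ∈ E) (hw : w ∈ W) :
    Phi t n (e * w * e⁻¹) = e * Phi t n w * e⁻¹ := by
  induction n with
  | zero => simp [Phi]
  | succ n ih =>
    simp only [Phi]
    rw [ih]
    have h1 := conj_act d ht hc he (phi_mem d ht n hw)
    have h2 := conj_act d ht hc he (d.hEW e he _ (phi_mem d ht n hw))
    have e1 : t * (e * Phi t n w * e⁻¹) * t⁻¹ = e * (t * Phi t n w * t⁻¹) * e⁻¹ := by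
      rw [← h2]; group
    rw [e1]; group

theorem phi_right (n : ℕ) {w : G} (hw : w ∈ W) :
    t * Phi t n w * t⁻¹ * w = Phi t n w * (t ^ n * w * (t ^ n)⁻¹) := by
  induction n with
  | zero => simp [Phi]
  | succ n ih =>
    simp only [Phi]
    have h0 := phi_mem d ht n hw
    have h1 := d.hEW t ht _ h0
    have h2 := d.hEW t ht _ hw
    have e1 : t * (w * (t * Phi t n w * t⁻¹)) * t⁻¹ = (t * w * t⁻¹) * (t * (t * Phi t n w * t⁻¹) * t⁻¹) := by group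
    have e2 : t * (t * Phi t n w * t⁻¹ * w) * t⁻¹ = t * Phi t n w * t⁻¹ * (t ^ (n + 1) * w * (t ^ (n + 1))⁻¹) := by
      rw [ih, pow_succ']; group
    have h3 := d.hEW t ht _ h1
    calc t * (w * (t * Phi t n w * t⁻¹)) * t⁻¹ * w
        = (t * w * t⁻¹) * (t * (t * Phi t n w * t⁻¹) * t⁻¹) * w := by rw [e1]
      _ = w * ((t * w * t⁻¹) * (t * (t * Phi t n w * t⁻¹) * t⁻¹)) := by
          rw [d.hWc _ (W.mul_mem h2 h3) _ hw]
      _ = w * (t * (t * Phi t n w * t⁻¹ * w) * t⁻¹) := by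
          congr 1
          have e3 : t * (t * Phi t n w * t⁻¹ * w) * t⁻¹ =
              (t * (t * Phi t n w * t⁻¹) * t⁻¹) * (t * w * t⁻¹) := by group
          rw [e3, d.hWc _ h2 _ h3]
      _ = w * (t * Phi t n w * t⁻¹) * (t ^ (n + 1) * w * (t ^ (n + 1))⁻¹) := by
          rw [e2]; group

theorem phi_fix {s : ℕ} (hs : ρ t ^ s = 1) (hfix : ∀ a : F2 (ZMod p), sact (ρ t) a = a → a = 0) {w : G} (hw : w ∈ W) :
    Phi t s w ∈ Z := by
  have hq : t ^ s ∈ Q := (d.a8 _ (E.pow_mem ht s)).1 (by rw [d.rho_pow ht, hs])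
  have h1 := phi_right d ht s hw
  rw [d.hQW _ hq w hw] at h1
  have h2 := mul_right_cancel h1
  have h3 := d.a7 t ht _ (phi_mem d ht s hw)
  rw [h2] at h3
  exact (d.a3 _ (phi_mem d ht s hw)).1 (hfix _ h3.symm)

theorem phi_on_Z (n : ℕ) {z : G} (hz : z ∈ Z) : Phi t n z = z ^ n := by
  induction n with
  | zero => simp [Phi]
  | succ n ih =>
    simp only [Phi]
    rw [ih, ← conj_pow, d.hZE z hz t ht, pow_succ']

/-- `V ∩ Z = 1`. -/
theorem V_inf_Z {s : ℕ} (hs : ρ t ^ s = 1) (hfix : ∀ a : F2 (ZMod p), sact (ρ t) a = a → a = 0)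
    (hc : ∀ e ∈ E, ρ e * ρ t = ρ t * ρ e) (hcop : Nat.Coprime s p) {v : G} (hv : v ∈ ⁅W, E⁆) (hvZ : v ∈ Z) :
    v = 1 := by
  let L : Subgroup G :=
    { carrier := {w | w ∈ W ∧ Phi t s w = 1}
      one_mem' := ⟨W.one_mem, phi_one d ht s⟩
      mul_mem' := by
        rintro a b ⟨ha, ha'⟩ ⟨hb, hb'⟩
        exact ⟨W.mul_mem ha hb, by rw [phi_mul d ht s ha hb, ha', hb', one_mul]⟩
      inv_mem' := by
        rintro a ⟨ha, ha'⟩
        refine ⟨W.inv_mem ha, ?_⟩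
        have h1 := phi_mul d ht s ha (W.inv_mem ha)
        rw [mul_inv_cancel, phi_one d ht s, ha', one_mul] at h1
        exact h1.symm }
  have hV : ⁅W, E⁆ ≤ L := by
    rw [Subgroup.commutator_le]
    intro w hw e he
    refine ⟨d.comm_W hw he, ?_⟩
    rw [comm_eq, phi_mul d ht s hw (W.inv_mem (d.hEW e he w hw))]
    have h1 : (e * w * e⁻¹)⁻¹ = e * w⁻¹ * e⁻¹ := by group
    rw [h1, phi_conj d ht hc s he (W.inv_mem hw),
      d.hZE _ (phi_fix d ht hs hfix (W.inv_mem hw)) e he, ← phi_mul d ht s hw (W.inv_mem hw), mul_inv_cancel,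
      phi_one d ht s]
  have h1 := (hV hv).2
  rw [phi_on_Z d ht s hvZ] at h1
  have h2 := d.hWp v (d.hZW hvZ)
  have h3 := Nat.dvd_gcd (orderOf_dvd_of_pow_eq_one h1) (orderOf_dvd_of_pow_eq_one h2)
  rw [hcop] at h3
  exact orderOf_eq_one_iff.1 (Nat.dvd_one.1 h3)

end Phi

theorem one_sub_surj {k : SL2 (ZMod p)} (hk : NoEig k) (a : F2 (ZMod p)) : ∃ b, b - sact k b = a := by
  have hinj : Function.Injective (fun b : F2 (ZMod p) => b - sact k b) := by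
    intro b b' h
    by_contra hne
    have h1 : b - b' ≠ 0 := sub_ne_zero.2 hne
    apply hk _ h1 1
    have h2 : b - sact k b = b' - sact k b' := h
    have h3 : sact k (b - b') = sact k b - sact k b' := Matrix.mulVec_sub _ _ _
    rw [h3, one_smul]
    calc sact k b - sact k b' = (b - (b - sact k b)) - (b' - (b' - sact k b')) := by abel
      _ = b - b' := by rw [h2]; abel
  exact (Finite.injective_iff_surjective.1 hinj) a

theorem span_of_noEig {k : SL2 (ZMod p)} (hk : NoEig k) {u : F2 (ZMod p)} (hu : u ≠ 0) (w : F2 (ZMod p)) :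
    ∃ a b : ZMod p, w = a • u + b • sact k u := by
  set v := sact k u with hv
  have hD : u 0 * v 1 - u 1 * v 0 ≠ 0 := by
    intro hD
    have hD' : u 0 * v 1 = u 1 * v 0 := sub_eq_zero.1 hD
    by_cases h0 : u 0 = 0
    · have h1 : u 1 ≠ 0 := by
        intro h1
        exact hu (ext2 h0 h1)
      apply hk u hu (v 1 / u 1)
      apply ext2
      · rw [h0] at hD'
        simp only [zero_mul] at hD'
        have : v 0 = 0 := (mul_eq_zero.1 hD'.symm).resolve_left h1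
        show v 0 = v 1 / u 1 * u 0
        rw [h0, this]; ring
      · show v 1 = v 1 / u 1 * u 1
        field_simp
    · apply hk u hu (v 0 / u 0)
      apply ext2
      · show v 0 = v 0 / u 0 * u 0
        field_simp
      · show v 1 = v 0 / u 0 * u 1
        field_simp
        linear_combination hD'
  refine ⟨(w 0 * v 1 - w 1 * v 0) / (u 0 * v 1 - u 1 * v 0), (u 0 * w 1 - u 1 * w 0) / (u 0 * v 1 - u 1 * v 0), ?_⟩
  apply ext2
  · show w 0 = _ * u 0 + _ * v 0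
    rw [div_mul_eq_mul_div, div_mul_eq_mul_div, ← add_div, eq_div_iff hD]
    ring
  · show w 1 = _ * u 1 + _ * v 1
    rw [div_mul_eq_mul_div, div_mul_eq_mul_div, ← add_div, eq_div_iff hD]
    ring

end

section Small
variable {p r s N : ℕ} [Fact p.Prime] [Finite G] {E : Subgroup G} {ψ : G → F2 (ZMod p)} {ρ : G → SL2 (ZMod p)}

theorem act_coe (x : G) (a : ↥(MM p G)) : ((act p G x a : ↥(MM p G)) : G) = x * a * x⁻¹ := rfl

/-- `V` has a bijection onto `F²`. -/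
structure VB (p : ℕ) [Fact p.Prime] (E : Subgroup G) (ψ : G → F2 (ZMod p)) : Prop where
  inj : ∀ v ∈ VV p E, ∀ v' ∈ VV p E, ψ v = ψ v' → v = v'
  surj : ∀ a, ∃ v ∈ VV p E, ψ v = a

theorem exists_VB (m : MatFacts p r s N) (d : D p E (QQ p E) (WW p E) (ZZ p E) ψ ρ) : VB p E ψ := by
  obtain ⟨k₀, hk₀, hk₀s, hk₀c, hk₀f⟩ := m.t0
  obtain ⟨t, ht, rfl⟩ := d.a6 k₀ hk₀
  constructor
  · intro v hv v' hv' h
    have hW : v ∈ WW p E := d.V_le_W hv
    have hW' : v' ∈ WW p E := d.V_le_W hv'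
    have h1 : v * v'⁻¹ ∈ (VV p E : Subgroup G) := mul_mem hv (inv_mem hv')
    have h2 : ψ (v * v'⁻¹) = 0 := by
      rw [d.a1 _ hW _ (inv_mem hW'), d.psi_inv hW', h]; simp
    have h3 := (d.a3 _ (d.V_le_W h1)).1 h2
    have h4 := V_inf_Z d ht hk₀s hk₀f (fun e he => hk₀c _ (d.a5 e he)) m.hcop h1 h3
    exact mul_inv_eq_one.1 h4
  · intro a
    obtain ⟨k, hk, h1, h2⟩ := m.exK
    obtain ⟨x, hx, rfl⟩ := d.a6 k hk
    obtain ⟨b, rfl⟩ := one_sub_surj (m.noEig _ hk h1 h2) a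
    obtain ⟨w, hw, rfl⟩ := d.a2 b
    exact ⟨⁅w, x⁆, Subgroup.commutator_mem_commutator hw hx, d.psi_comm hw hx⟩

variable (m : MatFacts p r s N) (d : D p E (QQ p E) (WW p E) (ZZ p E) ψ ρ) (vb : VB p E ψ)
  (hVM : VV p E ≤ MM p G) (hMV : ∀ y ∈ MM p G, ∀ e ∈ E, ⁅y, e⁆ ∈ VV p E)
include d vb hVM hMV

theorem hcomm_of {x : G} (hx : x ∈ E) (hk : NoEig (ρ x)) :
    (commSub (act p G x)).map (MM p G).subtype = VV p E := by
  apply le_antisymm
  · rw [Subgroup.map_le_iff_le_comap, commSub, Subgroup.closure_le]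
    rintro u ⟨a, rfl⟩
    show ((a * (act p G x a)⁻¹ : ↥(MM p G)) : G) ∈ VV p E
    rw [Subgroup.coe_mul, Subgroup.coe_inv, act_coe, ← comm_eq]
    exact hMV _ a.2 x hx
  · intro v hv
    obtain ⟨b, hb⟩ := one_sub_surj hk (ψ v)
    obtain ⟨v₀, hv₀, rfl⟩ := vb.surj b
    have h1 : ⁅v₀, x⁆ ∈ VV p E := by
      rw [comm_eq]
      exact mul_mem hv₀ (inv_mem (d.conj_V hx hv₀))
    have h2 : ⁅v₀, x⁆ = v := vb.inj _ h1 _ hv (by rw [d.psi_comm (d.V_le_W hv₀) hx, hb])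
    rw [← h2]
    refine ⟨⟨v₀, hVM hv₀⟩ * (act p G x ⟨v₀, hVM hv₀⟩)⁻¹, Subgroup.subset_closure ⟨_, rfl⟩, ?_⟩
    show ((⟨v₀, hVM hv₀⟩ * (act p G x ⟨v₀, hVM hv₀⟩)⁻¹ : ↥(MM p G)) : G) = _
    rw [Subgroup.coe_mul, Subgroup.coe_inv, act_coe, comm_eq]

theorem hT_of {x : G} (hx : x ∈ E) (hk : NoEig (ρ x)) (hsq : ∀ u : F2 (ZMod p), u ≠ 0 → sact (ρ x * ρ x) u ≠ u) :
    IsT (p ^ 2) (act p G x) := by
  have hmap := hcomm_of d vb hVM hMV hx hk
  have hmem : ∀ y : ↥(MM p G), y ∈ commSub (act p G x) ↔ (y : G) ∈ VV p E := by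
    intro y
    rw [← hmap]
    constructor
    · intro h
      exact ⟨y, h, rfl⟩
    · rintro ⟨z, hz, hzy⟩
      have : z = y := Subtype.ext hzy
      rwa [← this]
  have hact : ∀ y : ↥(MM p G), (y : G) ∈ (VV p E : Subgroup G) →
      ψ ((act p G x y : ↥(MM p G)) : G) = sact (ρ x) (ψ y) := by
    intro y hy
    rw [act_coe]
    exact d.a7 x hx _ (d.V_le_W hy)
  constructor
  · -- card
    have h1 : Nat.card ↥(commSub (act p G x)) = Nat.card ↥(VV p E) := by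
      rw [← hmap]
      exact Nat.card_congr ((commSub (act p G x)).equivMapOfInjective _ (Subgroup.subtype_injective _)).toEquiv
    rw [h1]
    have h2 : Function.Bijective (fun v : ↥(VV p E) => ψ v) := by
      constructor
      · intro a b hab
        exact Subtype.ext (vb.inj _ a.2 _ b.2 hab)
      · intro a
        obtain ⟨v, hv, rfl⟩ := vb.surj a
        exact ⟨⟨v, hv⟩, rfl⟩
    rw [Nat.card_eq_of_bijective _ h2]
    simp [Nat.card_eq_fintype_card, ZMod.card]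
  · -- irreducible
    intro U hU hinv
    by_cases hbot : U = ⊥
    · exact Or.inl hbot
    right
    apply le_antisymm hU
    obtain ⟨u, huU, hu1⟩ := (Subgroup.ne_bot_iff_exists_ne_one.1 hbot |>.imp fun a h => h) |> fun ⟨a, ha⟩ => (⟨(a : ↥(MM p G)), a.2, fun h => ha (Subtype.ext h)⟩ : ∃ u ∈ U, u ≠ 1)
    have huV : (u : G) ∈ VV p E := (hmem u).1 (hU huU)
    have hψu : ψ (u : G) ≠ 0 := by
      intro h0
      apply hu1
      apply Subtype.ext
      have := vb.inj _ huV 1 (one_mem _) (by rw [h0, d.psi_one])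
      exact this
    intro y hy
    have hyV : (y : G) ∈ VV p E := (hmem y).1 hy
    obtain ⟨a, b, hab⟩ := span_of_noEig hk hψu (ψ y)
    have hxu := hinv u huU
    have hxuV : ((act p G x u : ↥(MM p G)) : G) ∈ VV p E := (hmem _).1 (hU hxu)
    have hw : u ^ a.val * (act p G x u) ^ b.val ∈ U := mul_mem (pow_mem huU _) (pow_mem hxu _)
    have hwV : ((u ^ a.val * (act p G x u) ^ b.val : ↥(MM p G)) : G) ∈ VV p E := (hmem _).1 (hU hw)
    have hval : ∀ (c : ZMod p) (f : F2 (ZMod p)), c.val • f = c • f := by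
      intro c f
      funext i
      simp only [Pi.smul_apply, smul_eq_mul, nsmul_eq_mul, ZMod.natCast_val, ZMod.cast_id', id]
    have heq : ((u ^ a.val * (act p G x u) ^ b.val : ↥(MM p G)) : G) = y := by
      apply vb.inj _ hwV _ hyV
      rw [hab, Subgroup.coe_mul, Subgroup.coe_pow, Subgroup.coe_pow,
        d.a1 _ (pow_mem (d.V_le_W huV) _) _ (pow_mem (d.V_le_W hxuV) _),
        d.psi_pow (d.V_le_W huV), d.psi_pow (d.V_le_W hxuV), hact u huV, hval, hval]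
    have : y = u ^ a.val * (act p G x u) ^ b.val := (Subtype.ext heq).symm
    rw [this]
    exact hw
  · -- square
    have hu : (Pi.single 0 1 : F2 (ZMod p)) ≠ 0 := by
      intro h
      have := congrFun h 0
      simp at this
    obtain ⟨v, hv, hψv⟩ := vb.surj (Pi.single 0 1)
    refine ⟨⟨v, hVM hv⟩, (hmem _).2 hv, ?_⟩
    intro h
    apply hsq _ hu
    rw [sact_mul', ← hψv, ← hact ⟨v, hVM hv⟩ hv, ← hact, h]
    have := (hmem (act p G x ⟨v, hVM hv⟩))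
    rw [act_coe]
    exact d.conj_V hx hv

theorem htype_of {x : G} (hx : x ∈ E)
    (hty : if p = 2 then ρ x * ρ x * ρ x = 1 else ρ x * ρ x = -1) :
    (if p = 2 then ∀ v ∈ VV p E, x ^ 3 * v * (x ^ 3)⁻¹ = v else ∀ v ∈ VV p E, x ^ 2 * v * (x ^ 2)⁻¹ = v⁻¹) := by
  split_ifs with hp
  · rw [if_pos hp] at hty
    intro v hv
    have hx3 : x ^ 3 ∈ E := pow_mem hx 3
    apply vb.inj _ (d.conj_V hx3 hv) _ hv
    rw [d.a7 _ hx3 _ (d.V_le_W hv), d.rho_pow hx]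
    have h1 : ρ x ^ 3 = ρ x * ρ x * ρ x := by
      rw [pow_succ, pow_two]
    rw [h1, hty, sact_one']
  · rw [if_neg hp] at hty
    intro v hv
    have hx2 : x ^ 2 ∈ E := pow_mem hx 2
    apply vb.inj _ (d.conj_V hx2 hv) _ (inv_mem hv)
    rw [d.a7 _ hx2 _ (d.V_le_W hv), d.rho_pow hx, pow_two, hty, sact_neg', d.psi_inv (d.V_le_W hv)]

include m in
theorem hcov_of (f : G) (hf : ∀ v ∈ VV p E, f * v * f⁻¹ ∈ VV p E)
    (hcond : if p = 2 then ∀ v ∈ VV p E, f ^ 3 * v * (f ^ 3)⁻¹ = v else ∀ v ∈ VV p E, f ^ 2 * v * (f ^ 2)⁻¹ = v⁻¹) :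
    ∃ e ∈ E, ∀ v ∈ VV p E, f * v * f⁻¹ = e * v * e⁻¹ := by
  classical
  choose σ hσV hσψ using vb.surj
  let fh : F2 (ZMod p) → F2 (ZMod p) := fun a => ψ (f * σ a * f⁻¹)
  have hkey : ∀ v ∈ VV p E, ψ (f * v * f⁻¹) = fh (ψ v) := by
    intro v hv
    have : σ (ψ v) = v := vb.inj _ (hσV _) _ hv (hσψ _)
    show _ = ψ (f * σ (ψ v) * f⁻¹)
    rw [this]
  have hadd : ∀ a b, fh (a + b) = fh a + fh b := by
    intro a b
    have h1 : σ (a + b) = σ a * σ b := by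
      apply vb.inj _ (hσV _) _ (mul_mem (hσV _) (hσV _))
      rw [hσψ, d.a1 _ (d.V_le_W (hσV _)) _ (d.V_le_W (hσV _)), hσψ, hσψ]
    show ψ (f * σ (a + b) * f⁻¹) = ψ (f * σ a * f⁻¹) + ψ (f * σ b * f⁻¹)
    rw [h1, ← d.a1 _ (d.V_le_W (hf _ (hσV _))) _ (d.V_le_W (hf _ (hσV _)))]
    congr 1
    group
  let fa : F2 (ZMod p) →+ F2 (ZMod p) := AddMonoidHom.mk' fh hadd
  let M : Matrix (Fin 2) (Fin 2) (ZMod p) := fun i j => fh (Pi.single j 1) i
  have hval : ∀ (c : ZMod p) (f : F2 (ZMod p)), c.val • f = c • f := by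
    intro c f
    funext i
    simp only [Pi.smul_apply, smul_eq_mul, nsmul_eq_mul, ZMod.natCast_val, ZMod.cast_id', id]
  have hM : ∀ a, M.mulVec a = fh a := by
    intro a
    have h1 : a = (a 0).val • (Pi.single 0 1 : F2 (ZMod p)) + (a 1).val • (Pi.single 1 1 : F2 (ZMod p)) := by
      rw [hval, hval]
      apply ext2 <;> simp
    have h2 : fh a = (a 0).val • fh (Pi.single 0 1) + (a 1).val • fh (Pi.single 1 1) := by
      conv_lhs => rw [h1]
      show fa _ = _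
      rw [map_add, map_nsmul, map_nsmul]
      rfl
    rw [h2, hval, hval]
    funext i
    simp only [Matrix.mulVec, dotProduct, Fin.sum_univ_two, Pi.add_apply, Pi.smul_apply, smul_eq_mul, M]
    ring
  have hpow : ∀ v ∈ VV p E, fh (fh (ψ v)) = ψ (f ^ 2 * v * (f ^ 2)⁻¹) := by
    intro v hv
    rw [← hkey _ hv, ← hkey _ (hf _ hv)]
    congr 1
    rw [pow_two]
    group
  have hpow3 : ∀ v ∈ VV p E, fh (fh (fh (ψ v))) = ψ (f ^ 3 * v * (f ^ 3)⁻¹) := by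
    intro v hv
    rw [← hkey _ hv, ← hkey _ (hf _ hv), ← hkey _ (hf _ (hf _ hv))]
    congr 1
    rw [show f ^ 3 = f * f * f by rw [pow_succ, pow_two]]
    group
  have hcov := m.cov M (by
    split_ifs with hp
    · rw [if_pos hp] at hcond
      intro a
      obtain ⟨v, hv, rfl⟩ := vb.surj a
      rw [hM, hM, hM, hpow3 v hv, hcond v hv]
    · rw [if_neg hp] at hcond
      intro a
      obtain ⟨v, hv, rfl⟩ := vb.surj a
      rw [hM, hM, hpow v hv, hcond v hv, d.psi_inv (d.V_le_W hv)])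
  obtain ⟨k, hk, hkM⟩ := hcov
  obtain ⟨e, he, rfl⟩ := d.a6 k hk
  refine ⟨e, he, fun v hv => ?_⟩
  apply vb.inj _ (hf _ hv) _ (d.conj_V he hv)
  rw [hkey v hv, d.a7 e he _ (d.V_le_W hv), ← hM, sact, hkM]

end Small

section Final
variable {p r s N : ℕ} [Fact p.Prime] [Finite G] {E : Subgroup G} {ψ : G → F2 (ZMod p)} {ρ : G → SL2 (ZMod p)}

/-- The elementwise data give a small block. -/
theorem small_of_data (m : MatFacts p r s N) (d : D p E (QQ p E) (WW p E) (ZZ p E) ψ ρ)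
    (hQY : QQ p E ≤ YY p G) (hVM : VV p E ≤ MM p G) (hMV : ∀ y ∈ MM p G, ∀ e ∈ E, ⁅y, e⁆ ∈ VV p E) :
    ∃ S, Small p r E S := by
  have vb := exists_VB m d
  have hsE : ∀ x, x ∈ E → ρ x ≠ 1 → ρ x ≠ -1 → NoEig (ρ x) := fun x hx h1 h2 => m.noEig _ (d.a5 x hx) h1 h2
  refine ⟨{x | x ∈ E ∧ ρ x ≠ 1 ∧ ρ x ≠ -1}, ?_⟩
  have hpowQ : ∀ e ∈ E, e ^ (r ^ N) ∈ QQ p E := by
    intro e he
    apply (d.a8 _ (pow_mem he _)).1
    rw [d.rho_pow he]
    exact m.powN _ (d.a5 e he)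
  constructor
  · exact fun x hx => hx.1
  · intro e he
    by_cases h1 : ρ e = 1
    · exact Subgroup.mem_sup_right ((d.a8 e he).1 h1)
    by_cases h2 : ρ e = -1
    · rcases m.neg with h | ⟨k, hk, hk1, hk2, hkk⟩
      · exact (h1 (h2.trans h)).elim
      · obtain ⟨x, hx, rfl⟩ := d.a6 k hk
        have hxS : x ∈ ({x | x ∈ E ∧ ρ x ≠ 1 ∧ ρ x ≠ -1} : Set G) := ⟨hx, hk1, hk2⟩
        have h3 : (x * x)⁻¹ * e ∈ QQ p E := by
          have hxx : x * x ∈ E := mul_mem hx hx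
          apply (d.a8 _ (mul_mem (inv_mem hxx) he)).1
          rw [d.a4 _ (inv_mem hxx) _ he, d.rho_inv hxx, d.a4 _ hx _ hx, hkk, h2]
          simp
        have h4 : e = x * x * ((x * x)⁻¹ * e) := by group
        rw [h4]
        exact mul_mem (mul_mem (Subgroup.mem_sup_left (Subgroup.subset_closure hxS))
          (Subgroup.mem_sup_left (Subgroup.subset_closure hxS))) (Subgroup.mem_sup_right h3)
    · exact Subgroup.mem_sup_left (Subgroup.subset_closure ⟨he, h1, h2⟩)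
  · rintro ⟨y, e, he, rfl⟩
    refine ⟨N, ?_⟩
    apply Subtype.ext
    show (toQ p G e) ^ (r ^ N) = 1
    rw [← map_pow]
    haveI := Cfsg.Agent.Lib.Basic.PCore.pCore_normal p G
    exact (QuotientGroup.eq_one_iff _).2 (hQY (hpowQ e he))
  · rintro ⟨y, e, he, rfl⟩
    refine ⟨N, ?_⟩
    apply Subtype.ext
    show (act p G e) ^ (r ^ N) = 1
    rw [← map_pow]
    ext a
    rw [act_coe]
    have h1 : e ^ (r ^ N) ∈ YY p G := hQY (hpowQ e he)
    have h2 := omegaOneCenter_le_cent (p := p) (pCore p G) a.2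
    have h3 := Subgroup.mem_centralizer_iff.1 h2 _ h1
    show e ^ r ^ N * (a : G) * (e ^ r ^ N)⁻¹ = a
    rw [h3]
    group
  · rintro x ⟨hx, h1, h2⟩
    exact hcomm_of d vb hVM hMV hx (hsE x hx h1 h2)
  · rintro x ⟨hx, h1, h2⟩
    exact hT_of d vb hVM hMV hx (hsE x hx h1 h2) (m.sqS _ (d.a5 x hx) h1 h2)
  · intro f hf hcond
    exact hcov_of m d vb hVM hMV f hf hcond
  · rintro x ⟨hx, h1, h2⟩
    exact htype_of d vb hVM hMV hx (m.typeS _ (d.a5 x hx) h1 h2)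

end Final

end Cfsg.Agent.Lib.BlockY.CasesCore
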