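import Mathlib
import Cfsg.Prelude.Def_BaumannBlocks
import Cfsg.Agent.Lib.PGroup.BaumannSect
import Cfsg.Agent.Lib.BlockX.RawOf
import Cfsg.Agent.Lib.BlockX.RawT
import Cfsg.Agent.Lib.BlockY.Defs

/-! Piece Y1 of S2986: basic facts on one subnormal block. -/

namespace Cfsg.Agent.Lib.BlockY
open Subgroup Cfsg
open Cfsg.Agent.Lib.PGroup.BaumannSect Cfsg.Agent.Lib.PGroup.BaumannNorm
open Cfsg.Agent.Lib.PGroup.LargeSub2 Cfsg.Agent.Lib.Basic.PCore
open scoped commutatorElement

variable {G : Type*} [Group G]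

namespace FactsAux

/-- The stability computation for one element of order prime to `p`. -/
theorem comm_mem_one {p : ℕ} [Fact p.Prime] {Y V : Subgroup G} (hYp : IsPGroup p Y) {e y : G} [Finite G]
    (he : ∀ v ∈ V, e * v * e⁻¹ ∈ V) (hey : ∀ y ∈ Y, e * y * e⁻¹ ∈ Y)
    (heo : (orderOf e).Coprime p)
    (hVc : ∀ v ∈ V, ∀ y ∈ Y, v * y = y * v) (hy : y ∈ Y)
    (hst : ⁅⁅y, e⁆, e⁆ ∈ V) : ⁅y, e⁆ ∈ V := by
  set u := ⁅y, e⁆ with hu
  have huY : u ∈ Y := by
    have : u = y * (e * y⁻¹ * e⁻¹) := by rw [hu, commutatorElement_def]; group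
    rw [this]
    exact Y.mul_mem hy (hey _ (Y.inv_mem hy))
  have h1 : e * y * e⁻¹ = u⁻¹ * y := by
    rw [hu, commutatorElement_def]; group
  set w := ⁅u, e⁆ with hw
  have h2 : e * u * e⁻¹ = w⁻¹ * u := by
    rw [hw, commutatorElement_def]; group
  have hwV : w ∈ V := hst
  -- powers
  have hpow : ∀ n : ℕ, ∃ v ∈ V, e ^ n * y * (e ^ n)⁻¹ = v * u⁻¹ ^ n * y := by
    intro n
    induction n with
    | zero => exact ⟨1, V.one_mem, by simp⟩
    | succ n ih =>
      obtain ⟨v, hv, hn⟩ := ih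
      refine ⟨(e * v * e⁻¹) * w ^ n, V.mul_mem (he v hv) (V.pow_mem hwV n), ?_⟩
      have h3 : e ^ (n + 1) * y * (e ^ (n + 1))⁻¹ = e * (e ^ n * y * (e ^ n)⁻¹) * e⁻¹ := by
        rw [pow_succ']; group
      rw [h3, hn]
      have h4 : e * (v * u⁻¹ ^ n * y) * e⁻¹ = (e * v * e⁻¹) * (e * u * e⁻¹)⁻¹ ^ n * (e * y * e⁻¹) := by
        have h5 : (e * u * e⁻¹)⁻¹ ^ n = e * (u⁻¹ ^ n) * e⁻¹ := by
          have : (e * u * e⁻¹)⁻¹ = e * u⁻¹ * e⁻¹ := by group
          rw [this, conj_pow]
        rw [h5]; group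
      rw [h4, h1, h2]
      have hc : Commute w u := hVc w hwV u huY
      have h6 : (w⁻¹ * u)⁻¹ ^ n = w ^ n * u⁻¹ ^ n := by
        have : (w⁻¹ * u)⁻¹ = w * u⁻¹ := by
          rw [mul_inv_rev, inv_inv]
          exact ((hc.inv_right).eq).symm
        rw [this]
        exact (hc.inv_right).mul_pow n
      rw [h6, pow_succ]
      group
  obtain ⟨v, hv, hn⟩ := hpow (orderOf e)
  rw [pow_orderOf_eq_one] at hn
  have h7 : u ^ orderOf e = v := by
    have h8 : y = v * u⁻¹ ^ orderOf e * y := by simpa using hn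
    have h9 : v * u⁻¹ ^ orderOf e = 1 := by
      exact mul_eq_right.1 h8.symm
    have h10 : v = u ^ orderOf e := by
      rw [inv_pow] at h9
      exact (mul_inv_eq_one.1 h9)
    exact h10.symm
  have h8 : (u ^ orderOf e) ∈ V := by rw [h7]; exact hv
  obtain ⟨k, hk⟩ := (IsPGroup.iff_orderOf.mp hYp) ⟨u, huY⟩
  have hk' : orderOf u = p ^ k := by
    rw [← hk]
    exact (Subgroup.orderOf_mk u huY).symm
  have hco : (orderOf e).Coprime (orderOf u) := by
    rw [hk']
    exact Nat.Coprime.pow_right k heo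
  obtain ⟨m, hm⟩ := exists_pow_eq_self_of_coprime hco
  rw [← hm]
  exact V.pow_mem h8 m

/-- `O^p` is normalized by the normalizer. -/
theorem normalizer_le_pRes {p : ℕ} [Finite G] (H : Subgroup G) :
    normalizer (H : Set G) ≤ normalizer (pResidualOf p H : Set G) := by
  intro g hg
  have key : ∀ g ∈ normalizer (H : Set G), ∀ x ∈ pResidualOf p H, g * x * g⁻¹ ∈ pResidualOf p H := by
    intro g hg x hx
    unfold pResidualOf pResidual at hx ⊢
    rw [Subgroup.mem_map] at hx
    obtain ⟨x, hx, rfl⟩ := hx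
    induction hx using Subgroup.closure_induction with
    | mem x hx =>
      have hm : g * (x : G) * g⁻¹ ∈ H := (mem_normalizer_iff.1 hg x).1 x.2
      refine ⟨⟨g * (x : G) * g⁻¹, hm⟩, Subgroup.subset_closure ?_, rfl⟩
      show (orderOf _).Coprime p
      rw [Subgroup.orderOf_mk, orderOf_conj, Subgroup.orderOf_coe]
      exact hx
    | one => simp
    | mul x y _ _ ihx ihy =>
      have : g * H.subtype (x * y) * g⁻¹ = (g * H.subtype x * g⁻¹) * (g * H.subtype y * g⁻¹) := by
        simp only [map_mul]; group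
      rw [this]
      exact Subgroup.mul_mem _ ihx ihy
    | inv x _ ih =>
      have : g * H.subtype x⁻¹ * g⁻¹ = (g * H.subtype x * g⁻¹)⁻¹ := by
        simp only [map_inv]; group
      rw [this]
      exact Subgroup.inv_mem _ ih
  rw [mem_normalizer_iff]
  intro x
  refine ⟨key g hg x, fun h => ?_⟩
  have := key g⁻¹ (Subgroup.inv_mem _ hg) _ h
  have h2 : g⁻¹ * (g * x * g⁻¹) * g⁻¹⁻¹ = x := by group
  rwa [h2] at this

/-- A permutation of at least three letters acting trivially on the even weight vectors is `1`. -/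
theorem perm_eq_one_of_fix {n : ℕ} (hn : 3 ≤ n) (σ : Equiv.Perm (Fin n))
    (h : ∀ v : Fin n → ZMod 2, ∑ i, v i = 0 → ∀ i, v (σ⁻¹ i) = v i) : σ = 1 := by
  classical
  by_contra hne
  obtain ⟨i, hi⟩ : ∃ i, σ⁻¹ i ≠ i := by
    by_contra hall
    push Not at hall
    apply hne
    have : σ⁻¹ = 1 := Equiv.ext hall
    simpa using this
  obtain ⟨k, -, hk⟩ := Finset.exists_mem_notMem_of_card_lt_card
    (s := {i, σ⁻¹ i}) (t := Finset.univ) (by
      calc _ ≤ 2 := Finset.card_le_two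
        _ < _ := by simp; omega)
  simp only [Finset.mem_insert, Finset.mem_singleton, not_or] at hk
  have h1 := h (Pi.single i 1 + Pi.single k 1) (by
    simp only [Pi.add_apply]
    rw [Finset.sum_add_distrib]
    simp only [Finset.sum_pi_single', Finset.mem_univ, if_true]
    decide) i
  simp only [Pi.add_apply] at h1
  rw [Pi.single_eq_of_ne hi, Pi.single_eq_of_ne (Ne.symm hk.2), Pi.single_eq_same,
    Pi.single_eq_of_ne (Ne.symm hk.1)] at h1
  revert h1
  decide

end FactsAux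

variable [Finite G] {p : ℕ} [Fact p.Prime] {E F : Subgroup G}

theorem Q_le_Y (hEs : E.IsSubnormal) : QQ p E ≤ YY p G := by
  apply le_pCore_of_subnormal _ (isPGroup_pCoreOf E)
  refine IsSubnormal.step _ E (pCoreOf_le E) hEs ?_
  constructor
  rintro ⟨y, hyE⟩ hy ⟨g, hg⟩
  rw [mem_subgroupOf] at hy ⊢
  exact (mem_normalizer_iff.1 (normalizer_le_normalizer_pCoreOf E (le_normalizer hg)) y).1 hy

theorem E_inf_le : E ⊓ YY p G ≤ QQ p E := by
  apply le_pCoreOf inf_le_left ((pCore_isPGroup p).to_le inf_le_right)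
  intro e he
  apply mem_normalizer_inf (le_normalizer he)
  rw [Subgroup.normalizer_eq_top_iff.2 (pCore_normal p G)]
  exact mem_top _

theorem E_inf_Y (hEs : E.IsSubnormal) : E ⊓ YY p G = QQ p E :=
  le_antisymm (E_inf_le) (le_inf (pCoreOf_le E) (Q_le_Y hEs))

/-- `Y` normalizes the block. -/
theorem Y_le_normalizer (T : Sylow p G) (hE : IsBaumannBlock p (T : Subgroup G) E) :
    YY p G ≤ normalizer (E : Set G) := by
  have hnR : ∀ X : Subgroup G, X ≤ normalizer (pCore p G : Set G) := fun X x _ => by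
    rw [Subgroup.normalizer_eq_top_iff.2 (pCore_normal p G)]
    exact Subgroup.mem_top _
  exact le_normalizer_block T (pCore_isPGroup p) hE.1 hE.2.1 (hnR _) (hnR _)

theorem Y_comm_mem (T : Sylow p G) (hE : IsBaumannBlock p (T : Subgroup G) E) :
    ∀ y ∈ YY p G, ∀ e ∈ E, ⁅y, e⁆ ∈ QQ p E := by
  intro y hy e he
  apply E_inf_le
  constructor
  · have h1 : ⁅y, e⁆ = (y * e * y⁻¹) * e⁻¹ := by rw [commutatorElement_def]
    rw [h1]
    exact E.mul_mem ((mem_normalizer_iff.1 (Y_le_normalizer T hE hy) e).1 he) (E.inv_mem he)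
  · have h1 : ⁅y, e⁆ = y * (e * y⁻¹ * e⁻¹) := by rw [commutatorElement_def]; group
    rw [h1]
    exact (YY p G).mul_mem hy ((pCore_normal p G).conj_mem _ ((YY p G).inv_mem hy) e)

theorem V_le_M (hG : centralizer (YY p G : Set G) ≤ YY p G) (T : Sylow p G)
    (hE : IsBaumannBlock p (T : Subgroup G) E) : VV p E ≤ MM p G :=
  (block_main hG T E hE).2.1

/-- stability: `⁅x, y⁆`-chains under `O^p`-groups -/
theorem comm_mem_of_stable {E Y V : Subgroup G} (hE : pResidualOf p E = E)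
    (hYp : IsPGroup p Y) (hEY : E ≤ normalizer (Y : Set G)) (hEV : E ≤ normalizer (V : Set G))
    (hVc : ∀ v ∈ V, ∀ y ∈ Y, v * y = y * v)
    (hst : ∀ y ∈ Y, ∀ e ∈ E, ∀ e' ∈ E, ⁅⁅y, e⁆, e'⁆ ∈ V) : ∀ y ∈ Y, ∀ e ∈ E, ⁅y, e⁆ ∈ V := by
  intro y hy e he
  let X : Subgroup G :=
    { carrier := {e | e ∈ E ∧ ∀ y ∈ Y, ⁅y, e⁆ ∈ V}
      one_mem' := ⟨E.one_mem, fun y _ => by simp [V.one_mem]⟩
      mul_mem' := by
        rintro a b ⟨ha, ha'⟩ ⟨hb, hb'⟩
        refine ⟨E.mul_mem ha hb, fun y hy => ?_⟩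
        have h1 : ⁅y, a * b⁆ = ⁅y, a⁆ * (a * ⁅y, b⁆ * a⁻¹) := by
          simp only [commutatorElement_def]; group
        rw [h1]
        exact V.mul_mem (ha' y hy) ((mem_normalizer_iff.1 (hEV ha) _).1 (hb' y hy))
      inv_mem' := by
        rintro a ⟨ha, ha'⟩
        refine ⟨E.inv_mem ha, fun y hy => ?_⟩
        have h1 : ⁅y, a⁻¹⁆ = a⁻¹ * ⁅y, a⁆⁻¹ * a := by
          simp only [commutatorElement_def]; group
        rw [h1]
        have := (mem_normalizer_iff.1 (hEV (E.inv_mem ha)) _).1 (V.inv_mem (ha' y hy))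
        simpa using this }
  have hEX : E ≤ X := by
    apply forall_mem_of_pResidualOf hE
    intro e he hc
    refine ⟨he, fun y hy => ?_⟩
    exact FactsAux.comm_mem_one hYp (fun v hv => (mem_normalizer_iff.1 (hEV he) v).1 hv)
      (fun y hy => (mem_normalizer_iff.1 (hEY he) y).1 hy) hc hVc hy (hst y hy e he e he)
  exact (hEX he).2 y hy

theorem M_comm_mem (hG : centralizer (YY p G : Set G) ≤ YY p G) (T : Sylow p G)
    (hE : IsBaumannBlock p (T : Subgroup G) E)
    (hEs : E.IsSubnormal) : ∀ m ∈ MM p G, ∀ e ∈ E, ⁅m, e⁆ ∈ VV p E := by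
  have hMn : ∀ g : G, g ∈ normalizer (MM p G : Set G) := fun g => by
    rw [Subgroup.normalizer_eq_top_iff.2 (MM_normal p)]
    exact mem_top _
  have hMp : IsPGroup p (MM p G) :=
    (pCore_isPGroup p).to_le (omegaOneCenter_le _)
  have hVn : E ≤ normalizer (VV p E : Set G) := by
    intro e he
    apply mem_normalizer_commutator _ (le_normalizer he)
    exact normalizer_le_omegaOneCenter _ (normalizer_le_normalizer_pCoreOf E (le_normalizer he))
  have hQY := Q_le_Y (p := p) hEs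
  have hW : ∀ m ∈ MM p G, ∀ e ∈ E, ⁅m, e⁆ ∈ WW p E := by
    intro m hm e he
    have h1 : ⁅m, e⁆ ∈ MM p G := by
      have : ⁅m, e⁆ = m * (e * m⁻¹ * e⁻¹) := by rw [commutatorElement_def]; group
      rw [this]
      exact (MM p G).mul_mem hm ((MM_normal p).conj_mem _ ((MM p G).inv_mem hm) e)
    apply mem_omegaOneCenter (Y_comm_mem T hE m (omegaOneCenter_le _ hm) e he)
    · rw [mem_centralizer_iff]
      intro q hq
      exact mem_centralizer_iff.1 (omegaOneCenter_le_cent _ h1) q (hQY hq)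
    · exact pow_of_mem_omegaOneCenter h1
  apply comm_mem_of_stable hE.1 hMp (fun e _ => hMn e) hVn
  · intro v hv m hm
    exact omegaOneCenter_comm (V_le_M hG T hE hv) hm
  · intro m hm e he e' he'
    exact Subgroup.commutator_mem_commutator (hW m hm e he) he'

/-- `E = O^p(E Y)` normalizer form -/
theorem normalizer_EY (hG : centralizer (YY p G : Set G) ≤ YY p G) (T : Sylow p G)
    (hE : IsBaumannBlock p (T : Subgroup G) E) :
    normalizer ((E ⊔ YY p G : Subgroup G) : Set G) ≤ normalizer (E : Set G) := by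
  have h1 := FactsAux.normalizer_le_pRes (p := p) (E ⊔ YY p G)
  rwa [(block_main hG T E hE).1] at h1

/-- `E = O^p(E Y)`, equality form -/
theorem eq_of_sup_eq (hG : centralizer (YY p G : Set G) ≤ YY p G) {T₁ T₂ : Sylow p G}
    (hE : IsBaumannBlock p (T₁ : Subgroup G) E)
    (hF : IsBaumannBlock p (T₂ : Subgroup G) F) (h : E ⊔ YY p G = F ⊔ YY p G) : E = F := by
  rw [← (block_main hG T₁ E hE).1, ← (block_main hG T₂ F hF).1, h]

/-- in the non-exceptional case `V = W`. -/
theorem VV_eq_of_Q_eq_W (hE : ⁅pCoreOf p E, E⁆ = pCoreOf p E)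
    (h : pCoreOf p E = omegaOneCenter p (pCoreOf p E)) : VV p E = pCoreOf p E := by
  show ⁅omegaOneCenter p (pCoreOf p E), E⁆ = pCoreOf p E
  rw [← h, hE]

/-- `C_E(V) = Q` -/
theorem ker_V (hG : centralizer (YY p G : Set G) ≤ YY p G) (T : Sylow p G)
    (hE : IsBaumannBlock p (T : Subgroup G) E)
    (hEs : E.IsSubnormal) : ∀ e ∈ E, e ∈ centralizer (VV p E : Set G) → e ∈ QQ p E := by
  classical
  intro e he hc
  have hQE : pCoreOf p E ≤ E := pCoreOf_le E
  have hsub : (pCoreOf p E).subgroupOf E = pCore p ↥E :=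
    Subgroup.comap_map_eq_self_of_injective E.subtype_injective _
  rcases hE.2.2.2.2 with ⟨F', _, _, n, hc', hiso, hact, hQW | hexc⟩ | ⟨hp2, m, hiso, hact, hQW⟩
  · -- linear, non-exceptional
    obtain ⟨ψ, ρ, a1, a2, a3, a4, a5, a6, a7⟩ := Cfsg.Agent.Lib.BlockX.RawOf.extract hact
    have hN : Nat.card (↥E ⧸ (pCoreOf p E).subgroupOf E) =
        Nat.card ↥(commutator (Matrix.SpecialLinearGroup (Fin 2) F')) := by
      rw [hsub]
      exact Nat.card_congr hiso.some.toEquiv
    have hk := Cfsg.Agent.Lib.BlockX.RawOf.rho_ker hQE hN a2 a4 a5 a6 a7 (by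
      intro q hq u hu
      have : q * u * q⁻¹ = u := by
        rw [mem_centralizer_iff.1 (omegaOneCenter_le_cent _ hu) q hq]
        group
      rw [this])
    apply (hk e he).1
    apply Cfsg.Agent.Lib.BlockX.RawOf.eq_one_of_fix
    intro a
    obtain ⟨u, hu, rfl⟩ := a2 a
    rw [← a7 e he u hu]
    have hV : u ∈ VV p E := by
      rw [VV_eq_of_Q_eq_W hE.2.2.1 hQW, hQW]
      exact hu
    have : e * u * e⁻¹ = u := by
      rw [(mem_centralizer_iff.1 hc u hV).symm]
      group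
    rw [this]
  · -- exceptional
    obtain ⟨hp3, h2, h3, -, h4, h5, h6⟩ := hexc
    subst hp3
    have hn0 : n ≠ 0 := by
      rintro rfl
      have h1 : 1 < Fintype.card F' := Fintype.one_lt_card
      simp [hc'] at h1
    haveI : CharP F' 3 := charP_of_card_eq_prime_pow hc'
    obtain ⟨r⟩ := Cfsg.Agent.Lib.BlockX.raw_of_block hG T E hE hc' hiso hact h2 h3 h4 h5 h6
    have hdec := r.W_decomp.1
    apply (r.ρ₁_ker e he).1
    apply Cfsg.Agent.Lib.BlockX.RawOf.eq_one_of_fix
    intro a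
    obtain ⟨u, hu, rfl⟩ := r.ψ₁_surj a
    rw [← r.ρ₁_act e he u hu]
    obtain ⟨v, hv, z, hz, rfl⟩ := hdec u hu
    have h7 : e * (v * z) * e⁻¹ = v * z := by
      have h8 : e * v = v * e := (mem_centralizer_iff.1 hc v hv).symm
      have h9 : e * z = z * e := mem_centralizer_iff.1 hz.2 e he
      calc e * (v * z) * e⁻¹ = (e * v) * z * e⁻¹ := by group
        _ = v * (e * z) * e⁻¹ := by rw [h8]; group
        _ = v * z := by rw [h9]; group
    rw [h7]
  · -- alternating
    have hm : m ≠ 0 := by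
      rintro rfl
      exact not_alt_one hE hiso
    obtain ⟨hEU, hU₀, ρ, ψ, hρ, h_sum, hsurj, hker, heq⟩ := hact
    have h3n : 3 ≤ 2 * m + 1 := by omega
    have hfix : ∀ x : E, (∀ u ∈ omegaOneCenter p (pCoreOf p E), (x : G) * u * (x : G)⁻¹ = u) → ρ x = 1 := by
      intro x hx
      apply FactsAux.perm_eq_one_of_fix h3n
      intro v hv i
      obtain ⟨u, hu⟩ := hsurj v hv
      obtain ⟨w, hw, hw2⟩ := heq x u
      have h10 : w = u := Subtype.ext (by rw [hw]; exact hx u u.2)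
      rw [h10, hu] at hw2
      exact (hw2 i).symm
    have hle : pCore p ↥E ≤ ρ.ker := by
      intro x hx
      rw [MonoidHom.mem_ker]
      apply hfix
      intro u hu
      have hq : (x : G) ∈ pCoreOf p E := ⟨x, hx, rfl⟩
      rw [mem_centralizer_iff.1 (omegaOneCenter_le_cent _ hu) _ hq]
      group
    have hcard : Nat.card ρ.ker = Nat.card (pCore p ↥E) := by
      have h1 : (ρ.ker).index = Nat.card ρ.range := Subgroup.index_ker ρ
      have h2 : (pCore p ↥E).index = Nat.card ↥(alternatingGroup (Fin (2 * m + 1))) :=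
        Nat.card_congr hiso.some.toEquiv
      have h3 := Subgroup.card_mul_index (ρ.ker)
      have h4 := Subgroup.card_mul_index (pCore p ↥E)
      rw [h1, hρ] at h3
      rw [h2] at h4
      have h5 : 0 < Nat.card ↥(alternatingGroup (Fin (2 * m + 1))) := Nat.card_pos
      exact Nat.eq_of_mul_eq_mul_right h5 (h3.trans h4.symm)
    have hker' : pCore p ↥E = ρ.ker := Subgroup.eq_of_le_of_card_ge hle hcard.le
    have hρe : ρ ⟨e, he⟩ = 1 := by
      apply hfix
      intro u hu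
      have hV : u ∈ VV p E := by
        rw [VV_eq_of_Q_eq_W hE.2.2.1 hQW, hQW]
        exact hu
      show e * u * e⁻¹ = u
      rw [(mem_centralizer_iff.1 hc u hV).symm]
      group
    have : (⟨e, he⟩ : E) ∈ pCore p ↥E := by
      rw [hker', MonoidHom.mem_ker]
      exact hρe
    exact ⟨_, this, rfl⟩

end Cfsg.Agent.Lib.BlockY
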