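import Mathlib
import Cfsg.Agent.Lib.BlockY.CasesCore
import Cfsg.Agent.Lib.BlockY.Facts
import Cfsg.Agent.Lib.Components.Basic

/-! Piece Y4 of S2986: a subnormal Baumann block is quasisimple modulo `Y` or small. -/

set_option autoImplicit false

namespace Cfsg.Agent.Lib.BlockY
open Subgroup Cfsg Cfsg.Agent.Lib.BlockX Matrix Cfsg.Agent.Lib.BlockY.CasesMat Cfsg.Agent.Lib.BlockY.CasesCore
open Cfsg.Agent.Lib.PGroup.BaumannSect
open scoped commutatorElement

variable {G : Type*} [Group G]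

namespace Cases

/-! ### The action of `S₃` on the even-weight vectors -/

def b0 : Fin 3 → ZMod 2 := ![1, 0, 1]
def b1 : Fin 3 → ZMod 2 := ![0, 1, 1]
def j2 : Fin 2 → Fin 3 := ![0, 1]

def altMat (σ : Equiv.Perm (Fin 3)) : Matrix (Fin 2) (Fin 2) (ZMod 2) :=
  !![b0 (σ⁻¹ 0), b1 (σ⁻¹ 0); b0 (σ⁻¹ 1), b1 (σ⁻¹ 1)]

theorem altMat_det : ∀ σ, (altMat σ).det = 1 := by decide +kernel

def altSL (σ : Equiv.Perm (Fin 3)) : SL2 (ZMod 2) := ⟨altMat σ, altMat_det σ⟩

theorem altSL_mul : ∀ σ τ : Equiv.Perm (Fin 3), altSL (σ * τ) = altSL σ * altSL τ := by decide +kernel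

theorem altSL_K : ∀ σ : Equiv.Perm (Fin 3), Equiv.Perm.sign σ = 1 → altSL σ = 1 ∨ altSL σ = g2 ∨ altSL σ = g2 * g2 := by
  decide +kernel

theorem exists_alt : ∀ k : SL2 (ZMod 2), k = 1 ∨ k = g2 ∨ k = g2 * g2 → ∃ σ : Equiv.Perm (Fin 3), Equiv.Perm.sign σ = 1 ∧ altSL σ = k := by
  decide +kernel

theorem alt_act : ∀ (σ : Equiv.Perm (Fin 3)) (v : Fin 3 → ZMod 2), v 0 + v 1 + v 2 = 0 →
    sact (altSL σ) (fun i => v (j2 i)) = fun i => v (σ⁻¹ (j2 i)) := by
  decide +kernel

theorem card_K2 : Nat.card ↥(commutator (SL2 (ZMod 2))) = 3 := by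
  let f : Fin 3 → ↥(commutator (SL2 (ZMod 2))) := ![1, ⟨g2, g2_mem⟩, ⟨g2 * g2, mul_mem g2_mem g2_mem⟩]
  have hf : Function.Bijective f := by
    constructor
    · have h : ∀ i j : Fin 3, (![1, g2, g2 * g2] : Fin 3 → SL2 (ZMod 2)) i = (![1, g2, g2 * g2] : Fin 3 → SL2 (ZMod 2)) j → i = j := by
        decide +kernel
      intro i j hij
      apply h
      have := congrArg Subtype.val hij
      fin_cases i <;> fin_cases j <;> exact this
    · rintro ⟨k, hk⟩
      rcases K2 hk with rfl | rfl | rfl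
      · exact ⟨0, rfl⟩
      · exact ⟨1, rfl⟩
      · exact ⟨2, rfl⟩
  rw [← Nat.card_eq_of_bijective f hf]
  simp

theorem card_alt3 : Nat.card ↥(alternatingGroup (Fin 3)) = 3 := by
  have h := two_mul_card_alternatingGroup (α := Fin 3)
  rw [Nat.card_eq_fintype_card]
  simp only [Fintype.card_perm, Fintype.card_fin] at h
  have h2 : Nat.factorial 3 = 6 := rfl
  omega

/-! ### Structural fields -/

variable {p : ℕ} [Fact p.Prime] {E : Subgroup G}

theorem Q_le_E : QQ p E ≤ E := by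
  rintro _ ⟨y, -, rfl⟩
  exact y.2

theorem hZE_of {z e : G} (hz : z ∈ ZZ p E) (he : e ∈ E) : e * z * e⁻¹ = z := by
  have h := Subgroup.mem_centralizer_iff.1 hz.2 e he
  rw [h]; group

theorem hQW_of {q w : G} (hq : q ∈ QQ p E) (hw : w ∈ WW p E) : q * w * q⁻¹ = w := by
  have h := Subgroup.mem_centralizer_iff.1 (omegaOneCenter_le_cent (p := p) _ hw) q hq
  rw [h]; group

theorem hEW_of {e w : G} (hn : E ≤ normalizer (WW p E : Set G)) (he : e ∈ E) (hw : w ∈ WW p E) :
    e * w * e⁻¹ ∈ WW p E :=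
  (Subgroup.mem_normalizer_iff.1 (hn he) w).1 hw

theorem hN_of {K : Type*} [Group K] (h0 : Nonempty (↥E ⧸ pCore p ↥E ≃* K)) :
    Nat.card (↥E ⧸ (QQ p E).subgroupOf E) = Nat.card K := by
  have hsub : (QQ p E).subgroupOf E = pCore p ↥E :=
    Subgroup.comap_map_eq_self_of_injective E.subtype_injective _
  rw [hsub]
  exact Nat.card_congr h0.some.toEquiv

/-- Data from a linear block over the prime field. -/
theorem data_of_linear [Finite G] {F : Type} [Field F] [Fintype F] (hc : Fintype.card F = p)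
    (h0 : Nonempty (↥E ⧸ pCore p ↥E ≃* ↥(commutator (Matrix.SpecialLinearGroup (Fin 2) F))))
    (hact : ActsAsSL2OnSection F (commutator (Matrix.SpecialLinearGroup (Fin 2) F)) E
      (omegaOneCenter p (pCoreOf p E)) (omegaOneCenter p (pCoreOf p E) ⊓ Subgroup.centralizer (E : Set G))) :
    ∃ (ψ : G → F2 (ZMod p)) (ρ : G → SL2 (ZMod p)), D p E (QQ p E) (WW p E) (ZZ p E) ψ ρ := by
  obtain ⟨ψ, ρ, a1, a2, a3, a4, a5, a6, a7⟩ := RawOf.extract hact
  have hp : p.Prime := Fact.out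
  let e : ZMod p ≃+* F := ZMod.ringEquivOfPrime F hp hc
  let f : SL2 F →* SL2 (ZMod p) := SpecialLinearGroup.map (e.symm : F →+* ZMod p)
  let f' : SL2 (ZMod p) →* SL2 F := SpecialLinearGroup.map (e : ZMod p →+* F)
  have hff' : ∀ k, f (f' k) = k := by
    intro k
    apply Subtype.ext
    ext i j
    simp [f, f']
  have hf'f : ∀ k, f' (f k) = k := by
    intro k
    apply Subtype.ext
    ext i j
    simp [f, f']
  have hfK : commutator (SL2 F) ≤ (commutator (SL2 (ZMod p))).comap f := by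
    rw [_root_.commutator_def, Subgroup.commutator_le]
    intro a _ b _
    rw [Subgroup.mem_comap, map_commutatorElement]
    exact Subgroup.commutator_mem_commutator (mem_top _) (mem_top _)
  have hfK' : commutator (SL2 (ZMod p)) ≤ (commutator (SL2 F)).comap f' := by
    rw [_root_.commutator_def, Subgroup.commutator_le]
    intro a _ b _
    rw [Subgroup.mem_comap, map_commutatorElement]
    exact Subgroup.commutator_mem_commutator (mem_top _) (mem_top _)
  have hker := RawOf.rho_ker (Q := QQ p E) (U := WW p E) ((Q_le_E)) (hN_of h0) a2 a4 a5 a6 a7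
    (fun q hq u hu => by rw [hQW_of hq hu])
  refine ⟨fun g i => e.symm (ψ g i), fun g => f (ρ g), ?_⟩
  constructor
  · intro e' he' w hw
    exact hEW_of hact.1 he' hw
  · exact inf_le_left
  · intro z hz e' he'
    exact hZE_of hz he'
  · exact (Q_le_E)
  · intro q hq w hw
    exact hQW_of hq hw
  · intro x hx y hy
    exact omegaOneCenter_comm hx hy
  · intro w hw
    exact pow_of_mem_omegaOneCenter hw
  · intro x hx y hy
    funext i
    simp only [a1 x hx y hy, Pi.add_apply, map_add]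
  · intro b
    obtain ⟨u, hu, hub⟩ := a2 (fun i => e (b i))
    refine ⟨u, hu, ?_⟩
    funext i
    simp [hub]
  · intro u hu
    rw [← a3 u hu]
    constructor
    · intro h
      funext i
      have := congrFun h i
      simpa using this
    · intro h
      funext i
      simp [h]
  · intro x hx y hy
    show f (ρ (x * y)) = f (ρ x) * f (ρ y)
    rw [a4 x hx y hy, map_mul]
  · intro x hx
    exact hfK (a5 x hx)
  · intro k hk
    obtain ⟨x, hx, hxk⟩ := a6 (f' k) (hfK' hk)
    exact ⟨x, hx, by show f (ρ x) = k; rw [hxk, hff']⟩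
  · intro x hx u hu
    funext i
    show e.symm (ψ (x * u * x⁻¹) i) = _
    rw [a7 x hx u hu]
    simp [sact, Matrix.mulVec, dotProduct, Fin.sum_univ_two, f, map_add, map_mul]
  · intro x hx
    rw [← hker x hx]
    constructor
    · intro h
      have := congrArg f' h
      rwa [hf'f, map_one] at this
    · intro h
      show f (ρ x) = 1
      rw [h, map_one]

/-- Data from a block with `E/Q ≅ Alt(3)`. -/
theorem data_of_alt [Finite G] {E : Subgroup G}
    (h0 : Nonempty (↥E ⧸ pCore 2 ↥E ≃* ↥(alternatingGroup (Fin 3))))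
    (hact : ActsAsOddPermModuleOnSection 3 (alternatingGroup (Fin 3)) E
      (omegaOneCenter 2 (pCoreOf 2 E)) (omegaOneCenter 2 (pCoreOf 2 E) ⊓ Subgroup.centralizer (E : Set G))) :
    ∃ (ψ : G → F2 (ZMod 2)) (ρ : G → SL2 (ZMod 2)), D 2 E (QQ 2 E) (WW 2 E) (ZZ 2 E) ψ ρ := by
  classical
  obtain ⟨hEU, hU₀, ρ₀, ψ₀, hρ, hsum, hsurj, hker, heq⟩ := hact
  -- the functions
  obtain ⟨ψ, hψ⟩ : ∃ ψ : G → F2 (ZMod 2), ∀ (u : G) (hu : u ∈ WW 2 E),
      ψ u = fun i => Multiplicative.toAdd (ψ₀ ⟨u, hu⟩) (j2 i) :=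
    ⟨fun u => if h : u ∈ WW 2 E then fun i => Multiplicative.toAdd (ψ₀ ⟨u, h⟩) (j2 i) else 0,
      fun u hu => dif_pos hu⟩
  obtain ⟨ρ, hρ'⟩ : ∃ ρ : G → SL2 (ZMod 2), ∀ (e : G) (he : e ∈ E), ρ e = altSL (ρ₀ ⟨e, he⟩) :=
    ⟨fun e => if h : e ∈ E then altSL (ρ₀ ⟨e, h⟩) else 1, fun e he => dif_pos he⟩
  have hsign : ∀ e : ↥E, Equiv.Perm.sign (ρ₀ e) = 1 := by
    intro e
    have : ρ₀ e ∈ ρ₀.range := ⟨e, rfl⟩
    rw [hρ] at this
    exact Equiv.Perm.mem_alternatingGroup.1 this
  have hK : ∀ σ : Equiv.Perm (Fin 3), Equiv.Perm.sign σ = 1 → altSL σ ∈ commutator (SL2 (ZMod 2)) := by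
    intro σ hσ
    rcases altSL_K σ hσ with h | h | h <;> rw [h]
    · exact one_mem _
    · exact g2_mem
    · exact mul_mem g2_mem g2_mem
  have a1 : ∀ x ∈ WW 2 E, ∀ y ∈ WW 2 E, ψ (x * y) = ψ x + ψ y := by
    intro x hx y hy
    rw [hψ _ (mul_mem hx hy), hψ _ hx, hψ _ hy]
    funext i
    have : ψ₀ ⟨x * y, mul_mem hx hy⟩ = ψ₀ ⟨x, hx⟩ * ψ₀ ⟨y, hy⟩ := by
      rw [← map_mul]; rfl
    rw [this]
    rfl
  have a2 : ∀ b, ∃ u ∈ WW 2 E, ψ u = b := by
    intro b
    obtain ⟨u, hu⟩ := hsurj ![b 0, b 1, b 0 + b 1] (by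
      rw [Fin.sum_univ_three]
      have h : ∀ x y : ZMod 2, x + y + (x + y) = 0 := by decide
      exact h _ _)
    refine ⟨u, u.2, ?_⟩
    rw [hψ _ u.2]
    funext i
    have : (⟨(u : G), u.2⟩ : ↥(WW 2 E)) = u := rfl
    rw [this, hu]
    fin_cases i <;> rfl
  have a3 : ∀ u ∈ WW 2 E, ψ u = 0 ↔ u ∈ ZZ 2 E := by
    intro u hu
    rw [← hker ⟨u, hu⟩, hψ _ hu]
    constructor
    · intro h
      have h0 := congrFun h 0
      have h1 := congrFun h 1
      have h2 := hsum ⟨u, hu⟩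
      rw [Fin.sum_univ_three] at h2
      have h3 : ∀ x y z : ZMod 2, x = 0 → y = 0 → x + y + z = 0 → z = 0 := by decide
      have h4 := h3 _ _ _ h0 h1 h2
      apply Multiplicative.toAdd.injective
      funext i
      fin_cases i
      · exact h0
      · exact h1
      · exact h4
    · intro h
      rw [h]
      rfl
  have a4 : ∀ x ∈ E, ∀ y ∈ E, ρ (x * y) = ρ x * ρ y := by
    intro x hx y hy
    rw [hρ' _ (mul_mem hx hy), hρ' _ hx, hρ' _ hy, ← altSL_mul, ← map_mul]
    rfl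
  have a5 : ∀ e ∈ E, ρ e ∈ commutator (SL2 (ZMod 2)) := by
    intro e he
    rw [hρ' _ he]
    exact hK _ (hsign _)
  have a6 : ∀ k ∈ commutator (SL2 (ZMod 2)), ∃ e ∈ E, ρ e = k := by
    intro k hk
    obtain ⟨σ, hσ, rfl⟩ := exists_alt k (K2 hk)
    have : σ ∈ ρ₀.range := by
      rw [hρ]
      exact Equiv.Perm.mem_alternatingGroup.2 hσ
    obtain ⟨e, rfl⟩ := this
    exact ⟨e, e.2, hρ' _ e.2⟩
  have a7 : ∀ e ∈ E, ∀ u ∈ WW 2 E, ψ (e * u * e⁻¹) = sact (ρ e) (ψ u) := by
    intro e he u hu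
    obtain ⟨w, hw, hw2⟩ := heq ⟨e, he⟩ ⟨u, hu⟩
    have hmem : e * u * e⁻¹ ∈ WW 2 E := by
      have : (w : G) = e * u * e⁻¹ := hw
      rw [← this]; exact w.2
    have hw' : (⟨e * u * e⁻¹, hmem⟩ : ↥(WW 2 E)) = w := Subtype.ext hw.symm
    rw [hψ _ hmem, hψ _ hu, hρ' _ he, hw']
    have h2 := hsum ⟨u, hu⟩
    rw [Fin.sum_univ_three] at h2
    rw [alt_act _ _ h2]
    funext i
    exact hw2 _
  have hker' := RawOf.rho_ker (Q := QQ 2 E) (U := WW 2 E) (K := commutator (SL2 (ZMod 2))) (Q_le_E)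
    (by rw [hN_of h0, card_K2, card_alt3]) a2 a4 a5 a6 a7
    (fun q hq u hu => by rw [hQW_of hq hu])
  exact ⟨ψ, ρ, hEU |> fun hn => ⟨fun e he w hw => hEW_of hn he hw, inf_le_left, fun z hz e he => hZE_of hz he,
    Q_le_E, fun q hq w hw => hQW_of hq hw, fun x hx y hy => omegaOneCenter_comm hx hy,
    fun w hw => pow_of_mem_omegaOneCenter hw, a1, a2, a3, a4, a5, a6, a7, hker'⟩⟩

/-- The image of `E` in `G/Y`. -/
theorem map_toQ_equiv [Finite G] (hEs : E.IsSubnormal) : Nonempty (↥(E.map (toQ p G)) ≃* ↥E ⧸ pCore p ↥E) := by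
  haveI := Cfsg.Agent.Lib.Basic.PCore.pCore_normal p G
  let f : ↥E →* ↥(E.map (toQ p G)) := (toQ p G).subgroupMap E
  have hf : Function.Surjective f := MonoidHom.subgroupMap_surjective _ _
  have hk : f.ker = pCore p ↥E := by
    ext x
    rw [MonoidHom.mem_ker]
    have h1 : f x = 1 ↔ toQ p G x = 1 := by
      constructor
      · intro h
        exact congrArg Subtype.val h
      · intro h
        exact Subtype.ext h
    rw [h1]
    have h2 : toQ p G x = 1 ↔ (x : G) ∈ pCore p G := QuotientGroup.eq_one_iff _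
    rw [h2]
    constructor
    · intro h
      have h3 : (x : G) ∈ E ⊓ YY p G := ⟨x.2, h⟩
      rw [E_inf_Y hEs] at h3
      obtain ⟨y, hy, hyx⟩ := h3
      have : y = x := Subtype.ext hyx
      rwa [← this]
    · intro h
      have h3 : (x : G) ∈ QQ p E := ⟨x, h, rfl⟩
      rw [← E_inf_Y hEs] at h3
      exact h3.2
  exact ⟨(QuotientGroup.quotientKerEquivOfSurjective f hf).symm.trans (QuotientGroup.quotientMulEquivOfEq hk)⟩

theorem quasi_of_simple_center {X : Type*} [Group X] (hs : IsSimpleGroup X) (hZ : Subgroup.center X = ⊥) :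
    IsQuasisimple X := by
  constructor
  · have hn : (commutator X).Normal := inferInstance
    rcases hs.eq_bot_or_eq_top_of_normal _ hn with h | h
    · exfalso
      have h1 : Subgroup.center X = ⊤ := by
        rw [eq_top_iff]
        intro x _
        rw [Subgroup.mem_center_iff]
        intro y
        have h2 : ⁅y, x⁆ ∈ commutator X := Subgroup.commutator_mem_commutator (Subgroup.mem_top _) (Subgroup.mem_top _)
        rw [h, Subgroup.mem_bot, commutatorElement_eq_one_iff_mul_comm] at h2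
        exact h2
      rw [hZ] at h1
      exact bot_ne_top h1
    · exact ⟨h⟩
  · have e : X ⧸ Subgroup.center X ≃* X :=
      (QuotientGroup.quotientMulEquivOfEq hZ).trans QuotientGroup.quotientBot
    exact e.isSimpleGroup

theorem sl2_quasi' {K : Type} [Field K] [Fintype K] (h : 3 < Fintype.card K) :
    IsQuasisimple (Matrix.SpecialLinearGroup (Fin 2) K) := by
  have h4 : 4 ≤ Nat.card K := by
    rw [Nat.card_eq_fintype_card]; omega
  obtain ⟨a, ha, hasq⟩ : ∃ a : K, a ≠ 0 ∧ a ^ 2 ≠ 1 := by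
    by_contra hcon
    push Not at hcon
    have hall : ∀ a : K, a = 0 ∨ a = 1 ∨ a = -1 := by
      intro a
      by_cases h0 : a = 0
      · exact Or.inl h0
      · have := hcon a h0
        have h1 : (a - 1) * (a + 1) = 0 := by linear_combination this
        rcases mul_eq_zero.1 h1 with h2 | h2
        · exact Or.inr (Or.inl (sub_eq_zero.1 h2))
        · exact Or.inr (Or.inr (eq_neg_of_add_eq_zero_left h2))
    let f : Fin 3 → K := ![0, 1, -1]
    have hf : Function.Surjective f := by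
      intro a
      rcases hall a with rfl | rfl | rfl
      · exact ⟨0, rfl⟩
      · exact ⟨1, rfl⟩
      · exact ⟨2, rfl⟩
    have := Nat.card_le_card_of_surjective f hf
    simp at this
    omega
  exact ⟨⟨SL2.commutator_eq_top ha hasq⟩, Matrix.ProjectiveSpecialLinearGroup.rank_two_simple h4⟩

end Cases

open Cases in
theorem block_cases [Finite G] {p : ℕ} [Fact p.Prime] {E : Subgroup G}
    (hG : centralizer (YY p G : Set G) ≤ YY p G) (T : Sylow p G) (hE : IsBaumannBlock p (T : Subgroup G) E)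
    (hEs : E.IsSubnormal) : IsQuasisimple ↥(E.map (toQ p G)) ∨
      ∃ r S, r.Prime ∧ r + p = 5 ∧ Small p r E S := by
  have hQY := Q_le_Y (p := p) hEs
  have hVM := V_le_M hG T hE
  have hMV := M_comm_mem hG T hE hEs
  obtain ⟨e₁⟩ := map_toQ_equiv (p := p) hEs
  have hpr : p.Prime := Fact.out
  rcases hE.2.2.2.2 with ⟨F, _, _, n, hc, ⟨hiso⟩, hact, _⟩ | ⟨hp2, m, ⟨hiso⟩, hact, _⟩
  · by_cases hq : 3 < Fintype.card F
    · left
      have hS := sl2_quasi' hq
      have hK : commutator (Matrix.SpecialLinearGroup (Fin 2) F) = ⊤ := hS.1.commutator_eq_top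
      exact Cfsg.Agent.Lib.Components.Basic.isQuasisimple_of_mulEquiv
        (e₁.trans (hiso.trans ((MulEquiv.subgroupCongr hK).trans Subgroup.topEquiv))).symm hS
    · right
      have h2 := Fintype.one_lt_card (α := F)
      have hn : n = 1 := by
        rcases n with _ | _ | n
        · simp at hc; omega
        · rfl
        · exfalso
          have h3 : p ^ 2 ≤ p ^ (n + 1 + 1) := Nat.pow_le_pow_right hpr.pos (by omega)
          have h4 : 2 ^ 2 ≤ p ^ 2 := Nat.pow_le_pow_left hpr.two_le 2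
          omega
      subst hn
      rw [pow_one] at hc
      have hp : p = 2 ∨ p = 3 := by
        have := hpr.two_le
        omega
      obtain ⟨ψ, ρ, d⟩ := data_of_linear hc ⟨hiso⟩ hact
      rcases hp with rfl | rfl
      · obtain ⟨S, hS⟩ := CasesCore.small_of_data matFacts2 d hQY hVM hMV
        exact ⟨3, S, Nat.prime_three, by norm_num, hS⟩
      · obtain ⟨S, hS⟩ := CasesCore.small_of_data matFacts3 d hQY hVM hMV
        exact ⟨2, S, Nat.prime_two, by norm_num, hS⟩
  · subst hp2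
    rcases m with _ | _ | m
    · exact (not_alt_one hE ⟨hiso⟩).elim
    · right
      obtain ⟨ψ, ρ, d⟩ := data_of_alt ⟨hiso⟩ hact
      obtain ⟨S, hS⟩ := CasesCore.small_of_data matFacts2 d hQY hVM hMV
      exact ⟨3, S, Nat.prime_three, by norm_num, hS⟩
    · left
      have h5 : 5 ≤ Nat.card (Fin (2 * (m + 1 + 1) + 1)) := by
        simp; omega
      have hs : IsSimpleGroup ↥(alternatingGroup (Fin (2 * (m + 1 + 1) + 1))) := alternatingGroup.isSimpleGroup h5
      have hZ := alternatingGroup.center_eq_bot (α := Fin (2 * (m + 1 + 1) + 1)) (by omega)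
      exact Cfsg.Agent.Lib.Components.Basic.isQuasisimple_of_mulEquiv
        (e₁.trans hiso).symm (quasi_of_simple_center hs hZ)

end Cfsg.Agent.Lib.BlockY
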