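import Mathlib
import Cfsg.Agent.Lib.BlockY.Defs
import Cfsg.Agent.Lib.BlockY.Facts
import Cfsg.Agent.Lib.BlockX.RawOf
import Cfsg.Agent.Lib.BlockX.RawT
import Cfsg.Agent.Lib.BlockX.RawQuad
import Cfsg.Agent.Lib.BlockX.SLn
import Cfsg.Agent.Lib.BlockX.NotBad
import Cfsg.Agent.Lib.PGroup.SL2NatIrr
import Cfsg.Agent.Lib.PGroup.BaumannSect
import Cfsg.Agent.Lib.PGroup.BaumannNorm

/-! Piece Y2 of S2986: a block centralizing `V_E` commutes with `E`. -/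

namespace Cfsg.Agent.Lib.BlockY
open Subgroup Cfsg Matrix
open scoped commutatorElement
open Cfsg.Agent.Lib.BlockX
open Cfsg.Agent.Lib.PGroup.BaumannSect Cfsg.Agent.Lib.PGroup.BaumannNorm
open Cfsg.Agent.Lib.PGroup.LargeSub2

namespace ClaimAux

variable {G : Type*} [Group G]

theorem comm_eq_one_of_central [Finite G] {p : ℕ} [Fact p.Prime] {F P : Subgroup G}
    (hF : pResidualOf p F = F) (hP : IsPGroup p P)
    (hPF : ∀ a ∈ P, ∀ f ∈ F, a * f = f * a) {x : G} (hx : ∀ f ∈ F, ⁅x, f⁆ ∈ P) :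
    ∀ f ∈ F, ⁅x, f⁆ = 1 := by
  have hle : F ≤ centralizer ({x} : Set G) := by
    apply forall_mem_of_pResidualOf hF
    intro e he hc
    have hpow : ∀ n : ℕ, ⁅x, e ^ n⁆ = ⁅x, e⁆ ^ n := by
      intro n
      induction n with
      | zero => simp
      | succ n ih =>
        have hen : e ^ n ∈ F := F.pow_mem he n
        have h1 : ∀ a : G, ⁅x, a * e⁆ = ⁅x, a⁆ * (a * ⁅x, e⁆ * a⁻¹) := by
          intro a
          simp only [commutatorElement_def]; group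
        have h2 : e ^ n * ⁅x, e⁆ * (e ^ n)⁻¹ = ⁅x, e⁆ := by
          rw [← hPF _ (hx e he) _ hen]; group
        rw [pow_succ, h1, h2, ih, pow_succ]
    have h3 := hpow (orderOf e)
    rw [pow_orderOf_eq_one, commutatorElement_one_right] at h3
    obtain ⟨k, hk⟩ := (IsPGroup.iff_orderOf.mp hP) ⟨_, hx e he⟩
    have h5 : orderOf ⁅x, e⁆ ∣ orderOf e := orderOf_dvd_of_pow_eq_one h3.symm
    have h6 : orderOf ⁅x, e⁆ = p ^ k := by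
      have := hk
      rwa [Subgroup.orderOf_mk] at this
    have h7 : (orderOf ⁅x, e⁆).Coprime (p ^ k) := by
      have := Nat.Coprime.pow_right k hc
      exact Nat.Coprime.coprime_dvd_left h5 this
    rw [h6] at h7
    have h8 : p ^ k = 1 := by simpa using h7
    have h9 : ⁅x, e⁆ = 1 := by
      rw [← orderOf_eq_one_iff, h6, h8]
    have h10 : x * e = e * x := commutatorElement_eq_one_iff_mul_comm.1 h9
    exact mem_centralizer_iff.2 (fun y hy => by rw [Set.mem_singleton_iff.1 hy]; exact h10)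
  intro f hf
  have := mem_centralizer_iff.1 (hle hf) x (Set.mem_singleton x)
  exact commutatorElement_eq_one_iff_mul_comm.2 this

variable {𝔽 : Type*} [Field 𝔽] {E Q W V Z Y Ω B : Subgroup G}

theorem ψ_one (r : Raw 𝔽 E Q W V Z Y Ω B) : r.ψ₂ 1 = 0 := by
  have := r.ψ₂_mul 1 Q.one_mem 1 Q.one_mem
  simpa using this

theorem ψ_inv (r : Raw 𝔽 E Q W V Z Y Ω B) {x : G} (hx : x ∈ Q) : r.ψ₂ x⁻¹ = - r.ψ₂ x := by
  have := r.ψ₂_mul x hx x⁻¹ (Q.inv_mem hx)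
  rw [mul_inv_cancel, ψ_one r] at this
  exact (neg_eq_of_add_eq_zero_right this.symm).symm

theorem ψ_conj (r : Raw 𝔽 E Q W V Z Y Ω B) {u y : G} (hu : u ∈ Q) (hy : y ∈ Q) :
    r.ψ₂ (u * y * u⁻¹) = r.ψ₂ y := by
  rw [r.ψ₂_mul _ (Q.mul_mem hu hy) _ (Q.inv_mem hu), r.ψ₂_mul _ hu _ hy, ψ_inv r hu]
  abel

theorem ρ_one (r : Raw 𝔽 E Q W V Z Y Ω B) : r.ρ₂ 1 = 1 := by
  have := r.ρ₂_mul 1 E.one_mem 1 E.one_mem
  simpa using this

theorem ρ_inv (r : Raw 𝔽 E Q W V Z Y Ω B) {x : G} (hx : x ∈ E) : r.ρ₂ x⁻¹ = (r.ρ₂ x)⁻¹ := by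
  have := r.ρ₂_mul x hx x⁻¹ (E.inv_mem hx)
  rw [mul_inv_cancel, ρ_one r] at this
  exact (inv_eq_of_mul_eq_one_right this.symm).symm

theorem mem_Q_of_norm {g q : G} {X : Subgroup G} (hg : g ∈ normalizer (X : Set G)) (hq : q ∈ X) :
    g * q * g⁻¹ ∈ X := (mem_normalizer_iff.1 hg q).1 hq

theorem norm_W (r : Raw 𝔽 E Q W V Z Y Ω B) {f : G} (hfQ : f ∈ normalizer (Q : Set G)) :
    f ∈ normalizer (W : Set G) := by
  rw [r.hWdef]; exact normalizer_le_omegaOneCenter Q hfQ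

section
variable [Fintype 𝔽] [CharP 𝔽 3]

theorem scalar_of_comm (r : Raw 𝔽 E Q W V Z Y Ω B) {f : G} (hfQ : f ∈ normalizer (Q : Set G))
    (hfE : f ∈ normalizer (E : Set G))
    (hc : ∀ e ∈ E, ⁅e, f⁆ ∈ Q) : ∃ l : 𝔽, ∀ q ∈ Q, r.ψ₂ (f * q * f⁻¹) = l • r.ψ₂ q := by
  obtain ⟨f₂, hf₂, hadd, -, -⟩ := RawQuad.exists_induced r.ψ₂_mul r.ψ₂_surj r.ψ₂_ker hfQ (norm_W r hfQ)
  have hcomm : ∀ k ∈ commutator (SL2 𝔽), ∀ a, f₂ (sact k a) = sact k (f₂ a) := by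
    intro k hk a
    obtain ⟨e, he, rfl⟩ := r.ρ₂_surj k hk
    obtain ⟨q, hq, rfl⟩ := r.ψ₂_surj a
    have hqe : e * q * e⁻¹ ∈ Q := mem_Q_of_norm (r.hEQ he) hq
    have hfq : f * q * f⁻¹ ∈ Q := mem_Q_of_norm hfQ hq
    rw [← r.ρ₂_act e he q hq, hf₂ _ hqe, hf₂ q hq, ← r.ρ₂_act e he _ hfq]
    -- `u = ⁅f,e⁆`
    have hu : ⁅e, f⁆⁻¹ ∈ Q := Q.inv_mem (hc e he)
    have hy : e * (f * q * f⁻¹) * e⁻¹ ∈ Q := mem_Q_of_norm (r.hEQ he) hfq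
    have h := ψ_conj r hu hy
    rw [← h]
    congr 1
    simp only [commutatorElement_def]; group
  obtain ⟨l, hl⟩ := schur_K f₂ hadd hcomm
  exact ⟨l, fun q hq => by rw [← hf₂ q hq, hl]⟩

theorem comm_ψ (r : Raw 𝔽 E Q W V Z Y Ω B) {f : G} (hfQ : f ∈ normalizer (Q : Set G)) {q : G} (hq : q ∈ Q) :
    r.ψ₂ ⁅q, f⁆ = r.ψ₂ q - r.ψ₂ (f * q * f⁻¹) := by
  have h1 : ⁅q, f⁆ = q * (f * q * f⁻¹)⁻¹ := by simp only [commutatorElement_def]; group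
  rw [h1, r.ψ₂_mul _ hq _ (Q.inv_mem (mem_Q_of_norm hfQ hq)), ψ_inv r (mem_Q_of_norm hfQ hq)]
  abel

/-- Case (a): every `⁅q,f⁆` lies in `W`. -/
theorem case_a [Finite G] (r : Raw 𝔽 E Q W V Z Y Ω B) {F : Subgroup G} (hFres : pResidualOf 3 F = F)
    (hFV : F ≤ centralizer (V : Set G)) (hFQ : F ≤ normalizer (Q : Set G))
    (ha : ∀ q ∈ Q, ∀ f ∈ F, ⁅q, f⁆ ∈ W) : ∀ q ∈ Q, ∀ f ∈ F, ⁅q, f⁆ = 1 := by
  haveI : Fact (Nat.Prime 3) := ⟨by norm_num⟩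
  have hWQ : W ≤ Q := r.hWQ
  have hWc : ∀ w ∈ W, ∀ q ∈ Q, w * q = q * w := by
    intro w hw q hq
    rw [r.hWdef] at hw
    exact (mem_centralizer_iff.1 (omegaOneCenter_le_cent Q hw) q hq).symm
  have hWp : IsPGroup 3 W := r.hQp.to_le hWQ
  -- `F` centralizes `Z = ⁅Q,Q⁆`
  have hFZ : ∀ f ∈ F, ∀ z ∈ Z, z * f = f * z := by
    intro f hf
    have hle : ⁅Q, Q⁆ ≤ centralizer ({f} : Set G) := by
      rw [Subgroup.commutator_le]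
      intro x hx y hy
      have hwx : x⁻¹ * (f * x * f⁻¹) ∈ W := by
        have := ha x⁻¹ (Q.inv_mem hx) f hf
        have h1 : ⁅x⁻¹, f⁆ = x⁻¹ * (f * x * f⁻¹) := by
          simp only [commutatorElement_def]; group
        rwa [h1] at this
      have hwy : y⁻¹ * (f * y * f⁻¹) ∈ W := by
        have := ha y⁻¹ (Q.inv_mem hy) f hf
        have h1 : ⁅y⁻¹, f⁆ = y⁻¹ * (f * y * f⁻¹) := by
          simp only [commutatorElement_def]; group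
        rwa [h1] at this
      set u := x⁻¹ * (f * x * f⁻¹) with hu
      set w := y⁻¹ * (f * y * f⁻¹) with hw
      have hfx : f * x * f⁻¹ = x * u := by rw [hu]; group
      have hfy : f * y * f⁻¹ = y * w := by rw [hw]; group
      have h2 : f * ⁅x, y⁆ * f⁻¹ = ⁅x * u, y * w⁆ := by
        rw [← hfx, ← hfy]
        simp only [commutatorElement_def]; group
      have h3 : ⁅x * u, y * w⁆ = ⁅x, y⁆ := by
        refine NotBad.comm_mul_central ?_ ?_ ?_ ?_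
        · exact hWc u hwx x hx
        · exact hWc u hwx y hy
        · exact hWc u hwx w (hWQ hwy)
        · exact hWc w hwy x hx
      rw [h3] at h2
      refine mem_centralizer_iff.2 (fun g hg => ?_)
      rw [Set.mem_singleton_iff.1 hg]
      calc f * ⁅x, y⁆ = (f * ⁅x, y⁆ * f⁻¹) * f := by group
        _ = ⁅x, y⁆ * f := by rw [h2]
    intro z hz
    rw [← r.hQQ] at hz
    exact (mem_centralizer_iff.1 (hle hz) f (Set.mem_singleton f)).symm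
  have hFW : ∀ w ∈ W, ∀ f ∈ F, w * f = f * w := by
    intro w hw f hf
    obtain ⟨v, hv, z, hz, rfl⟩ := (r.W_decomp).1 w hw
    have h1 : v * f = f * v := mem_centralizer_iff.1 (hFV hf) v hv
    have h2 := hFZ f hf z hz
    calc v * z * f = v * (f * z) := by rw [mul_assoc, h2]
      _ = (v * f) * z := by group
      _ = f * (v * z) := by rw [h1]; group
  intro q hq
  exact comm_eq_one_of_central hFres hWp hFW (fun f hf => ha q hq f hf)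

/-- With `l ≠ 1`, `Q = ⁅Q,f⟧ W`. -/
theorem decomp_of_scalar (r : Raw 𝔽 E Q W V Z Y Ω B) {f : G} (hfQ : f ∈ normalizer (Q : Set G)) {l : 𝔽} (hl1 : l ≠ 1)
    (hl : ∀ q ∈ Q, r.ψ₂ (f * q * f⁻¹) = l • r.ψ₂ q) {q : G} (hq : q ∈ Q) :
    ∃ q₁ ∈ Q, ∃ w ∈ W, q = ⁅q₁, f⁆ * w := by
  have h0 : (1 - l) ≠ 0 := sub_ne_zero.2 (Ne.symm hl1)
  obtain ⟨q₁, hq₁, hψ⟩ := r.ψ₂_surj ((1 - l)⁻¹ • r.ψ₂ q)
  have hc : ⁅q₁, f⁆ ∈ Q := by
    have h1 : ⁅q₁, f⁆ = q₁ * (f * q₁ * f⁻¹)⁻¹ := by simp only [commutatorElement_def]; group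
    rw [h1]; exact Q.mul_mem hq₁ (Q.inv_mem (mem_Q_of_norm hfQ hq₁))
  refine ⟨q₁, hq₁, ⁅q₁, f⁆⁻¹ * q, ?_, by group⟩
  rw [← r.ψ₂_ker _ (Q.mul_mem (Q.inv_mem hc) hq), r.ψ₂_mul _ (Q.inv_mem hc) _ hq, ψ_inv r hc,
    comm_ψ r hfQ hq₁, hl q₁ hq₁, hψ, smul_smul]
  have h2 : (1 - l)⁻¹ • r.ψ₂ q - (l * (1 - l)⁻¹) • r.ψ₂ q = r.ψ₂ q := by
    rw [← sub_smul]
    have : (1 - l)⁻¹ - l * (1 - l)⁻¹ = 1 := by field_simp
    rw [this, one_smul]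
  rw [h2]
  abel

/-- `Q` is not abelian. -/
theorem Q_not_abelian [Finite G] (r : Raw 𝔽 E Q W V Z Y Ω B) : ¬ ∀ x ∈ Q, ∀ y ∈ Q, x * y = y * x := by
  intro h
  have h1 : ⁅Q, Q⁆ = ⊥ := by
    rw [eq_bot_iff, Subgroup.commutator_le]
    intro x hx y hy
    rw [commutatorElement_eq_one_iff_mul_comm.2 (h x hx y hy)]
    exact Subgroup.one_mem _
  have h2 := r.hcard
  rw [← r.hQQ, h1] at h2
  simp only [Subgroup.card_bot] at h2
  have h3 : 1 < Nat.card 𝔽 := by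
    rw [Nat.card_eq_fintype_card]; exact Fintype.one_lt_card
  omega

/-- Case (b) when the commutators `⁅q,f₀⁆` commute pairwise. -/
theorem not_abelian_commutators [Finite G] (r : Raw 𝔽 E Q W V Z Y Ω B) {f : G} (hfQ : f ∈ normalizer (Q : Set G))
    {l : 𝔽} (hl1 : l ≠ 1) (hl : ∀ q ∈ Q, r.ψ₂ (f * q * f⁻¹) = l • r.ψ₂ q)
    (hab : ∀ x ∈ Q, ∀ y ∈ Q, ⁅x, f⁆ * ⁅y, f⁆ = ⁅y, f⁆ * ⁅x, f⁆) : False := by
  apply Q_not_abelian r
  have hWc : ∀ w ∈ W, ∀ q ∈ Q, w * q = q * w := by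
    intro w hw q hq
    rw [r.hWdef] at hw
    exact (mem_centralizer_iff.1 (omegaOneCenter_le_cent Q hw) q hq).symm
  intro x hx y hy
  obtain ⟨x₁, hx₁, w, hw, rfl⟩ := decomp_of_scalar r hfQ hl1 hl hx
  obtain ⟨y₁, hy₁, w', hw', rfl⟩ := decomp_of_scalar r hfQ hl1 hl hy
  have hcx : ⁅x₁, f⁆ ∈ Q := by
    have h1 : ⁅x₁, f⁆ = x₁ * (f * x₁ * f⁻¹)⁻¹ := by simp only [commutatorElement_def]; group
    rw [h1]; exact Q.mul_mem hx₁ (Q.inv_mem (mem_Q_of_norm hfQ hx₁))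
  have hcy : ⁅y₁, f⁆ ∈ Q := by
    have h1 : ⁅y₁, f⁆ = y₁ * (f * y₁ * f⁻¹)⁻¹ := by simp only [commutatorElement_def]; group
    rw [h1]; exact Q.mul_mem hy₁ (Q.inv_mem (mem_Q_of_norm hfQ hy₁))
  have hWQ : W ≤ Q := r.hWQ
  calc ⁅x₁, f⁆ * w * (⁅y₁, f⁆ * w') = ⁅x₁, f⁆ * (w * ⁅y₁, f⁆) * w' := by group
    _ = ⁅x₁, f⁆ * (⁅y₁, f⁆ * w) * w' := by rw [hWc w hw _ hcy]
    _ = (⁅x₁, f⁆ * ⁅y₁, f⁆) * (w * w') := by group
    _ = (⁅y₁, f⁆ * ⁅x₁, f⁆) * (w * w') := by rw [hab x₁ hx₁ y₁ hy₁]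
    _ = ⁅y₁, f⁆ * (⁅x₁, f⁆ * w') * w := by
        rw [hWc w hw w' (hWQ hw')]; group
    _ = ⁅y₁, f⁆ * (w' * ⁅x₁, f⁆) * w := by rw [hWc w' hw' _ hcx]
    _ = ⁅y₁, f⁆ * w' * (⁅x₁, f⁆ * w) := by group

/-- Case (b) when `F` is exceptional too. -/
theorem case_b_raw [Finite G] {𝔽' : Type*} [Field 𝔽'] [Fintype 𝔽'] [CharP 𝔽' 3]
    {F Q' W' V' Z' Y' Ω' B' : Subgroup G}
    (r : Raw 𝔽 E Q W V Z Y Ω B) (r' : Raw 𝔽' F Q' W' V' Z' Y' Ω' B')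
    (hFQ : F ≤ normalizer (Q : Set G)) (hFE : F ≤ normalizer (E : Set G))
    (hc : ∀ e ∈ E, ∀ f ∈ F, ⁅e, f⁆ ∈ Q)
    (hQF : ∀ q ∈ Q, ∀ f ∈ F, ⁅q, f⁆ ∈ Q')
    {f₀ : G} (hf₀ : f₀ ∈ F) {l₀ : 𝔽} (hl₀ : l₀ ≠ 1)
    (hl : ∀ q ∈ Q, r.ψ₂ (f₀ * q * f₀⁻¹) = l₀ • r.ψ₂ q) : False := by
  have hWc : ∀ w ∈ W, ∀ q ∈ Q, w * q = q * w := by
    intro w hw q hq
    rw [r.hWdef] at hw
    exact (mem_centralizer_iff.1 (omegaOneCenter_le_cent Q hw) q hq).symm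
  have hWc' : ∀ w ∈ W', ∀ q ∈ Q', w * q = q * w := by
    intro w hw q hq
    rw [r'.hWdef] at hw
    exact (mem_centralizer_iff.1 (omegaOneCenter_le_cent Q' hw) q hq).symm
  have hcQ : ∀ q ∈ Q, ∀ f ∈ F, ⁅q, f⁆ ∈ Q := by
    intro q hq f hf
    have h1 : ⁅q, f⁆ = q * (f * q * f⁻¹)⁻¹ := by simp only [commutatorElement_def]; group
    rw [h1]; exact Q.mul_mem hq (Q.inv_mem (mem_Q_of_norm (hFQ hf) hq))
  set A : Subgroup G := ⁅Q, F⁆ with hA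
  have hAQ' : A ≤ Q' := by rw [hA, Subgroup.commutator_le]; exact hQF
  have hAQ : A ≤ Q := by rw [hA, Subgroup.commutator_le]; exact hcQ
  have hAF : ∀ f ∈ F, ∀ a ∈ A, f * a * f⁻¹ ∈ A := by
    intro f hf a ha
    have : f ∈ normalizer (A : Set G) := mem_normalizer_commutator (hFQ hf) (le_normalizer hf)
    exact mem_Q_of_norm this ha
  let S : AddSubgroup (Fin 2 → 𝔽') :=
    { carrier := {b | ∃ a ∈ A, r'.ψ₂ a = b}
      add_mem' := by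
        rintro _ _ ⟨a, ha, rfl⟩ ⟨b, hb, rfl⟩
        exact ⟨a * b, A.mul_mem ha hb, r'.ψ₂_mul a (hAQ' ha) b (hAQ' hb)⟩
      zero_mem' := ⟨1, A.one_mem, ψ_one r'⟩
      neg_mem' := by
        rintro _ ⟨a, ha, rfl⟩
        exact ⟨a⁻¹, A.inv_mem ha, ψ_inv r' (hAQ' ha)⟩ }
  have hS : S = ⊥ ∨ S = ⊤ := by
    refine Cfsg.Agent.Lib.PGroup.SL2NatIrr.irr S ?_
    rintro g hg _ ⟨a, ha, rfl⟩
    obtain ⟨f, hf, rfl⟩ := r'.ρ₂_surj g hg
    exact ⟨f * a * f⁻¹, hAF f hf a ha, r'.ρ₂_act f hf a (hAQ' ha)⟩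
  rcases hS with hS | hS
  · have hAW : ∀ a ∈ A, a ∈ W' := by
      intro a ha
      refine (r'.ψ₂_ker a (hAQ' ha)).1 ?_
      have : r'.ψ₂ a ∈ S := ⟨a, ha, rfl⟩
      rw [hS] at this
      simpa using this
    refine not_abelian_commutators r (hFQ hf₀) hl₀ hl (fun x hx y hy => ?_)
    have hx' := hAW _ (Subgroup.commutator_mem_commutator hx hf₀)
    have hy' := hAW _ (Subgroup.commutator_mem_commutator hy hf₀)
    rw [r'.hWdef] at hx' hy'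
    exact omegaOneCenter_comm hx' hy'
  · obtain ⟨x, hx, y, hy, hxy⟩ := K_comm_neg (F := 𝔽')
    obtain ⟨f₁, hf₁, rfl⟩ := r'.ρ₂_surj x hx
    obtain ⟨f₂, hf₂, rfl⟩ := r'.ρ₂_surj y hy
    have hgF : f₁ * f₂ * f₁⁻¹ * f₂⁻¹ ∈ F :=
      F.mul_mem (F.mul_mem (F.mul_mem hf₁ hf₂) (F.inv_mem hf₁)) (F.inv_mem hf₂)
    have hρg : r'.ρ₂ (f₁ * f₂ * f₁⁻¹ * f₂⁻¹) = -1 := by
      rw [r'.ρ₂_mul _ (F.mul_mem (F.mul_mem hf₁ hf₂) (F.inv_mem hf₁)) _ (F.inv_mem hf₂),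
        r'.ρ₂_mul _ (F.mul_mem hf₁ hf₂) _ (F.inv_mem hf₁), r'.ρ₂_mul _ hf₁ _ hf₂,
        ρ_inv r' hf₁, ρ_inv r' hf₂]
      exact hxy
    set g := f₁ * f₂ * f₁⁻¹ * f₂⁻¹ with hg
    have hgQ : g ∈ normalizer (Q : Set G) := hFQ hgF
    -- `g` acts trivially on `Q / W`
    have hsc : ∀ f ∈ F, ∃ l : 𝔽, ∀ q ∈ Q, r.ψ₂ (f * q * f⁻¹) = l • r.ψ₂ q := fun f hf =>
      scalar_of_comm r (hFQ hf) (hFE hf) (fun e he => hc e he f hf)
    have hinvl : ∀ f ∈ F, ∀ l l' : 𝔽, (∀ q ∈ Q, r.ψ₂ (f * q * f⁻¹) = l • r.ψ₂ q) →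
        (∀ q ∈ Q, r.ψ₂ (f⁻¹ * q * f⁻¹⁻¹) = l' • r.ψ₂ q) → l * l' = 1 := by
      intro f hf l l' h1 h2
      obtain ⟨q, hq, hψ⟩ := r.ψ₂_surj (fun _ => 1)
      have h3 : f⁻¹ * q * f⁻¹⁻¹ ∈ Q := mem_Q_of_norm (hFQ (F.inv_mem hf)) hq
      have h4 := h1 _ h3
      rw [h2 q hq, hψ] at h4
      have h5 : f * (f⁻¹ * q * f⁻¹⁻¹) * f⁻¹ = q := by group
      rw [h5, hψ] at h4
      have h6 := congrFun h4 0
      simp only [Pi.smul_apply, smul_eq_mul, mul_one] at h6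
      exact h6.symm
    obtain ⟨l₁, hl₁⟩ := hsc f₁ hf₁
    obtain ⟨l₂, hl₂⟩ := hsc f₂ hf₂
    obtain ⟨l₃, hl₃⟩ := hsc f₁⁻¹ (F.inv_mem hf₁)
    obtain ⟨l₄, hl₄⟩ := hsc f₂⁻¹ (F.inv_mem hf₂)
    have h13 := hinvl f₁ hf₁ l₁ l₃ hl₁ hl₃
    have h24 := hinvl f₂ hf₂ l₂ l₄ hl₂ hl₄
    have hgψ : ∀ q ∈ Q, r.ψ₂ (g * q * g⁻¹) = r.ψ₂ q := by
      intro q hq
      have h4 : f₂⁻¹ * q * f₂⁻¹⁻¹ ∈ Q := mem_Q_of_norm (hFQ (F.inv_mem hf₂)) hq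
      have h3 : f₁⁻¹ * (f₂⁻¹ * q * f₂⁻¹⁻¹) * f₁⁻¹⁻¹ ∈ Q := mem_Q_of_norm (hFQ (F.inv_mem hf₁)) h4
      have h2 : f₂ * (f₁⁻¹ * (f₂⁻¹ * q * f₂⁻¹⁻¹) * f₁⁻¹⁻¹) * f₂⁻¹ ∈ Q := mem_Q_of_norm (hFQ hf₂) h3
      have h5 : g * q * g⁻¹ = f₁ * (f₂ * (f₁⁻¹ * (f₂⁻¹ * q * f₂⁻¹⁻¹) * f₁⁻¹⁻¹) * f₂⁻¹) * f₁⁻¹ := by
        rw [hg]; group
      rw [h5, hl₁ _ h2, hl₂ _ h3, hl₃ _ h4, hl₄ _ hq, smul_smul, smul_smul, smul_smul]
      have h6 : l₁ * l₂ * l₃ * l₄ = 1 := by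
        calc l₁ * l₂ * l₃ * l₄ = (l₁ * l₃) * (l₂ * l₄) := by ring
          _ = 1 := by rw [h13, h24, one_mul]
      rw [h6, one_smul]
    have hgW : ∀ q ∈ Q, ⁅q, g⁆ ∈ W := by
      intro q hq
      have hcq : ⁅q, g⁆ ∈ Q := by
        have h1 : ⁅q, g⁆ = q * (g * q * g⁻¹)⁻¹ := by simp only [commutatorElement_def]; group
        rw [h1]; exact Q.mul_mem hq (Q.inv_mem (mem_Q_of_norm hgQ hq))
      rw [← r.ψ₂_ker _ hcq, comm_ψ r hgQ hq, hgψ q hq, sub_self]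
    have hgQ' : g ∈ normalizer (Q' : Set G) := r'.hEQ hgF
    have hzero : ∀ a ∈ A, r'.ψ₂ a = 0 := by
      intro a ha
      have ha' := hAQ' ha
      have haQ := hAQ ha
      have hc1 : ⁅a⁻¹, g⁆ ∈ W := hgW _ (Q.inv_mem haQ)
      have hc2 : ⁅a⁻¹, g⁆ = a⁻¹ * (g * a * g⁻¹) := by simp only [commutatorElement_def]; group
      have hc3 : ⁅a⁻¹, g⁆ ∈ Q' := by
        rw [hc2]; exact Q'.mul_mem (Q'.inv_mem ha') (mem_Q_of_norm hgQ' ha')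
      have hcW' : ⁅a⁻¹, g⁆ ∈ W' := by
        rw [r'.hWdef]
        refine mem_omegaOneCenter hc3 ?_ ?_
        · refine mem_centralizer_iff.2 (fun q' hq' => ?_)
          have hb : r'.ψ₂ q' ∈ S := by rw [hS]; exact AddSubgroup.mem_top _
          obtain ⟨a₁, ha₁, hψ⟩ := hb
          have hw : a₁⁻¹ * q' ∈ W' := by
            rw [← r'.ψ₂_ker _ (Q'.mul_mem (Q'.inv_mem (hAQ' ha₁)) hq'),
              r'.ψ₂_mul _ (Q'.inv_mem (hAQ' ha₁)) _ hq', ψ_inv r' (hAQ' ha₁), hψ]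
            abel
          have h1 : q' = a₁ * (a₁⁻¹ * q') := by group
          rw [h1]
          have h2 := hWc _ hc1 _ (hAQ ha₁)
          have h3 := hWc' _ hw _ hc3
          calc a₁ * (a₁⁻¹ * q') * ⁅a⁻¹, g⁆ = a₁ * ((a₁⁻¹ * q') * ⁅a⁻¹, g⁆) := by group
            _ = a₁ * (⁅a⁻¹, g⁆ * (a₁⁻¹ * q')) := by rw [h3]
            _ = (a₁ * ⁅a⁻¹, g⁆) * (a₁⁻¹ * q') := by group
            _ = (⁅a⁻¹, g⁆ * a₁) * (a₁⁻¹ * q') := by rw [h2]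
            _ = ⁅a⁻¹, g⁆ * (a₁ * (a₁⁻¹ * q')) := by group
        · have := pow_of_mem_omegaOneCenter (p := 3) (X := Q) (x := ⁅a⁻¹, g⁆) (by rw [← r.hWdef]; exact hc1)
          exact this
      have hψc : r'.ψ₂ ⁅a⁻¹, g⁆ = 0 := (r'.ψ₂_ker _ hc3).2 hcW'
      have h1 : g * a * g⁻¹ = a * ⁅a⁻¹, g⁆ := by rw [hc2]; group
      have h2 := r'.ρ₂_act g hgF a ha'
      rw [h1, r'.ψ₂_mul _ ha' _ hc3, hψc, add_zero, hρg] at h2
      have hneg : ∀ x : Fin 2 → 𝔽', sact (-1 : SL2 𝔽') x = - x := by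
        intro x
        ext i
        simp [sact, Matrix.SpecialLinearGroup.coe_neg, Matrix.neg_mulVec]
      have h3 : r'.ψ₂ a = - r'.ψ₂ a := h2.trans (hneg _)
      have h4 : (2 : 𝔽') • r'.ψ₂ a = 0 := by
        rw [two_smul]
        nth_rewrite 1 [h3]
        simp
      have h2ne : (2 : 𝔽') ≠ 0 := RawAux.two_ne_zero_F
      exact (smul_eq_zero.1 h4).resolve_left h2ne
    have hb : (fun _ => 1 : Fin 2 → 𝔽') ∈ S := by rw [hS]; exact AddSubgroup.mem_top _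
    obtain ⟨a, ha, hψ⟩ := hb
    rw [hzero a ha] at hψ
    have := congrFun hψ 0
    simp at this

end

end ClaimAux

variable {G : Type*} [Group G] [Finite G] {p : ℕ} [Fact p.Prime] {E F : Subgroup G}

open ClaimAux in
/-- PIECE Y2, given that `F` normalizes `E` (a consequence of S2985). -/
theorem claimA_core (hG : centralizer (YY p G : Set G) ≤ YY p G) {T₁ T₂ : Sylow p G}
    (hE : IsBaumannBlock p (T₁ : Subgroup G) E) (hF : IsBaumannBlock p (T₂ : Subgroup G) F)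
    (hEs : E.IsSubnormal) (h : F ≤ centralizer (VV p E : Set G))
    (hFN : F ≤ normalizer (E : Set G)) : ⁅E, F⁆ = ⊥ := by
  have hEV : E ≤ normalizer (VV p E : Set G) := by
    intro e he
    exact mem_normalizer_commutator
      (normalizer_le_omegaOneCenter _ (normalizer_le_normalizer_pCoreOf E (le_normalizer he))) (le_normalizer he)
  have hFQ : F ≤ normalizer (QQ p E : Set G) := hFN.trans (normalizer_le_normalizer_pCoreOf E)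
  have hcomm : ∀ e ∈ E, ∀ f ∈ F, ⁅e, f⁆ ∈ QQ p E := by
    intro e he f hf
    apply ker_V hG T₁ hE hEs
    · have h2 := mem_Q_of_norm (hFN hf) (E.inv_mem he)
      have h1 : ⁅e, f⁆ = e * (f * e⁻¹ * f⁻¹) := by simp only [commutatorElement_def]; group
      rw [h1]; exact E.mul_mem he h2
    · rw [mem_centralizer_iff]
      intro v hv
      have hv1 : e⁻¹ * v * e⁻¹⁻¹ ∈ VV p E := mem_Q_of_norm (hEV (E.inv_mem he)) hv
      have c1 : v * f = f * v := mem_centralizer_iff.1 (h hf) v hv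
      have c2 : (e⁻¹ * v * e⁻¹⁻¹) * f = f * (e⁻¹ * v * e⁻¹⁻¹) := mem_centralizer_iff.1 (h hf) _ hv1
      have c3 : v * f⁻¹ = f⁻¹ * v := (Commute.inv_right c1)
      simp only [inv_inv] at c2
      simp only [commutatorElement_def]
      calc v * (e * f * e⁻¹ * f⁻¹) = e * ((e⁻¹ * v * e) * f) * e⁻¹ * f⁻¹ := by group
        _ = e * (f * (e⁻¹ * v * e)) * e⁻¹ * f⁻¹ := by rw [c2]
        _ = e * f * e⁻¹ * (v * f⁻¹) := by group
        _ = e * f * e⁻¹ * (f⁻¹ * v) := by rw [c3]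
        _ = e * f * e⁻¹ * f⁻¹ * v := by group
  have hQ1 : ∀ q ∈ QQ p E, ∀ f ∈ F, ⁅q, f⁆ = 1 := by
    -- the case `Q = W`
    have hab : pCoreOf p E = omegaOneCenter p (pCoreOf p E) → ∀ q ∈ QQ p E, ∀ f ∈ F, ⁅q, f⁆ = 1 := by
      intro hQW q hq f hf
      have hV : VV p E = QQ p E := VV_eq_of_Q_eq_W hE.2.2.1 hQW
      have hq' : q ∈ VV p E := by rw [hV]; exact hq
      exact commutatorElement_eq_one_iff_mul_comm.2 (mem_centralizer_iff.1 (h hf) q hq')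
    rcases hE.2.2.2.2 with ⟨𝔽, _, _, n, hcard, h0, h1, hc⟩ | ⟨-, -, -, -, hQW⟩
    · rcases hc with hQW | ⟨rfl, h2, h3, -, h4, h5, h6⟩
      · exact hab hQW
      · haveI : CharP 𝔽 3 := charP_of_card_eq_prime_pow hcard
        obtain ⟨r⟩ := raw_of_block hG T₁ E hE hcard h0 h1 h2 h3 h4 h5 h6
        by_cases ha : ∀ q ∈ QQ 3 E, ∀ f ∈ F, ⁅q, f⁆ ∈ WW 3 E
        · exact case_a r hF.1 h hFQ ha
        · exfalso
          push Not at ha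
          obtain ⟨q₀, hq₀, f₀, hf₀, hn⟩ := ha
          obtain ⟨l₀, hl⟩ := scalar_of_comm r (hFQ hf₀) (hFN hf₀) (fun e he => hcomm e he f₀ hf₀)
          have hl₀ : l₀ ≠ 1 := by
            intro h1
            apply hn
            have hcq : ⁅q₀, f₀⁆ ∈ QQ 3 E := by
              have h1 : ⁅q₀, f₀⁆ = q₀ * (f₀ * q₀ * f₀⁻¹)⁻¹ := by simp only [commutatorElement_def]; group
              rw [h1]; exact (QQ 3 E).mul_mem hq₀ ((QQ 3 E).inv_mem (mem_Q_of_norm (hFQ hf₀) hq₀))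
            rw [← r.ψ₂_ker _ hcq, comm_ψ r (hFQ hf₀) hq₀, hl q₀ hq₀, h1, one_smul, sub_self]
          have hQF : ∀ q ∈ QQ 3 E, ∀ f ∈ F, ⁅q, f⁆ ∈ QQ 3 F := fun q hq f hf =>
            Y_comm_mem T₂ hF q (Q_le_Y hEs hq) f hf
          -- the case of `F` with `Q_F` abelian
          have habF : pCoreOf 3 F = omegaOneCenter 3 (pCoreOf 3 F) → False := by
            intro hQW
            refine not_abelian_commutators r (hFQ hf₀) hl₀ hl (fun x hx y hy => ?_)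
            have hx' := hQF x hx f₀ hf₀
            have hy' := hQF y hy f₀ hf₀
            rw [QQ, hQW] at hx' hy'
            exact omegaOneCenter_comm hx' hy'
          rcases hF.2.2.2.2 with ⟨𝔽', _, _, n', hcard', h0', h1', hc'⟩ | ⟨-, -, -, -, hQW⟩
          · rcases hc' with hQW | ⟨-, h2', h3', -, h4', h5', h6'⟩
            · exact habF hQW
            · haveI : CharP 𝔽' 3 := charP_of_card_eq_prime_pow hcard'
              obtain ⟨r'⟩ := raw_of_block hG T₂ F hF hcard' h0' h1' h2' h3' h4' h5' h6'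
              exact case_b_raw r r' hFQ hFN (fun e he f hf => hcomm e he f hf) hQF hf₀ hl₀ hl
          · exact habF hQW
    · exact hab hQW
  rw [eq_bot_iff, Subgroup.commutator_le]
  intro e he f hf
  rw [mem_bot]
  exact comm_eq_one_of_central hF.1 (isPGroup_pCoreOf E)
    (fun a ha f hf => commutatorElement_eq_one_iff_mul_comm.1 (hQ1 a ha f hf))
    (fun f hf => hcomm e he f hf) f hf

end Cfsg.Agent.Lib.BlockY
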