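import Mathlib
import Cfsg.Agent.Lib.BlockY.ClaimACore
import Cfsg.Agent.Lib.BlockX.Dispatch

/-! Piece Y2 of S2986: a block centralizing `V_E` commutes with `E`. -/

namespace Cfsg.Agent.Lib.BlockY
open Subgroup Cfsg
open scoped commutatorElement

variable {G : Type*} [Group G] [Finite G] {p : ℕ} [Fact p.Prime] {E F : Subgroup G}

/-- PIECE Y2. -/
theorem claimA (hG : centralizer (YY p G : Set G) ≤ YY p G) {T₁ T₂ : Sylow p G}
    (hE : IsBaumannBlock p (T₁ : Subgroup G) E) (hF : IsBaumannBlock p (T₂ : Subgroup G) F)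
    (hEs : E.IsSubnormal) (_hFs : F.IsSubnormal) (h : F ≤ centralizer (VV p E : Set G)) : ⁅E, F⁆ = ⊥ :=
  claimA_core hG hE hF hEs h (h.trans (Cfsg.Agent.Lib.BlockX.block_dispatch hG T₁ E hE))

end Cfsg.Agent.Lib.BlockY
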