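import Mathlib
import Cfsg.Agent.Lib.BlockY.Defs

set_option autoImplicit false
set_option linter.style.haveILetI false

namespace Cfsg.Agent.Lib.BlockY.PerfStepAux

/-- Commutant of an irreducible family on a finite abelian group is commutative. -/
theorem comm_of_irr_add {A : Type*} [AddCommGroup A] [Finite A] [Nontrivial A] (S : Set (A →+ A))
    (hirr : ∀ U : AddSubgroup A, (∀ s ∈ S, ∀ u ∈ U, s u ∈ U) → U = ⊥ ∨ U = ⊤)
    (φ ψ : A →+ A) (hφ : ∀ s ∈ S, ∀ a, s (φ a) = φ (s a)) (hψ : ∀ s ∈ S, ∀ a, s (ψ a) = ψ (s a))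
    (a : A) : φ (ψ a) = ψ (φ a) := by
  classical
  let S' : Set (AddMonoid.End A) := S
  let D : Subring (AddMonoid.End A) := Subring.centralizer S'
  have : Finite (AddMonoid.End A) := by
    have : Function.Injective (fun (f : AddMonoid.End A) => (f : A → A)) := fun f g h =>
      AddMonoidHom.ext (fun x => congrFun h x)
    exact Finite.of_injective _ this
  have : Finite D := inferInstance
  have hmem : ∀ θ : AddMonoid.End A, (∀ s ∈ S, ∀ a, s (θ a) = θ (s a)) → θ ∈ D := by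
    intro θ hθ
    refine Subring.mem_centralizer_iff.mpr ?_
    intro s hs
    refine AddMonoidHom.ext (fun x => ?_)
    exact hθ s hs x
  -- nonzero elements of `D` are injective
  have hinj : ∀ θ : D, θ ≠ 0 → Function.Injective ((θ : AddMonoid.End A) : A → A) := by
    intro θ hθ
    have hc : ∀ s ∈ S, ∀ a, s ((θ : AddMonoid.End A) a) = (θ : AddMonoid.End A) (s a) := by
      intro s hs a
      have := Subring.mem_centralizer_iff.mp θ.2 s hs
      exact (congrArg (fun f : AddMonoid.End A => f a) this)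
    let U : AddSubgroup A := ((θ : AddMonoid.End A) : A →+ A).ker
    have hU : ∀ s ∈ S, ∀ u ∈ U, s u ∈ U := by
      intro s hs u hu
      have hu' : (θ : AddMonoid.End A) u = 0 := hu
      show (θ : AddMonoid.End A) (s u) = 0
      rw [← hc s hs u, hu', map_zero]
    rcases hirr U hU with h | h
    · exact (AddMonoidHom.ker_eq_bot_iff _).mp h
    · exfalso
      apply hθ
      apply Subtype.ext
      refine AddMonoidHom.ext (fun x => ?_)
      have : x ∈ U := by rw [h]; trivial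
      exact this
  have : Nontrivial D := by
    refine ⟨⟨0, 1, ?_⟩⟩
    intro h
    obtain ⟨x, hx⟩ := exists_ne (0 : A)
    have h1 : ((0 : D) : AddMonoid.End A) = ((1 : D) : AddMonoid.End A) := congrArg _ h
    have h2 := congrArg (fun f : AddMonoid.End A => f x) h1
    exact hx (by simpa using h2.symm)
  have : NoZeroDivisors D := by
    refine ⟨?_⟩
    intro θ η h
    by_cases hθ : θ = 0
    · exact Or.inl hθ
    · right
      apply Subtype.ext
      refine AddMonoidHom.ext (fun x => ?_)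
      apply hinj θ hθ
      have h1 : ((θ * η : D) : AddMonoid.End A) x = 0 := by rw [h]; rfl
      have h2 : (θ : AddMonoid.End A) ((η : AddMonoid.End A) x) = 0 := h1
      refine h2.trans ?_
      show (0 : A) = (θ : AddMonoid.End A) 0
      rw [map_zero]
  have : IsDomain D := NoZeroDivisors.to_isDomain D
  have hF : IsField D := Finite.isDomain_to_isField D
  have h := hF.mul_comm ⟨φ, hmem φ hφ⟩ ⟨ψ, hmem ψ hψ⟩
  have h1 := congrArg (fun θ : D => (θ : AddMonoid.End A) a) h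
  exact h1

/-- Multiplicative version on a section `M / N`. -/
theorem comm_mul {M : Type*} [CommGroup M] [Finite M] (N : Subgroup M) (S : Set (M →* M))
    (hS : ∀ s ∈ S, N ≤ N.comap s) (φ ψ : M →* M) (hφN : N ≤ N.comap φ) (hψN : N ≤ N.comap ψ)
    (hφ : ∀ s ∈ S, ∀ a, s (φ a) = φ (s a)) (hψ : ∀ s ∈ S, ∀ a, s (ψ a) = ψ (s a))
    (hirr : ∀ X : Subgroup M, N ≤ X → (∀ s ∈ S, ∀ x ∈ X, s x ∈ X) → X = N ∨ X = ⊤)
    (hne : N ≠ ⊤) (a : M) : φ (ψ a) * (ψ (φ a))⁻¹ ∈ N := by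
  classical
  let lift : ∀ θ : M →* M, N ≤ N.comap θ → Additive (M ⧸ N) →+ Additive (M ⧸ N) :=
    fun θ h => MonoidHom.toAdditive (QuotientGroup.map N N θ h)
  have lift_mk : ∀ (θ : M →* M) (h : N ≤ N.comap θ) (x : M),
      lift θ h (Additive.ofMul (x : M ⧸ N)) = Additive.ofMul ((θ x : M) : M ⧸ N) := fun θ h x => rfl
  have all_mk : ∀ x : Additive (M ⧸ N), ∃ y : M, x = Additive.ofMul (y : M ⧸ N) := by
    intro x
    obtain ⟨y, hy⟩ := QuotientGroup.mk_surjective (Additive.toMul x)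
    exact ⟨y, by rw [hy]; rfl⟩
  haveI : Nontrivial (Additive (M ⧸ N)) := by
    by_contra hn
    rw [not_nontrivial_iff_subsingleton] at hn
    apply hne
    rw [eq_top_iff]
    intro x _
    have h1 : Additive.ofMul (x : M ⧸ N) = Additive.ofMul (1 : M ⧸ N) := Subsingleton.elim _ _
    have h2 : (x : M ⧸ N) = 1 := Additive.ofMul.injective h1
    exact (QuotientGroup.eq_one_iff x).mp h2
  let S' : Set (Additive (M ⧸ N) →+ Additive (M ⧸ N)) :=
    {t | ∃ s, ∃ hs : s ∈ S, t = lift s (hS s hs)}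
  have key := comm_of_irr_add S' ?_ (lift φ hφN) (lift ψ hψN) ?_ ?_ (Additive.ofMul (a : M ⧸ N))
  · rw [lift_mk, lift_mk, lift_mk, lift_mk] at key
    have h2 : ((φ (ψ a) : M) : M ⧸ N) = ((ψ (φ a) : M) : M ⧸ N) := Additive.ofMul.injective key
    rw [QuotientGroup.eq] at h2
    have h3 : φ (ψ a) * (ψ (φ a))⁻¹ = ((φ (ψ a))⁻¹ * ψ (φ a))⁻¹ := by
      simp [mul_comm]
    rw [h3]
    exact N.inv_mem h2
  · -- irreducibility
    intro U hU
    let X : Subgroup M := (AddSubgroup.toSubgroup' U).comap (QuotientGroup.mk' N)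
    have memX : ∀ x : M, x ∈ X ↔ Additive.ofMul (x : M ⧸ N) ∈ U := fun x => Iff.rfl
    have hNX : N ≤ X := by
      intro x hx
      rw [memX]
      have : (x : M ⧸ N) = 1 := (QuotientGroup.eq_one_iff x).mpr hx
      rw [this]
      exact U.zero_mem
    have hinv : ∀ s ∈ S, ∀ x ∈ X, s x ∈ X := by
      intro s hs x hx
      rw [memX] at hx ⊢
      have := hU (lift s (hS s hs)) ⟨s, hs, rfl⟩ _ hx
      rwa [lift_mk] at this
    rcases hirr X hNX hinv with h | h
    · left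
      rw [eq_bot_iff]
      intro x hx
      obtain ⟨y, rfl⟩ := all_mk x
      have : y ∈ X := (memX y).mpr hx
      rw [h] at this
      have h2 : (y : M ⧸ N) = 1 := (QuotientGroup.eq_one_iff y).mpr this
      rw [h2]
      exact AddSubgroup.mem_bot.mpr rfl
    · right
      rw [eq_top_iff]
      intro x _
      obtain ⟨y, rfl⟩ := all_mk x
      have : y ∈ X := by rw [h]; trivial
      exact (memX y).mp this
  · rintro t ⟨s, hs, rfl⟩ x
    obtain ⟨y, rfl⟩ := all_mk x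
    simp only [lift_mk, hφ s hs]
  · rintro t ⟨s, hs, rfl⟩ x
    obtain ⟨y, rfl⟩ := all_mk x
    simp only [lift_mk, hψ s hs]

open Subgroup in
/-- Group-level version: two elements acting on the irreducible section `W / Z`, commuting with `E`,
commute modulo `Z`. -/
theorem comm_action {G : Type*} [Group G] [Finite G] {E W Z : Subgroup G}
    (hWab : ∀ a ∈ W, ∀ b ∈ W, a * b = b * a) (hZW : Z ≤ W)
    (hEW : E ≤ normalizer (W : Set G)) (hEZ : E ≤ normalizer (Z : Set G))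
    (hirr : ∀ X : Subgroup G, X ≤ W → E ≤ normalizer (X : Set G) → X ≤ Z ∨ W ≤ X ⊔ Z) (hne : ¬ W ≤ Z)
    {f₁ f₂ : G} (h1W : f₁ ∈ normalizer (W : Set G)) (h1Z : f₁ ∈ normalizer (Z : Set G))
    (h2W : f₂ ∈ normalizer (W : Set G)) (h2Z : f₂ ∈ normalizer (Z : Set G))
    (h1c : ∀ e ∈ E, ∀ w ∈ W, f₁ * (e * w * e⁻¹) * f₁⁻¹ = e * (f₁ * w * f₁⁻¹) * e⁻¹)
    (h2c : ∀ e ∈ E, ∀ w ∈ W, f₂ * (e * w * e⁻¹) * f₂⁻¹ = e * (f₂ * w * f₂⁻¹) * e⁻¹)
    {w : G} (hw : w ∈ W) :
    f₁ * (f₂ * w * f₂⁻¹) * f₁⁻¹ * (f₂ * (f₁ * w * f₁⁻¹) * f₂⁻¹)⁻¹ ∈ Z := by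
  classical
  letI instCG : CommGroup ↥W :=
    { (inferInstance : Group ↥W) with
      mul_comm := fun a b => Subtype.ext (hWab a a.2 b b.2) }
  have hmemN : ∀ {g : G}, g ∈ normalizer (W : Set G) → ∀ {x : G}, x ∈ W → g * x * g⁻¹ ∈ W :=
    fun hg _ hx => (mem_normalizer_iff.mp hg _).mp hx
  let cW : ∀ g : G, g ∈ normalizer (W : Set G) → (↥W →* ↥W) := fun g hg =>
    { toFun := fun x => ⟨g * x * g⁻¹, hmemN hg x.2⟩
      map_one' := Subtype.ext (by simp)
      map_mul' := fun x y => Subtype.ext (by simp [mul_assoc]) }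
  have cW_val : ∀ (g : G) (hg : g ∈ normalizer (W : Set G)) (x : ↥W), ((cW g hg x : ↥W) : G) = g * x * g⁻¹ :=
    fun _ _ _ => rfl
  let N : Subgroup ↥W := Z.subgroupOf W
  have hcN : ∀ (g : G) (hg : g ∈ normalizer (W : Set G)), g ∈ normalizer (Z : Set G) → N ≤ N.comap (cW g hg) := by
    intro g hg hgZ x hx
    have hx' : (x : G) ∈ Z := hx
    show ((cW g hg x : ↥W) : G) ∈ Z
    exact (mem_normalizer_iff.mp hgZ _).mp hx'
  let S : Set (↥W →* ↥W) := {s | ∃ e, ∃ he : e ∈ E, s = cW e (hEW he)}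
  have hcomm : ∀ (f : G) (hf : f ∈ normalizer (W : Set G)),
      (∀ e ∈ E, ∀ w ∈ W, f * (e * w * e⁻¹) * f⁻¹ = e * (f * w * f⁻¹) * e⁻¹) →
      ∀ s ∈ S, ∀ a, s (cW f hf a) = cW f hf (s a) := by
    rintro f hf hc s ⟨e, he, rfl⟩ a
    apply Subtype.ext
    simp only [cW_val]
    exact (hc e he a a.2).symm
  have key := comm_mul (M := ↥W) N S ?_ (cW f₁ h1W) (cW f₂ h2W) (hcN _ h1W h1Z) (hcN _ h2W h2Z)
    (hcomm _ h1W h1c) (hcomm _ h2W h2c) ?_ ?_ ⟨w, hw⟩
  · have h2 : ((cW f₁ h1W (cW f₂ h2W ⟨w, hw⟩) * (cW f₂ h2W (cW f₁ h1W ⟨w, hw⟩))⁻¹ : ↥W) : G) ∈ Z := key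
    simpa only [Subgroup.coe_mul, Subgroup.coe_inv, cW_val] using h2
  · rintro s ⟨e, he, rfl⟩
    exact hcN _ (hEW he) (hEZ he)
  · -- irreducibility
    intro X hNX hinv
    let X' : Subgroup G := X.map W.subtype
    have memX' : ∀ {x : G} (hx : x ∈ W), x ∈ X' ↔ (⟨x, hx⟩ : ↥W) ∈ X := by
      intro x hx
      constructor
      · rintro ⟨y, hy, rfl⟩
        exact hy
      · intro h
        exact ⟨_, h, rfl⟩
    have hX'W : X' ≤ W := by
      rintro _ ⟨y, _, rfl⟩
      exact y.2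
    have hZX' : Z ≤ X' := by
      intro z hz
      rw [memX' (hZW hz)]
      exact hNX (show _ ∈ Z from hz)
    have hEX' : E ≤ normalizer (X' : Set G) := by
      have h1 : ∀ e ∈ E, ∀ x ∈ X', e * x * e⁻¹ ∈ X' := by
        intro e he x hx
        have hxW := hX'W hx
        have := hinv _ ⟨e, he, rfl⟩ _ ((memX' hxW).mp hx)
        exact (memX' (hmemN (hEW he) hxW)).mpr this
      intro e he
      rw [mem_normalizer_iff]
      intro x
      refine ⟨h1 e he x, fun hx => ?_⟩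
      have := h1 e⁻¹ (E.inv_mem he) _ hx
      simpa [mul_assoc] using this
    rcases hirr X' hX'W hEX' with h | h
    · left
      apply le_antisymm
      · intro x hx
        exact h ((memX' x.2).mpr hx)
      · exact hNX
    · right
      rw [sup_eq_left.mpr hZX'] at h
      rw [eq_top_iff]
      intro x _
      exact (memX' x.2).mp (h x.2)
  · intro h
    apply hne
    intro x hx
    have : (⟨x, hx⟩ : ↥W) ∈ N := by rw [h]; trivial
    exact this

end Cfsg.Agent.Lib.BlockY.PerfStepAux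

namespace Cfsg.Agent.Lib.BlockY

open Subgroup Cfsg Cfsg.Agent.Lib.PGroup.BaumannSect Cfsg.Agent.Lib.BlockY.PerfStepAux
open scoped commutatorElement

variable {G : Type*} [Group G] [Finite G] {p : ℕ} [Fact p.Prime] {E F : Subgroup G}

theorem perfStepStable {E Y V : Subgroup G} (hE : pResidualOf p E = E)
    (hYp : IsPGroup p Y) (hEY : E ≤ normalizer (Y : Set G)) (hEV : E ≤ normalizer (V : Set G))
    (hVc : ∀ v ∈ V, ∀ y ∈ Y, v * y = y * v)
    (hst : ∀ y ∈ Y, ∀ e ∈ E, ∀ e' ∈ E, ⁅⁅y, e⁆, e'⁆ ∈ V) : ∀ y ∈ Y, ∀ e ∈ E, ⁅y, e⁆ ∈ V := by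
  -- the subgroup of elements acting trivially on `Y` modulo `V`
  let X : Subgroup G :=
    { carrier := {g | g ∈ normalizer (V : Set G) ∧ ∀ y ∈ Y, ⁅y, g⁆ ∈ V}
      one_mem' := ⟨one_mem _, fun y _ => by simp [one_mem]⟩
      mul_mem' := by
        rintro a b ⟨ha, ha'⟩ ⟨hb, hb'⟩
        refine ⟨mul_mem ha hb, fun y hy => ?_⟩
        have h1 := ha' y hy
        have h2 := (mem_normalizer_iff.mp ha _).mp (hb' y hy)
        have : ⁅y, a * b⁆ = ⁅y, a⁆ * (a * ⁅y, b⁆ * a⁻¹) := by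
          simp only [commutatorElement_def]; group
        rw [this]
        exact mul_mem h1 h2
      inv_mem' := by
        rintro a ⟨ha, ha'⟩
        refine ⟨inv_mem ha, fun y hy => ?_⟩
        have h1 := (mem_normalizer_iff.mp (inv_mem ha) _).mp (inv_mem (ha' y hy))
        have : ⁅y, a⁻¹⁆ = a⁻¹ * ⁅y, a⁆⁻¹ * a⁻¹⁻¹ := by
          simp only [commutatorElement_def]; group
        rw [this]
        exact h1 }
  have hEX : ∀ e ∈ E, e ∈ X := by
    refine Cfsg.Agent.Lib.PGroup.BaumannNorm.forall_mem_of_pResidualOf hE ?_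
    intro e he hcop
    refine ⟨hEV he, fun y hy => ?_⟩
    set u := ⁅y, e⁆ with hu
    have hconj : ∀ x ∈ Y, e * x * e⁻¹ ∈ Y := fun x hx => (mem_normalizer_iff.mp (hEY he) x).mp hx
    have huY : u ∈ Y := by
      have : u = y * (e * y⁻¹ * e⁻¹) := by
        rw [hu, commutatorElement_def]; group
      rw [this]
      exact mul_mem hy (hconj _ (inv_mem hy))
    -- `σ u = v u` with `v ∈ V`
    have hv := hst y hy e he e he
    set v := ⁅u, e⁆⁻¹ with hvdef
    have hvV : v ∈ V := inv_mem hv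
    have hσu : e * u * e⁻¹ = v * u := by
      rw [hvdef, commutatorElement_def]; group
    have hσy : e * y * e⁻¹ = u⁻¹ * y := by
      rw [hu, commutatorElement_def]; group
    have hvu : v * u = u * v := hVc v hvV u huY
    -- iterate
    have hiter : ∀ n : ℕ, ∃ w ∈ V, e ^ n * y * (e ^ n)⁻¹ = w * (u ^ n)⁻¹ * y := by
      intro n
      induction n with
      | zero => exact ⟨1, one_mem _, by simp⟩
      | succ n ih =>
        obtain ⟨w, hw, h⟩ := ih
        have hw' : e * w * e⁻¹ ∈ V := (mem_normalizer_iff.mp (hEV he) w).mp hw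
        have hvc : Commute v u := hvu
        refine ⟨e * w * e⁻¹ * (v ^ n)⁻¹, mul_mem hw' (inv_mem (pow_mem hvV n)), ?_⟩
        have h1 : e ^ (n + 1) * y * (e ^ (n + 1))⁻¹ = e * (e ^ n * y * (e ^ n)⁻¹) * e⁻¹ := by
          rw [pow_succ']; group
        have h2 : e * (u ^ n)⁻¹ * e⁻¹ = ((v * u) ^ n)⁻¹ := by
          rw [← hσu, conj_pow]; group
        have h3 : (v * u) ^ n = v ^ n * u ^ n := hvc.mul_pow n
        rw [h1, h]
        calc e * (w * (u ^ n)⁻¹ * y) * e⁻¹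
            = (e * w * e⁻¹) * (e * (u ^ n)⁻¹ * e⁻¹) * (e * y * e⁻¹) := by group
          _ = (e * w * e⁻¹) * ((v * u) ^ n)⁻¹ * (u⁻¹ * y) := by rw [h2, hσy]
          _ = (e * w * e⁻¹) * (u ^ n)⁻¹ * (v ^ n)⁻¹ * (u⁻¹ * y) := by rw [h3]; group
          _ = (e * w * e⁻¹) * (v ^ n)⁻¹ * (u ^ (n + 1))⁻¹ * y := by
              have h4 : Commute (v ^ n) (u ^ n) := hvc.pow_pow n n
              have h5 : (u ^ n)⁻¹ * (v ^ n)⁻¹ = (v ^ n)⁻¹ * (u ^ n)⁻¹ := by
                rw [← mul_inv_rev, ← mul_inv_rev, h4.eq]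
              rw [pow_succ]
              calc (e * w * e⁻¹) * (u ^ n)⁻¹ * (v ^ n)⁻¹ * (u⁻¹ * y)
                  = (e * w * e⁻¹) * ((u ^ n)⁻¹ * (v ^ n)⁻¹) * (u⁻¹ * y) := by group
                _ = (e * w * e⁻¹) * ((v ^ n)⁻¹ * (u ^ n)⁻¹) * (u⁻¹ * y) := by rw [h5]
                _ = _ := by group
    obtain ⟨w, hw, h⟩ := hiter (orderOf e)
    have h1 : (u ^ orderOf e) = w := by
      rw [pow_orderOf_eq_one] at h
      have h2 : w * (u ^ orderOf e)⁻¹ = 1 := by simpa using h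
      exact (mul_inv_eq_one.mp h2).symm
    have hun : u ^ orderOf e ∈ V := h1 ▸ hw
    -- `u` has `p`-power order, `orderOf e` is prime to `p`
    obtain ⟨k, hk⟩ := (IsPGroup.iff_orderOf.mp hYp) ⟨u, huY⟩
    have hk' : orderOf u = p ^ k := by
      rw [← hk]; exact (Subgroup.orderOf_mk u huY).symm
    have hcop' : Nat.Coprime (orderOf e) (orderOf u) := by
      rw [hk']
      exact Nat.Coprime.pow_right k hcop
    obtain ⟨m, hm⟩ := exists_pow_eq_self_of_coprime hcop'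
    rw [← hm]
    exact pow_mem hun m
  exact fun y hy e he => (hEX e he).2 y hy

theorem perf_step (hG : centralizer (YY p G : Set G) ≤ YY p G) {T₁ T₂ : Sylow p G}
    (hE : IsBaumannBlock p (T₁ : Subgroup G) E) (hF : IsBaumannBlock p (T₂ : Subgroup G) F)
    (hEs : E.IsSubnormal) (hFs : F.IsSubnormal) (hFE : F ≤ normalizer (E : Set G))
    (hcomm : ⁅E, F⁆ ≤ QQ p E) (hperf : IsQuasisimple ↥(F.map (toQ p G))) :
    F ≤ centralizer (VV p E : Set G) := by
  have hNW : normalizer (E : Set G) ≤ normalizer (WW p E : Set G) :=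
    (Cfsg.Agent.Lib.PGroup.LargeSub2.normalizer_le_normalizer_pCoreOf E).trans
      (normalizer_le_omegaOneCenter _)
  have hNZ : normalizer (E : Set G) ≤ normalizer (ZZ p E : Set G) := fun g hg =>
    mem_normalizer_inf (hNW hg) (normalizer_le_centralizer E hg)
  have hEE : E ≤ normalizer (E : Set G) := Subgroup.le_normalizer
  have hWab : ∀ a ∈ WW p E, ∀ b ∈ WW p E, a * b = b * a := fun a ha b hb => omegaOneCenter_comm ha hb
  have hZW : ZZ p E ≤ WW p E := inf_le_left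
  have hirr := block_irrSect hE
  have hZc : ∀ z ∈ ZZ p E, ∀ e ∈ E, z * e = e * z := fun z hz e he =>
    (mem_centralizer_iff.mp hz.2 e he).symm
  have hne : ¬ WW p E ≤ ZZ p E := by
    intro h
    apply hirr.2
    rw [commutator_le]
    intro w hw e he
    have : ⁅w, e⁆ = 1 := by
      rw [commutatorElement_eq_one_iff_mul_comm]
      exact hZc w (h hw) e he
    rw [this]
    exact one_mem _
  -- `F` commutes with `E` on `W`
  have hQW : ∀ q ∈ QQ p E, ∀ w ∈ WW p E, w * q = q * w := fun q hq w hw =>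
    (mem_centralizer_iff.mp (omegaOneCenter_le_cent _ hw) q hq).symm
  have hfc : ∀ f ∈ F, ∀ e ∈ E, ∀ w ∈ WW p E, f * (e * w * e⁻¹) * f⁻¹ = e * (f * w * f⁻¹) * e⁻¹ := by
    intro f hf e he w hw
    have hq : ⁅f, e⁆ ∈ QQ p E := by
      have : ⁅f, e⁆ ∈ ⁅E, F⁆ := by
        rw [commutator_comm]
        exact commutator_mem_commutator hf he
      exact hcomm this
    have hw' : f * w * f⁻¹ ∈ WW p E := (mem_normalizer_iff.mp (hNW (hFE hf)) w).mp hw
    have hw'' : e * (f * w * f⁻¹) * e⁻¹ ∈ WW p E :=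
      (mem_normalizer_iff.mp (hNW (hEE he)) _).mp hw'
    have h1 := hQW _ hq _ hw''
    have h2 : f * e * f⁻¹ = ⁅f, e⁆ * e := by
      rw [commutatorElement_def]; group
    calc f * (e * w * e⁻¹) * f⁻¹ = (f * e * f⁻¹) * (f * w * f⁻¹) * (f * e * f⁻¹)⁻¹ := by group
      _ = ⁅f, e⁆ * (e * (f * w * f⁻¹) * e⁻¹) * ⁅f, e⁆⁻¹ := by rw [h2]; group
      _ = e * (f * w * f⁻¹) * e⁻¹ := by rw [← h1]; group
  -- the kernel of the action on `W / Z`
  have hWconj : ∀ g ∈ normalizer (E : Set G), ∀ w ∈ WW p E, g * w * g⁻¹ ∈ WW p E := fun g hg w hw =>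
    (mem_normalizer_iff.mp (hNW hg) w).mp hw
  have hZconj : ∀ g ∈ normalizer (E : Set G), ∀ w ∈ ZZ p E, g * w * g⁻¹ ∈ ZZ p E := fun g hg w hw =>
    (mem_normalizer_iff.mp (hNZ hg) w).mp hw
  let Kr : Subgroup G :=
    { carrier := {g | g ∈ normalizer (E : Set G) ∧ ∀ w ∈ WW p E, g * w * g⁻¹ * w⁻¹ ∈ ZZ p E}
      one_mem' := ⟨one_mem _, fun w _ => by simp [one_mem]⟩
      mul_mem' := by
        rintro a b ⟨ha, ha'⟩ ⟨hb, hb'⟩
        refine ⟨mul_mem ha hb, fun w hw => ?_⟩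
        have h1 := hZconj a ha _ (hb' w hw)
        have h2 := ha' w hw
        have : a * b * w * (a * b)⁻¹ * w⁻¹ = (a * (b * w * b⁻¹ * w⁻¹) * a⁻¹) * (a * w * a⁻¹ * w⁻¹) := by
          group
        rw [this]
        exact mul_mem h1 h2
      inv_mem' := by
        rintro a ⟨ha, ha'⟩
        refine ⟨inv_mem ha, fun w hw => ?_⟩
        have hw1 : a⁻¹ * w * a ∈ WW p E := by
          have := hWconj a⁻¹ (inv_mem ha) w hw
          simpa using this
        have h2 := ha' _ hw1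
        have : a⁻¹ * w * a⁻¹⁻¹ * w⁻¹ = (a * (a⁻¹ * w * a) * a⁻¹ * (a⁻¹ * w * a)⁻¹)⁻¹ := by
          group
        rw [this]
        exact inv_mem h2 }
  have hcK : ⁅F, F⁆ ≤ Kr := by
    rw [commutator_le]
    intro f₁ h₁ f₂ h₂
    have hn : ⁅f₁, f₂⁆ ∈ normalizer (E : Set G) := by
      rw [commutatorElement_def]
      exact mul_mem (mul_mem (mul_mem (hFE h₁) (hFE h₂)) (inv_mem (hFE h₁))) (inv_mem (hFE h₂))
    refine ⟨hn, fun w hw => ?_⟩
    -- `w₀ = (f₂ f₁)⁻¹ w (f₂ f₁)`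
    have hw₀ : (f₂ * f₁)⁻¹ * w * (f₂ * f₁) ∈ WW p E := by
      have := hWconj (f₂ * f₁)⁻¹ (inv_mem (mul_mem (hFE h₂) (hFE h₁))) w hw
      simpa using this
    have key := comm_action (E := E) (W := WW p E) (Z := ZZ p E) hWab hZW (hEE.trans hNW)
      (hEE.trans hNZ) hirr.1 hne (hNW (hFE h₁)) (hNZ (hFE h₁)) (hNW (hFE h₂)) (hNZ (hFE h₂))
      (hfc f₁ h₁) (hfc f₂ h₂) hw₀
    have : ⁅f₁, f₂⁆ * w * ⁅f₁, f₂⁆⁻¹ * w⁻¹ =
        f₁ * (f₂ * ((f₂ * f₁)⁻¹ * w * (f₂ * f₁)) * f₂⁻¹) * f₁⁻¹ *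
          (f₂ * (f₁ * ((f₂ * f₁)⁻¹ * w * (f₂ * f₁)) * f₁⁻¹) * f₂⁻¹)⁻¹ := by
      rw [commutatorElement_def]; group
    rw [this]
    exact key
  have hVW : VV p E ≤ WW p E := by
    rw [commutator_le]
    intro w hw e he
    have : ⁅w, e⁆ = w * (e * w⁻¹ * e⁻¹) := by
      rw [commutatorElement_def]; group
    rw [this]
    exact mul_mem hw (hWconj e (hEE he) _ (inv_mem hw))
  have hVM : VV p E ≤ MM p G := (block_main hG T₁ E hE).2.1
  have hYc : ∀ y ∈ YY p G, ∀ v ∈ VV p E, y * v = v * y := fun y hy v hv =>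
    mem_centralizer_iff.mp (omegaOneCenter_le_cent _ (hVM hv)) y hy
  -- `F = ⁅F, F⁆ · (F ∩ Y)` on `V`
  have hmapc : F.map (toQ p G) = ⁅F, F⁆.map (toQ p G) := by
    have h0 := Subgroup.map_subtype_commutator (F.map (toQ p G))
    rw [hperf.1.commutator_eq_top] at h0
    have h1 : (⊤ : Subgroup ↥(F.map (toQ p G))).map (F.map (toQ p G)).subtype = F.map (toQ p G) := by
      rw [← MonoidHom.range_eq_map, Subgroup.range_subtype]
    rw [h1] at h0
    rw [Subgroup.map_commutator]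
    exact h0
  have hVFZ : ∀ f ∈ F, ∀ v ∈ VV p E, f * v * f⁻¹ * v⁻¹ ∈ ZZ p E := by
    intro f hf v hv
    have hfm : toQ p G f ∈ ⁅F, F⁆.map (toQ p G) := by
      rw [← hmapc]
      exact mem_map_of_mem _ hf
    obtain ⟨x, hx, hxf⟩ := hfm
    have hy : x⁻¹ * f ∈ YY p G := by
      haveI := Cfsg.Agent.Lib.Basic.PCore.pCore_normal p G
      exact QuotientGroup.eq.mp hxf
    have hc := hYc _ hy v hv
    have h2 := (hcK hx).2 v (hVW hv)
    have h3 : f * v * f⁻¹ = x * v * x⁻¹ := by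
      have hf' : f = x * (x⁻¹ * f) := by group
      calc f * v * f⁻¹ = x * ((x⁻¹ * f) * v) * (x⁻¹ * f)⁻¹ * x⁻¹ := by group
        _ = x * (v * (x⁻¹ * f)) * (x⁻¹ * f)⁻¹ * x⁻¹ := by rw [hc]
        _ = x * v * x⁻¹ := by group
    rw [h3]
    exact h2
  -- stability
  have hVV : VV p E ≤ ⁅VV p E, E⁆ := by
    have hNV : E ≤ normalizer (VV p E : Set G) := fun e he =>
      mem_normalizer_commutator (hNW (hEE he)) (hEE he)
    have hVE : ⁅VV p E, E⁆ ≤ VV p E := by
      rw [commutator_le]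
      intro v hv e he
      have : ⁅v, e⁆ = v * (e * v⁻¹ * e⁻¹) := by
        rw [commutatorElement_def]; group
      rw [this]
      exact mul_mem hv ((mem_normalizer_iff.mp (hNV he) _).mp (inv_mem hv))
    have := perfStepStable (p := p) (E := E) (Y := WW p E) (V := ⁅VV p E, E⁆) hE.1
      ((Cfsg.Agent.Lib.PGroup.LargeSub2.isPGroup_pCoreOf E).to_le (omegaOneCenter_le _))
      (hEE.trans hNW)
      (fun e he => mem_normalizer_commutator (hNV he) (hEE he))
      (fun v hv y hy => hWab v (hVW (hVE hv)) y hy)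
      (fun y hy e he e' he' => commutator_mem_commutator (commutator_mem_commutator hy he) he')
    rw [commutator_le]
    exact this
  -- three subgroups
  have h1 : ⁅⁅VV p E, F⁆, E⁆ = ⊥ := by
    have hle : ⁅VV p E, F⁆ ≤ ZZ p E := by
      rw [commutator_le]
      intro v hv f hf
      have : ⁅v, f⁆ = (f * v * f⁻¹ * v⁻¹)⁻¹ := by
        rw [commutatorElement_def]; group
      rw [this]
      exact inv_mem (hVFZ f hf v hv)
    rw [eq_bot_iff, commutator_le]
    intro z hz e he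
    rw [mem_bot, commutatorElement_eq_one_iff_mul_comm]
    exact hZc z (hle hz) e he
  have h2 : ⁅⁅F, E⁆, VV p E⁆ = ⊥ := by
    rw [commutator_comm F E, eq_bot_iff, commutator_le]
    intro q hq v hv
    rw [mem_bot, commutatorElement_eq_one_iff_mul_comm]
    exact (hQW q (hcomm hq) v (hVW hv)).symm
  have h3 : ⁅⁅E, VV p E⁆, F⁆ = ⊥ := commutator_commutator_eq_bot_of_rotate h1 h2
  have h4 : ⁅VV p E, F⁆ = ⊥ := by
    rw [eq_bot_iff, ← h3, commutator_comm E (VV p E)]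
    exact commutator_mono hVV le_rfl
  intro f hf
  rw [mem_centralizer_iff]
  intro v hv
  have : ⁅v, f⁆ = 1 := by
    have := commutator_mem_commutator hv hf
    rw [h4] at this
    exact mem_bot.mp this
  exact commutatorElement_eq_one_iff_mul_comm.mp this

end Cfsg.Agent.Lib.BlockY
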