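import Mathlib
import Cfsg.Prelude.Def_BaumannBlocks
import Cfsg.Agent.Lib.PGroup.BaumannSect
import Cfsg.Agent.Lib.Components.Basic
import Cfsg.Agent.Lib.BlockY.Defs
import Cfsg.Agent.Lib.BlockY.Facts
import Cfsg.Agent.Lib.BlockY.SmallDef
import Cfsg.Agent.Lib.BlockY.ClaimA
import Cfsg.Agent.Lib.BlockY.PerfStep

namespace Cfsg.Agent.Lib.BlockY
open Subgroup Cfsg
open scoped commutatorElement

variable {G : Type*} [Group G] [Finite G] {p : ℕ} [Fact p.Prime] {E F : Subgroup G}

namespace QuasiCase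

open Cfsg.Agent.Lib.Components.Basic

omit [Finite G] [Fact p.Prime] in
theorem sup_eq_comap (E : Subgroup G) : E ⊔ YY p G = (E.map (toQ p G)).comap (toQ p G) := by
  rw [Subgroup.comap_map_eq, QuotientGroup.ker_mk']

omit [Fact p.Prime] in
theorem not_solvable_map (hq : IsQuasisimple ↥(E.map (toQ p G))) :
    ¬ Group.IsSolvable ↥(E.map (toQ p G)) :=
  isQuasisimple_not_isSolvable hq

omit [Finite G] [Fact p.Prime] in
theorem comm_mem_of_map {E F : Subgroup G} (h : ⁅E.map (toQ p G), F.map (toQ p G)⁆ = ⊥) :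
    ⁅E, F⁆ ≤ YY p G := by
  rw [← Subgroup.map_commutator] at h
  intro x hx
  have h1 : toQ p G x ∈ (⁅E, F⁆).map (toQ p G) := Subgroup.mem_map_of_mem _ hx
  rw [h, Subgroup.mem_bot] at h1
  exact (QuotientGroup.eq_one_iff _).1 h1

omit [Finite G] [Fact p.Prime] in
theorem le_normalizer_sup {E F : Subgroup G} (h : ⁅E.map (toQ p G), F.map (toQ p G)⁆ = ⊥) :
    E ≤ normalizer ((F ⊔ YY p G : Subgroup G) : Set G) := by
  have h1 : E.map (toQ p G) ≤ normalizer ((F.map (toQ p G) : Subgroup _) : Set _) := by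
    rw [le_normalizer_iff_commutator_le_right, h]
    exact bot_le
  rw [sup_eq_comap]
  refine le_trans ?_ (Subgroup.le_normalizer_comap _)
  exact Subgroup.map_le_iff_le_comap.1 h1

end QuasiCase

open QuasiCase Cfsg.Agent.Lib.Components.Basic in
theorem quasi_case_core (hG : centralizer (YY p G : Set G) ≤ YY p G) {T₁ T₂ : Sylow p G}
    (hE : IsBaumannBlock p (T₁ : Subgroup G) E) (hF : IsBaumannBlock p (T₂ : Subgroup G) F)
    (hEs : E.IsSubnormal) (hFs : F.IsSubnormal) (hq : IsQuasisimple ↥(E.map (toQ p G)))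
    (hcases : IsQuasisimple ↥(F.map (toQ p G)) ∨ ∃ r S, r.Prime ∧ r + p = 5 ∧ Small p r F S) :
    E = F ∨ ⁅E, F⁆ = ⊥ := by
  have hLs : (E.map (toQ p G)).IsSubnormal := hEs.map (f := toQ p G) (QuotientGroup.mk'_surjective _)
  have hHs : (F.map (toQ p G)).IsSubnormal := hFs.map (f := toQ p G) (QuotientGroup.mk'_surjective _)
  have hLc : IsComponent (E.map (toQ p G)) := ⟨hLs, hq⟩
  rcases component_le_or_commutator _ _ hLc hHs with hLH | hc
  · left
    have hnsol := not_solvable_map hq
    rcases hcases with hqF | ⟨r, S, hr, -, hsm⟩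
    · have hHc : IsComponent (F.map (toQ p G)) := ⟨hHs, hqF⟩
      rcases component_le_or_commutator _ _ hHc hLs with hHL | hc
      · have heq : E.map (toQ p G) = F.map (toQ p G) := le_antisymm hLH hHL
        apply eq_of_sup_eq hG hE hF
        rw [sup_eq_comap, sup_eq_comap, heq]
      · exfalso
        apply hnsol
        apply Group.isSolvable_of_comm
        intro a b
        have h1 : ⁅a.1, b.1⁆ ∈ ⁅F.map (toQ p G), E.map (toQ p G)⁆ :=
          Subgroup.commutator_mem_commutator (hLH a.2) b.2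
        rw [hc, Subgroup.mem_bot] at h1
        exact Subtype.ext (commutatorElement_eq_one_iff_mul_comm.1 h1)
    · exfalso
      apply hnsol
      have : Fact r.Prime := ⟨hr⟩
      have h1 : IsPGroup r ↥(E.map (toQ p G)) := hsm.hr.to_le hLH
      have := h1.isNilpotent
      infer_instance
  · right
    have hc' : ⁅F.map (toQ p G), E.map (toQ p G)⁆ = ⊥ := by rw [Subgroup.commutator_comm]; exact hc
    have hEN : E ≤ normalizer (F : Set G) := (le_normalizer_sup hc).trans (normalizer_EY hG T₂ hF)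
    have hFN : F ≤ normalizer (E : Set G) := (le_normalizer_sup hc').trans (normalizer_EY hG T₁ hE)
    have hcomm : ⁅F, E⁆ ≤ QQ p F := by
      rw [← E_inf_Y hFs]
      exact le_inf (Subgroup.le_normalizer_iff_commutator_le_left.1 hEN) (comm_mem_of_map hc')
    have h1 := perf_step hG hF hE hFs hEs hEN hcomm hq
    have h2 := claimA hG hF hE hFs hEs h1
    rw [Subgroup.commutator_comm]
    exact h2

end Cfsg.Agent.Lib.BlockY
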