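import Mathlib
import Cfsg.Prelude.Def_BaumannBlocks
import Cfsg.Agent.Lib.BlockX.FinalP
import Cfsg.Agent.Lib.BlockX.RawCore
import Cfsg.Agent.Lib.BlockX.RawOf
import Cfsg.Agent.Lib.BlockX.QuadExists
import Cfsg.Agent.Lib.BlockX.TwoNormalCore
import Cfsg.Agent.Lib.BlockY.Defs
import Cfsg.Agent.Lib.PGroup.LargeSub2

/-! ## PIECE Y6 of S2986: two subnormal blocks inducing the same automorphisms on the same `V` coincide. -/

namespace Cfsg.Agent.Lib.BlockY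
open Subgroup Cfsg Matrix Cfsg.Agent.Lib.BlockX Cfsg.Agent.Lib.BlockX.TwoNormal
open Cfsg.Agent.Lib.PGroup.BaumannSect Cfsg.Agent.Lib.PGroup.BaumannNorm
open scoped commutatorElement

namespace TwoBlocks

variable {G : Type*} [Group G] [Finite G]

theorem cent_of_same {x y : G} {V : Subgroup G} (h : ∀ v ∈ V, x * v * x⁻¹ = y * v * y⁻¹) :
    y⁻¹ * x ∈ centralizer (V : Set G) := by
  rw [mem_centralizer_iff]
  intro v hv
  have h1 := h v hv
  have h2 : x * v = y * v * y⁻¹ * x := by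
    rw [← h1]; group
  calc v * (y⁻¹ * x) = y⁻¹ * (y * v * y⁻¹ * x) := by group
    _ = y⁻¹ * (x * v) := by rw [h2]
    _ = y⁻¹ * x * v := by group

/-- The set of products `e * c`, a subgroup when `C` normalizes `E`. -/
def covSub (E C : Subgroup G) (h : C ≤ normalizer (E : Set G)) : Subgroup G where
  carrier := {s | ∃ e ∈ E, ∃ c ∈ C, s = e * c}
  one_mem' := ⟨1, E.one_mem, 1, C.one_mem, by simp⟩
  mul_mem' := by
    rintro _ _ ⟨e, he, c, hc, rfl⟩ ⟨e', he', c', hc', rfl⟩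
    exact ⟨e * (c * e' * c⁻¹), E.mul_mem he (nm_conj (h hc) he'), c * c', C.mul_mem hc hc', by group⟩
  inv_mem' := by
    rintro _ ⟨e, he, c, hc, rfl⟩
    refine ⟨c⁻¹ * e⁻¹ * c, ?_, c⁻¹, C.inv_mem hc, by group⟩
    simpa using nm_conj (h (C.inv_mem hc)) (E.inv_mem he)

theorem comm_gen {H : Subgroup G} {A : Set G} (hH : closure A ≤ normalizer (H : Set G)) {x s : G}
    (hgen : ∀ g ∈ A, ⁅x, g⁆ ∈ H) (hs : s ∈ closure A) : ⁅x, s⁆ ∈ H := by
  refine closure_induction (p := fun s _ => ⁅x, s⁆ ∈ H) ?_ ?_ ?_ ?_ hs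
  · exact fun g hg => hgen g hg
  · simp
  · intro s₁ s₂ hs₁ _ h₁ h₂
    rw [comm_mul_right_eq]
    exact H.mul_mem h₁ (nm_conj (hH hs₁) h₂)
  · intro s hs h
    rw [comm_inv_right_eq]
    exact nm_conj' (hH hs) (H.inv_mem h)

section core
variable {K : Type*} [Field K] [Fintype K] [CharP K 3]
  {E Q W V Z Y Ω B : Subgroup G} {t a : G} (c : Core K E Q W V Z Y Ω B t a)

include c in
/-- An element of `E ∩ D` acting as `-1` on `Q / W`. -/
theorem exists_common_inv {D : Subgroup G} (hED : E ≤ normalizer (D : Set G))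
    (hDE : D ≤ normalizer (E : Set G))
    (hcov : ∀ e ∈ E, ∃ f ∈ D, ∀ v ∈ V, e * v * e⁻¹ = f * v * f⁻¹) :
    ∃ τ ∈ E, τ ∈ D ∧ c.ρ τ = -1 := by
  classical
  obtain ⟨x, hx, y, hy, hxy⟩ := K_comm_neg (F := K)
  obtain ⟨e₁, he₁, rfl⟩ := c.ρv_surj x hx
  obtain ⟨e₂, he₂, rfl⟩ := c.ρv_surj y hy
  obtain ⟨h₂, hh₂, hact⟩ := hcov e₂ he₂
  have acts₂ : Acts c h₂ (c.ρv e₂) := by
    refine ⟨nm_of_fwd fun v hv => ?_, fun v hv => ?_⟩
    · rw [← hact v hv]; exact nm_conj (c.hEV he₂) hv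
    · rw [← hact v hv]; exact c.ρv_act e₂ he₂ v hv
  set y₀ := e₁ * h₂ * e₁⁻¹ * h₂⁻¹ with hy₀
  have hy₀E : y₀ ∈ E := by
    have : y₀ = e₁ * (h₂ * e₁⁻¹ * h₂⁻¹) := by rw [hy₀]; group
    rw [this]
    exact E.mul_mem he₁ (nm_conj (hDE hh₂) (E.inv_mem he₁))
  have hy₀D : y₀ ∈ D := D.mul_mem (nm_conj (hED he₁) hh₂) (D.inv_mem hh₂)
  have acts₀ : Acts c y₀ (-1) := by
    have := (((acts_E c he₁).mul acts₂).mul (acts_E c he₁).inv).mul acts₂.inv
    rwa [hxy] at this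
  have hρv₀ : c.ρv y₀ = -1 := by
    apply SL2_ext_act
    intro b
    obtain ⟨v, hv, rfl⟩ := c.φ_surj b
    rw [← c.ρv_act y₀ hy₀E v hv, acts₀.2 v hv]
  -- the 3-part
  have hsq : y₀ * y₀ ∈ Q := by
    rw [← c.ρv_ker _ (E.mul_mem hy₀E hy₀E), c.ρv_mul _ hy₀E _ hy₀E, hρv₀]
    simp
  obtain ⟨m, hm⟩ := (Q_pgroup c) ⟨y₀ * y₀, hsq⟩
  have hm' : (y₀ * y₀) ^ (3 ^ m) = 1 := by
    have := congrArg Subtype.val hm
    simpa using this
  set τ := y₀ ^ (3 ^ m) with hτ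
  have hτ2 : τ * τ = 1 := by
    rw [hτ, ← hm', (Commute.refl y₀).mul_pow]
  have hτE : τ ∈ E := pow_mem hy₀E _
  have hτD : τ ∈ D := pow_mem hy₀D _
  have hρvτ : c.ρv τ = -1 := by
    rw [hτ, ρv_pow c hy₀E, hρv₀]
    exact Odd.neg_one_pow (Odd.pow (by decide))
  refine ⟨τ, hτE, hτD, ?_⟩
  have h1 : c.ρ τ * c.ρ τ = 1 := by
    rw [← c.ρ_mul _ hτE _ hτE, hτ2, ρ_one]
  rcases sq_eq_one_SL2 _ h1 with h | h
  · exfalso
    have hτQ : τ ∈ Q := (c.ρ_ker τ hτE).1 h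
    have hτ1 := eq_one_of_three (Q_pgroup c) hτQ hτ2
    rw [hτ1, ρv_one] at hρvτ
    have := congrArg (fun k : SL2 K => (k : M2 K) 0 0) hρvτ
    simp at this
    have h2 : (2 : K) = 0 := by
      have h3 : (1 : K) + 1 = 0 := by
        nth_rewrite 1 [this]; simp
      rw [← h3]; norm_num
    have h3 : ((2 : ℕ) : K) = 0 := by exact_mod_cast h2
    rw [CharP.cast_eq_zero_iff K 3] at h3
    omega
  · exact h

include c in
/-- `Q` lies in any subgroup containing `V` and the commutators of `Y` with an element acting as `-1`. -/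
theorem Q_le_of_inv {Q₀ : Subgroup G} {τ : G} (hτE : τ ∈ E) (hρτ : c.ρ τ = -1)
    (hY : ∀ y ∈ Y, ⁅y, τ⁆ ∈ Q₀) (hV : V ≤ Q₀) : Q ≤ Q₀ := by
  classical
  have key : ∀ q ∈ Q, ∃ w ∈ W, ∃ p ∈ Q, p ∈ Q₀ ∧ q = w * p := by
    intro q hq
    set p := ⁅q, τ⁆ with hp
    have hpQ : p ∈ Q := by
      have : p = q * (τ * q⁻¹ * τ⁻¹) := by rw [hp, commutatorElement_def]; group
      rw [this]
      exact Q.mul_mem hq (nm_conj (c.hEQ hτE) (Q.inv_mem hq))
    have hp0 : p ∈ Q₀ := hY q (c.hQY hq)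
    have hψp : c.ψ p = - c.ψ q := by
      have h1 : p = q * (τ * q⁻¹ * τ⁻¹) := by rw [hp, commutatorElement_def]; group
      have h2 : c.ψ (τ * q⁻¹ * τ⁻¹) = c.ψ q := by
        rw [c.ρ_act τ hτE _ (Q.inv_mem hq), hρτ, sact_neg_one, c.ψ_inv hq, neg_neg]
      rw [h1, c.ψ_mul _ hq _ (nm_conj (c.hEQ hτE) (Q.inv_mem hq)), h2]
      have h3 : (3 : K) = 0 := by exact_mod_cast CharP.cast_eq_zero K 3
      funext i
      simp only [Pi.add_apply, Pi.neg_apply]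
      have : c.ψ q i + c.ψ q i + c.ψ q i = 0 := by
        have : c.ψ q i + c.ψ q i + c.ψ q i = 3 * c.ψ q i := by ring
        rw [this, h3, zero_mul]
      linear_combination this
    have hqp : q * p ∈ W := by
      rw [← c.ψ_ker _ (Q.mul_mem hq hpQ), c.ψ_mul _ hq _ hpQ, hψp]
      simp
    exact ⟨q * p, hqp, p⁻¹, Q.inv_mem hpQ, Q₀.inv_mem hp0, by group⟩
  have hZ : Z ≤ Q₀ := by
    rw [← c.hQQ, commutator_le]
    intro q₁ hq₁ q₂ hq₂
    obtain ⟨w₁, hw₁, p₁, hp₁, hp₁0, rfl⟩ := key q₁ hq₁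
    obtain ⟨w₂, hw₂, p₂, hp₂, hp₂0, rfl⟩ := key q₂ hq₂
    have cmm : ∀ {w y : G}, w ∈ W → y ∈ Y → Commute w y := fun hw hy => c.w_comm hw hy
    have hpY₁ := c.hQY hp₁
    have hpY₂ := c.hQY hp₂
    have hwY₂ := c.W_le_Y hw₂
    rw [central_comm (cmm hw₁ hpY₁) (cmm hw₁ ((Y.mul_mem hwY₂ hpY₂))),
      central_comm' (cmm hw₂ hpY₁) (cmm hw₂ hpY₂)]
    have h2 : ⁅p₁, p₂⁆ = p₁ * p₂ * p₁⁻¹ * p₂⁻¹ := commutatorElement_def _ _
    rw [h2]
    exact Q₀.mul_mem (Q₀.mul_mem (Q₀.mul_mem hp₁0 hp₂0) (Q₀.inv_mem hp₁0)) (Q₀.inv_mem hp₂0)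
  intro q hq
  obtain ⟨w, hw, p, _, hp0, rfl⟩ := key q hq
  refine Q₀.mul_mem ?_ hp0
  obtain ⟨v, hv, z, hz, rfl⟩ := c.hVZ w hw
  exact Q₀.mul_mem (hV hv) (hZ hz)

include c in
/-- An exceptional block cannot share its `V` with a block whose `O_p` is `V`. -/
theorem no_mixed {D : Subgroup G} (hED : E ≤ normalizer (D : Set G))
    (hDE : D ≤ normalizer (E : Set G))
    (hcov : ∀ e ∈ E, ∃ f ∈ D, ∀ v ∈ V, e * v * e⁻¹ = f * v * f⁻¹)
    (hY : ∀ y ∈ Y, ∀ f ∈ D, ⁅y, f⁆ ∈ V) : False := by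
  obtain ⟨τ, hτE, hτD, hρ⟩ := exists_common_inv c hED hDE hcov
  have h := Q_le_of_inv c hτE hρ (fun y hy => hY y hy τ hτD) le_rfl
  obtain ⟨q, hq, hψ⟩ := c.ψ_surj ![1, 0]
  have h0 := (c.ψ_ker q hq).2 (c.hVW (h hq))
  rw [h0] at hψ
  have := congrFun hψ 0
  simp at this

include c in
/-- A block `D` with the same `V`, the same `O₃` and the same automorphisms of `V` lies in `E`. -/
theorem le_of_core {D : Subgroup G}
    (hcov : ∀ f ∈ D, ∃ e ∈ E, ∀ v ∈ V, f * v * f⁻¹ = e * v * e⁻¹)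
    (hDQ : D ≤ normalizer (Q : Set G))
    (hDY : ∀ y ∈ Y, ∀ f ∈ D, ⁅y, f⁆ ∈ Q)
    (hDΩ : ∀ w ∈ Ω, ∀ f ∈ D, ⁅w, f⁆ ∈ V)
    (hD3 : ∀ D₀ : Subgroup G, D₀ ≤ D → IsPGroup 3 D₀ → D ≤ normalizer (D₀ : Set G) → D₀ ≤ Q)
    (hED : E ≤ normalizer (D : Set G))
    (hCD : centralizer (V : Set G) ≤ normalizer (D : Set G))
    (hCE : centralizer (V : Set G) ≤ normalizer (E : Set G))
    (hDres : pResidualOf 3 D = D) : D ≤ E := by
  classical
  set A : Set G := (E : Set G) ∪ {x | ∃ b ∈ B, ∃ f ∈ D, x = b * f * b⁻¹} with hA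
  set S : Subgroup G := closure A with hS
  have hES : E ≤ S := fun e he => subset_closure (Or.inl he)
  have hDS : D ≤ S := fun f hf => subset_closure (Or.inr ⟨1, B.one_mem, f, hf, by simp⟩)
  -- every generator acts as an element of `E`
  have hSM : S ≤ covSub E (centralizer (V : Set G)) hCE := by
    rw [hS, closure_le]
    rintro x (hx | ⟨b, hb, f, hf, rfl⟩)
    · exact ⟨x, hx, 1, one_mem _, by simp⟩
    · obtain ⟨e, he, hact⟩ := hcov f hf
      have he' : b * e * b⁻¹ ∈ E := nm_conj (c.hBE hb) he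
      refine ⟨b * e * b⁻¹, he', (b * e * b⁻¹)⁻¹ * (b * f * b⁻¹), ?_, by group⟩
      apply cent_of_same
      intro v hv
      have h1 := hact _ (nm_conj' (c.hBV hb) hv)
      calc b * f * b⁻¹ * v * (b * f * b⁻¹)⁻¹ = b * (f * (b⁻¹ * v * b) * f⁻¹) * b⁻¹ := by group
        _ = b * (e * (b⁻¹ * v * b) * e⁻¹) * b⁻¹ := by rw [h1]
        _ = b * e * b⁻¹ * v * (b * e * b⁻¹)⁻¹ := by group
  have hSN : S ≤ normalizer (E : Set G) := by
    intro s hs
    obtain ⟨e, he, c', hc', rfl⟩ := hSM hs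
    exact mul_mem (le_normalizer he) (hCE hc')
  have hSV : S ≤ normalizer (V : Set G) := by
    intro s hs
    obtain ⟨e, he, c', hc', rfl⟩ := hSM hs
    exact mul_mem (c.hEV he) (cent_le_nm hc')
  have hSD : S ≤ normalizer (D : Set G) := by
    intro s hs
    obtain ⟨e, he, c', hc', rfl⟩ := hSM hs
    exact mul_mem (hED he) (hCD hc')
  have hSQ : S ≤ normalizer (Q : Set G) := by
    rw [hS, closure_le]
    rintro x (hx | ⟨b, hb, f, hf, rfl⟩)
    · exact c.hEQ hx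
    · exact mul_mem (mul_mem (c.hBQ hb) (hDQ hf)) (inv_mem (c.hBQ hb))
  have hBS : B ≤ normalizer (S : Set G) := by
    intro b' hb'
    refine nm_of_fwd fun x hx => ?_
    have hle : S ≤ S.comap (MulAut.conj b').toMonoidHom := by
      rw [hS, closure_le]
      rintro x (hx | ⟨b, hb, f, hf, rfl⟩)
      · refine subset_closure (Or.inl ?_)
        simpa using nm_conj (c.hBE hb') hx
      · refine subset_closure (Or.inr ⟨b' * b, B.mul_mem hb' hb, f, hf, ?_⟩)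
        simp only [MulEquiv.coe_toMonoidHom, MulAut.conj_apply]
        group
    have := hle hx
    simpa using this
  have hYS : ∀ y ∈ Y, ∀ s ∈ S, ⁅y, s⁆ ∈ Q := by
    intro y hy s hs
    refine comm_gen hSQ ?_ hs
    rintro g (hg | ⟨b, hb, f, hf, rfl⟩)
    · exact c.hYE y hy g hg
    · have h1 : b⁻¹ * y * b ∈ Y := by simpa using c.hYn.conj_mem y hy b⁻¹
      have h2 := hDY _ h1 f hf
      have h3 : ⁅y, b * f * b⁻¹⁆ = b * ⁅b⁻¹ * y * b, f⁆ * b⁻¹ := by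
        simp only [commutatorElement_def]; group
      rw [h3]
      exact nm_conj (c.hBQ hb) h2
  have hΩS : ∀ w ∈ Ω, ∀ s ∈ S, ⁅w, s⁆ ∈ V := by
    intro w hw s hs
    refine comm_gen hSV ?_ hs
    rintro g (hg | ⟨b, hb, f, hf, rfl⟩)
    · exact c.hΩE w hw g hg
    · have h1 : b⁻¹ * w * b ∈ Ω := by simpa using c.hΩn.conj_mem w hw b⁻¹
      have h2 := hDΩ _ h1 f hf
      have h3 : ⁅w, b * f * b⁻¹⁆ = b * ⁅b⁻¹ * w * b, f⁆ * b⁻¹ := by
        simp only [commutatorElement_def]; group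
      rw [h3]
      exact nm_conj (c.hBV hb) h2
  have st : Sett c S Q :=
    { hES := hES
      hSV := hSV
      hSρ := fun s hs => hSM hs
      hBS := hBS
      hQR := le_refl _
      hRY := c.hQY
      hSR := hSQ
      hBR := c.hBQ
      hYS := hYS
      hΩS := hΩS
      hRR := fun x hx y hy => c.hQYW x hx y (c.hQY hy)
      hRdS := by
        rintro y ⟨hyQ, hy⟩ s hs
        refine hΩS _ (c.hWΩ ?_) s hs
        rw [← c.ψ_ker y hyQ]
        have hd : ∀ b : F2 K, dt (c.ψ y) b = 0 := by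
          intro b
          obtain ⟨q, hq, rfl⟩ := c.ψ_surj b
          have h1 := c.τ_of_V (hy q hq)
          rw [c.τ_comm q hq y hyQ] at h1
          simp only [dt] at h1 ⊢
          linear_combination -h1
        exact dt_nondeg hd
      hD := by
        intro D₁ hD₁3 hD₁S _ hSD₁ hBD₁ d hd s hs
        refine comm_gen hSQ ?_ hs
        rintro g (hg | ⟨b, hb, f, hf, rfl⟩)
        · -- `g ∈ E`
          have hmem : ⁅d, g⁆ ∈ D₁ ⊓ E := by
            refine ⟨?_, ?_⟩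
            · have : ⁅d, g⁆ = d * (g * d⁻¹ * g⁻¹) := by rw [commutatorElement_def]; group
              rw [this]
              exact D₁.mul_mem hd (nm_conj (hSD₁ (hES hg)) (D₁.inv_mem hd))
            · have : ⁅d, g⁆ = (d * g * d⁻¹) * g⁻¹ := commutatorElement_def _ _
              rw [this]
              exact E.mul_mem (nm_conj (hSN (hD₁S hd)) hg) (E.inv_mem hg)
          refine c.hQ3 (D₁ ⊓ E) inf_le_right (hD₁3.to_le inf_le_left) ?_ hmem
          intro e he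
          exact mem_normalizer_inf (hSD₁ (hES he)) (le_normalizer he)
        · -- a conjugate of `f ∈ D`
          have hd' : b⁻¹ * d * b ∈ D₁ := nm_conj' (hBD₁ hb) hd
          have hmem : ⁅b⁻¹ * d * b, f⁆ ∈ D₁ ⊓ D := by
            refine ⟨?_, ?_⟩
            · have : ⁅b⁻¹ * d * b, f⁆ = (b⁻¹ * d * b) * (f * (b⁻¹ * d * b)⁻¹ * f⁻¹) := by
                rw [commutatorElement_def]; group
              rw [this]
              exact D₁.mul_mem hd' (nm_conj (hSD₁ (hDS hf)) (D₁.inv_mem hd'))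
            · have : ⁅b⁻¹ * d * b, f⁆ = ((b⁻¹ * d * b) * f * (b⁻¹ * d * b)⁻¹) * f⁻¹ :=
                commutatorElement_def _ _
              rw [this]
              exact D.mul_mem (nm_conj (hSD (hD₁S hd')) hf) (D.inv_mem hf)
          have h1 : ⁅b⁻¹ * d * b, f⁆ ∈ Q := by
            refine hD3 (D₁ ⊓ D) inf_le_right (hD₁3.to_le inf_le_left) ?_ hmem
            intro f' hf'
            exact mem_normalizer_inf (hSD₁ (hDS hf')) (le_normalizer hf')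
          have h3 : ⁅d, b * f * b⁻¹⁆ = b * ⁅b⁻¹ * d * b, f⁆ * b⁻¹ := by
            simp only [commutatorElement_def]; group
          rw [h3]
          exact nm_conj (c.hBQ hb) h1 }
  have hX := final_pgroup st (fun x hx => ⟨x, hx, 1, ⟨Q.one_mem, fun x _ => by simp [V.one_mem]⟩, by simp⟩)
  haveI : Fact (Nat.Prime 3) := ⟨by decide⟩
  refine residual_le (p := 3) (S := S) (X := S ⊓ centralizer (V : Set G)) hSN hX ?_ hDS hDres
  intro s hs
  obtain ⟨e, he, c', hc', rfl⟩ := hSM hs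
  refine ⟨e, he, c', ⟨?_, hc'⟩, rfl⟩
  have : c' = e⁻¹ * (e * c') := by group
  rw [this]
  exact S.mul_mem (S.inv_mem (hES he)) hs

end core

/-- Non-exceptional blocks: `Y` acts on `V`-chains, so `S ∩ C(V)` is a `p`-group. -/
theorem le_of_nonexc {p : ℕ} [Fact p.Prime] {Y V E D : Subgroup G} (hYp : IsPGroup p Y) (hYn : Y.Normal)
    (hYC : centralizer (Y : Set G) ≤ Y) (hVY : V ≤ Y) (hEV : E ≤ normalizer (V : Set G))
    (hcov : ∀ f ∈ D, ∃ e ∈ E, ∀ v ∈ V, f * v * f⁻¹ = e * v * e⁻¹)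
    (hEY : ∀ y ∈ Y, ∀ e ∈ E, ⁅y, e⁆ ∈ V) (hDY : ∀ y ∈ Y, ∀ f ∈ D, ⁅y, f⁆ ∈ V)
    (hCE : centralizer (V : Set G) ≤ normalizer (E : Set G))
    (hDres : pResidualOf p D = D) : D ≤ E := by
  classical
  set A : Set G := (E : Set G) ∪ (D : Set G) with hA
  set S : Subgroup G := closure A with hS
  have hES : E ≤ S := fun e he => subset_closure (Or.inl he)
  have hDS : D ≤ S := fun f hf => subset_closure (Or.inr hf)
  have hSM : S ≤ covSub E (centralizer (V : Set G)) hCE := by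
    rw [hS, closure_le]
    rintro x (hx | hx)
    · exact ⟨x, hx, 1, one_mem _, by simp⟩
    · obtain ⟨e, he, hact⟩ := hcov x hx
      exact ⟨e, he, e⁻¹ * x, cent_of_same hact, by group⟩
  have hSN : S ≤ normalizer (E : Set G) := by
    intro s hs
    obtain ⟨e, he, c', hc', rfl⟩ := hSM hs
    exact mul_mem (le_normalizer he) (hCE hc')
  have hSV : S ≤ normalizer (V : Set G) := by
    intro s hs
    obtain ⟨e, he, c', hc', rfl⟩ := hSM hs
    exact mul_mem (hEV he) (cent_le_nm hc')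
  have hYS : ∀ y ∈ Y, ∀ s ∈ S, ⁅y, s⁆ ∈ V := by
    intro y hy s hs
    refine comm_gen hSV ?_ hs
    rintro g (hg | hg)
    · exact hEY y hy g hg
    · exact hDY y hy g hg
  have hVc : ∀ x ∈ V, ∀ d ∈ (S ⊓ centralizer (V : Set G) : Subgroup G), ⁅x, d⁆ = 1 := by
    intro x hx d hd
    rw [commutatorElement_eq_one_iff_mul_comm]
    exact (mem_centralizer_iff.1 hd.2) x hx
  have hX : IsPGroup p (S ⊓ centralizer (V : Set G) : Subgroup G) := by
    refine isPGroup_of_chain (Y := Y) (R := V) (R' := V) (V := V) hYp hYn hYC hVY le_rfl le_rfl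
      (fun y hy d hd => hYS y hy d hd.1) (fun x hx d hd => ?_) (fun x hx d hd => ?_) hVc
    · rw [hVc x hx d hd]; exact V.one_mem
    · rw [hVc x hx d hd]; exact V.one_mem
  refine residual_le (p := p) (S := S) (X := S ⊓ centralizer (V : Set G)) hSN hX ?_ hDS hDres
  intro s hs
  obtain ⟨e, he, c', hc', rfl⟩ := hSM hs
  refine ⟨e, he, c', ⟨?_, hc'⟩, rfl⟩
  have : c' = e⁻¹ * (e * c') := by group
  rw [this]
  exact S.mul_mem (S.inv_mem (hES he)) hs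

variable {p : ℕ} [Fact p.Prime] {E F : Subgroup G}

/-- The two types of a subnormal block. -/
theorem block_type (hG : centralizer (YY p G : Set G) ≤ YY p G) (T : Sylow p G)
    (hE : IsBaumannBlock p (T : Subgroup G) E) (hQY : QQ p E ≤ YY p G) :
    QQ p E = WW p E ∨ (p = 3 ∧ ∃ (K : Type) (_ : Field K) (_ : Fintype K) (_ : CharP K 3) (t a : G),
      Nonempty (Core K E (QQ p E) (WW p E) (VV p E) (ZZ p E) (YY p G) (MM p G)
        (baumannSubgroupOf p (T : Subgroup G)) t a)) := by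
  rcases hE.2.2.2.2 with ⟨K, fK, tK, n, hK, h0, h1, hQW | ⟨hp3, h2, h3, -, h4, h5, h6⟩⟩ | ⟨-, m, -, -, hQW⟩
  · exact Or.inl hQW
  · right
    subst hp3
    refine ⟨rfl, ?_⟩
    have hchar : CharP K 3 := by
      obtain ⟨q, hq⟩ := CharP.exists K
      haveI := hq
      obtain ⟨m, hqp, hm⟩ := FiniteField.card K q
      have h1 : q ∣ 3 ^ n := by
        rw [← hK, hm]
        exact dvd_pow_self q m.ne_zero
      have h2 : q = 3 := (Nat.prime_dvd_prime_iff_eq hqp Nat.prime_three).1 (hqp.dvd_of_dvd_pow h1)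
      rw [h2] at hq
      exact hq
    obtain ⟨r⟩ := raw_of_block hG T E hE hK h0 h1 h2 h3 h4 h5 h6
    obtain ⟨a, haB, haV0, haV⟩ := exists_quad hG T E hE
    obtain ⟨t, hc⟩ := core_of_raw r hQY haB haV0 haV
    exact ⟨K, fK, tK, hchar, t, a, hc⟩
  · exact Or.inl hQW

theorem QQ_eq_VV {T : Subgroup G} (hE : IsBaumannBlock p T E) (hQ : QQ p E = WW p E) : QQ p E = VV p E := by
  show pCoreOf p E = ⁅omegaOneCenter p (pCoreOf p E), E⁆
  have hQ' : pCoreOf p E = omegaOneCenter p (pCoreOf p E) := hQ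
  rw [← hQ']
  exact hE.2.2.1.symm

theorem E_le_nV (E : Subgroup G) : E ≤ normalizer (VV p E : Set G) := fun _ he =>
  mem_normalizer_commutator (normalizer_le_omegaOneCenter _ (Cfsg.Agent.Lib.PGroup.LargeSub2.normalizer_le_normalizer_pCoreOf E (le_normalizer he)))
    (le_normalizer he)

end TwoBlocks

open TwoBlocks in
/-- PIECE Y6, with the facts on one block and the main theorem on one block as hypotheses. -/
theorem two_blocks_core {G : Type*} [Group G] [Finite G] {p : ℕ} [Fact p.Prime] {E F : Subgroup G}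
    (hG : centralizer (YY p G : Set G) ≤ YY p G) {T₁ T₂ : Sylow p G}
    (hE : IsBaumannBlock p (T₁ : Subgroup G) E) (hF : IsBaumannBlock p (T₂ : Subgroup G) F)
    (hV : VV p E = VV p F)
    (h1 : ∀ f ∈ F, ∃ e ∈ E, ∀ v ∈ VV p E, f * v * f⁻¹ = e * v * e⁻¹)
    (h2 : ∀ e ∈ E, ∃ f ∈ F, ∀ v ∈ VV p E, e * v * e⁻¹ = f * v * f⁻¹)
    (hQYE : QQ p E ≤ YY p G) (hQYF : QQ p F ≤ YY p G)
    (hYE₀ : ∀ y ∈ YY p G, ∀ e ∈ E, ⁅y, e⁆ ∈ QQ p E) (hYF₀ : ∀ y ∈ YY p G, ∀ e ∈ F, ⁅y, e⁆ ∈ QQ p F)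
    (hME : ∀ m ∈ MM p G, ∀ e ∈ E, ⁅m, e⁆ ∈ VV p E) (hMF : ∀ m ∈ MM p G, ∀ e ∈ F, ⁅m, e⁆ ∈ VV p F)
    (hCE : centralizer (VV p E : Set G) ≤ normalizer (E : Set G))
    (hCF' : centralizer (VV p F : Set G) ≤ normalizer (F : Set G)) : E = F := by
  have hCF : centralizer (VV p E : Set G) ≤ normalizer (F : Set G) := by
    rw [hV]; exact hCF'
  have hCE' : centralizer (VV p F : Set G) ≤ normalizer (E : Set G) := by
    rw [← hV]; exact hCE
  have hFE : F ≤ normalizer (E : Set G) := by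
    intro f hf
    obtain ⟨e, he, hact⟩ := h1 f hf
    have hc := hCE (cent_of_same hact)
    have : f = e * (e⁻¹ * f) := by group
    rw [this]
    exact mul_mem (le_normalizer he) hc
  have hEF : E ≤ normalizer (F : Set G) := by
    intro e he
    obtain ⟨f, hf, hact⟩ := h2 e he
    have hc := hCF (cent_of_same hact)
    have : e = f * (f⁻¹ * e) := by group
    rw [this]
    exact mul_mem (le_normalizer hf) hc
  have h1' : ∀ e ∈ E, ∃ f ∈ F, ∀ v ∈ VV p F, e * v * e⁻¹ = f * v * f⁻¹ := by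
    rw [← hV]; exact h2
  have h2' : ∀ f ∈ F, ∃ e ∈ E, ∀ v ∈ VV p F, f * v * f⁻¹ = e * v * e⁻¹ := by
    rw [← hV]; exact h1
  rcases block_type hG T₁ hE hQYE with hQ₁ | ⟨hp₁, K₁, _, _, _, t₁, a₁, ⟨c₁⟩⟩ <;>
  rcases block_type hG T₂ hF hQYF with hQ₂ | ⟨hp₂, K₂, _, _, _, t₂, a₂, ⟨c₂⟩⟩
  · -- both non-exceptional
    have hVE := QQ_eq_VV hE hQ₁
    have hVF := QQ_eq_VV hF hQ₂
    have hYE : ∀ y ∈ YY p G, ∀ e ∈ E, ⁅y, e⁆ ∈ VV p E := fun y hy e he => by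
      rw [← hVE]; exact hYE₀ y hy e he
    have hYF : ∀ y ∈ YY p G, ∀ f ∈ F, ⁅y, f⁆ ∈ VV p F := fun y hy f hf => by
      rw [← hVF]; exact hYF₀ y hy f hf
    have hYE' : ∀ y ∈ YY p G, ∀ e ∈ E, ⁅y, e⁆ ∈ VV p F := by rw [← hV]; exact hYE
    have hYF' : ∀ y ∈ YY p G, ∀ f ∈ F, ⁅y, f⁆ ∈ VV p E := by rw [hV]; exact hYF
    have hVYE : VV p E ≤ YY p G := by rw [← hVE]; exact hQYE
    have hVYF : VV p F ≤ YY p G := by rw [← hVF]; exact hQYF
    have hYp : IsPGroup p (YY p G) := Cfsg.Agent.Lib.Basic.PCore.pCore_isPGroup p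
    have hYn : (YY p G).Normal := Cfsg.Agent.Lib.Basic.PCore.pCore_normal p G
    apply le_antisymm
    · exact le_of_nonexc hYp hYn hG hVYF (E_le_nV F) h1' hYF hYE' hCF' hE.1
    · exact le_of_nonexc hYp hYn hG hVYE (E_le_nV E) h1 hYE hYF' hCE hF.1
  · -- `F` exceptional, `E` not
    exfalso
    have hVE := QQ_eq_VV hE hQ₁
    refine no_mixed c₂ hFE hEF h2' ?_
    intro y hy e he
    rw [← hV, ← hVE]
    exact hYE₀ y hy e he
  · -- `E` exceptional, `F` not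
    exfalso
    have hVF := QQ_eq_VV hF hQ₂
    refine no_mixed c₁ hEF hFE h2 ?_
    intro y hy f hf
    rw [hV, ← hVF]
    exact hYF₀ y hy f hf
  · -- both exceptional
    subst hp₁
    obtain ⟨τ, hτE, hτF, hρ⟩ := exists_common_inv c₁ hEF hFE h2
    obtain ⟨τ', hτ'F, hτ'E, hρ'⟩ := exists_common_inv c₂ hFE hEF h2'
    have hQ₁₂ : pCoreOf 3 E ≤ pCoreOf 3 F := by
      refine Q_le_of_inv c₁ hτE hρ (fun y hy => hYF₀ y hy τ hτF) ?_
      rw [hV]; exact c₂.V_le_Q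
    have hQ₂₁ : pCoreOf 3 F ≤ pCoreOf 3 E := by
      refine Q_le_of_inv c₂ hτ'F hρ' (fun y hy => hYE₀ y hy τ' hτ'E) ?_
      rw [← hV]; exact c₁.V_le_Q
    have hQ : pCoreOf 3 E = pCoreOf 3 F := le_antisymm hQ₁₂ hQ₂₁
    apply le_antisymm
    · refine le_of_core c₂ h1' ?_ ?_ ?_ ?_ hFE hCE' hCF' hE.1
      · show E ≤ normalizer ((pCoreOf 3 F : Subgroup G) : Set G)
        rw [← hQ]; exact c₁.hEQ
      · show ∀ y ∈ YY 3 G, ∀ f ∈ E, ⁅y, f⁆ ∈ pCoreOf 3 F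
        rw [← hQ]; exact hYE₀
      · show ∀ w ∈ MM 3 G, ∀ f ∈ E, ⁅w, f⁆ ∈ VV 3 F
        rw [← hV]; exact hME
      · show ∀ D₀ : Subgroup G, D₀ ≤ E → IsPGroup 3 D₀ → E ≤ normalizer (D₀ : Set G) → D₀ ≤ pCoreOf 3 F
        rw [← hQ]; exact c₁.hQ3
    · refine le_of_core c₁ h1 ?_ ?_ ?_ ?_ hEF hCF hCE hF.1
      · show F ≤ normalizer ((pCoreOf 3 E : Subgroup G) : Set G)
        rw [hQ]; exact c₂.hEQ
      · show ∀ y ∈ YY 3 G, ∀ f ∈ F, ⁅y, f⁆ ∈ pCoreOf 3 E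
        rw [hQ]; exact hYF₀
      · show ∀ w ∈ MM 3 G, ∀ f ∈ F, ⁅w, f⁆ ∈ VV 3 E
        rw [hV]; exact hMF
      · show ∀ D₀ : Subgroup G, D₀ ≤ F → IsPGroup 3 D₀ → F ≤ normalizer (D₀ : Set G) → D₀ ≤ pCoreOf 3 E
        rw [hQ]; exact c₂.hQ3

end Cfsg.Agent.Lib.BlockY
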