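import Mathlib
import Cfsg.Agent.Lib.BlockX.Dispatch
import Cfsg.Agent.Lib.BlockY.Facts
import Cfsg.Agent.Lib.BlockY.TwoBlocksCore

/-! ## PIECE Y6 of S2986: two subnormal blocks inducing the same automorphisms on the same `V` coincide. -/

namespace Cfsg.Agent.Lib.BlockY
open Subgroup Cfsg
open scoped commutatorElement

variable {G : Type*} [Group G] [Finite G] {p : ℕ} [Fact p.Prime] {E F : Subgroup G}

theorem two_blocks (hG : centralizer (YY p G : Set G) ≤ YY p G) {T₁ T₂ : Sylow p G}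
    (hE : IsBaumannBlock p (T₁ : Subgroup G) E) (hF : IsBaumannBlock p (T₂ : Subgroup G) F)
    (hEs : E.IsSubnormal) (hFs : F.IsSubnormal) (hV : VV p E = VV p F)
    (h1 : ∀ f ∈ F, ∃ e ∈ E, ∀ v ∈ VV p E, f * v * f⁻¹ = e * v * e⁻¹)
    (h2 : ∀ e ∈ E, ∃ f ∈ F, ∀ v ∈ VV p E, e * v * e⁻¹ = f * v * f⁻¹) : E = F :=
  two_blocks_core hG hE hF hV h1 h2 (Q_le_Y hEs) (Q_le_Y hFs) (Y_comm_mem T₁ hE) (Y_comm_mem T₂ hF)
    (M_comm_mem hG T₁ hE hEs) (M_comm_mem hG T₂ hF hFs)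
    (Cfsg.Agent.Lib.BlockX.block_dispatch hG T₁ E hE) (Cfsg.Agent.Lib.BlockX.block_dispatch hG T₂ F hF)

end Cfsg.Agent.Lib.BlockY
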