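import Mathlib
import Cfsg.Agent.Lib.PGroup.BaumannSect
import Cfsg.Agent.Lib.PGroup.LargeSub2
import Cfsg.Agent.Lib.Basic.PCore
import Cfsg.Agent.Lib.BlockY.Defs
import Cfsg.Agent.Lib.BlockY.Pair
import Cfsg.Agent.Lib.BlockY.Facts
import Cfsg.Agent.Lib.BlockY.SmallDef
import Cfsg.Agent.Lib.BlockY.ClaimA
import Cfsg.Agent.Lib.BlockY.TwoBlocks

/-!
# Two small subnormal blocks (S2986, piece Y7)
-/

namespace Cfsg.Agent.Lib.BlockY
open Subgroup Cfsg
open scoped commutatorElement

variable {G : Type*} [Group G]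
variable [Finite G] {p : ℕ} [Fact p.Prime] {E F : Subgroup G}

namespace SmallCaseAux

open Cfsg.Agent.Lib.PGroup.BaumannSect

/-- `E` normalizes `V_E`. -/
theorem le_normalizer_VV (E : Subgroup G) : E ≤ normalizer (VV p E : Set G) := by
  have hEE : E ≤ normalizer (E : Set G) := Subgroup.le_normalizer
  have hNQ : normalizer (E : Set G) ≤ normalizer (pCoreOf p E : Set G) :=
    Cfsg.Agent.Lib.PGroup.LargeSub2.normalizer_le_normalizer_pCoreOf E
  intro e he
  exact mem_normalizer_commutator (normalizer_le_omegaOneCenter _ (hNQ (hEE he))) (hEE he)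

theorem conj_mem_VV {E : Subgroup G} {e v : G} (he : e ∈ E) (hv : v ∈ VV p E) : e * v * e⁻¹ ∈ VV p E :=
  (mem_normalizer_iff.1 (le_normalizer_VV E he) v).1 hv

/-- The elements of `F` inducing on `V` an element of `E` form a subgroup. -/
def liftSub (V E F : Subgroup G) (hE : E ≤ normalizer (V : Set G)) (hF : F ≤ normalizer (V : Set G)) : Subgroup G where
  carrier := {f | f ∈ F ∧ ∃ e ∈ E, ∀ v ∈ V, f * v * f⁻¹ = e * v * e⁻¹}
  mul_mem' := by
    rintro a b ⟨ha, e₁, he₁, h₁⟩ ⟨hb, e₂, he₂, h₂⟩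
    refine ⟨F.mul_mem ha hb, e₁ * e₂, E.mul_mem he₁ he₂, fun v hv => ?_⟩
    have hbv : b * v * b⁻¹ ∈ V := (mem_normalizer_iff.1 (hF hb) v).1 hv
    have h3 : e₂ * v * e₂⁻¹ ∈ V := (mem_normalizer_iff.1 (hE he₂) v).1 hv
    calc a * b * v * (a * b)⁻¹ = a * (b * v * b⁻¹) * a⁻¹ := by group
      _ = a * (e₂ * v * e₂⁻¹) * a⁻¹ := by rw [h₂ v hv]
      _ = e₁ * (e₂ * v * e₂⁻¹) * e₁⁻¹ := h₁ _ h3
      _ = e₁ * e₂ * v * (e₁ * e₂)⁻¹ := by group
  one_mem' := ⟨F.one_mem, 1, E.one_mem, fun _ _ => rfl⟩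
  inv_mem' := by
    rintro a ⟨ha, e₁, he₁, h₁⟩
    refine ⟨F.inv_mem ha, e₁⁻¹, E.inv_mem he₁, fun v hv => ?_⟩
    have h3 : e₁⁻¹ * v * e₁ ∈ V := by
      have := (mem_normalizer_iff.1 (hE (E.inv_mem he₁)) v).1 hv
      simpa using this
    have h4 := h₁ _ h3
    have h5 : e₁ * (e₁⁻¹ * v * e₁) * e₁⁻¹ = v := by group
    rw [h5] at h4
    have h6 : a⁻¹ * v * a = e₁⁻¹ * v * e₁ := by
      conv_lhs => rw [← h4]
      group
    simpa using h6

/-- One direction of the covering for equal `V`. -/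
theorem lift_of_small (hG : centralizer (YY p G : Set G) ≤ YY p G) {T₁ : Sylow p G} {r : ℕ} {S₁ S₂ : Set G}
    (hE : IsBaumannBlock p (T₁ : Subgroup G) E) (hFs : F.IsSubnormal) (hV : VV p E = VV p F)
    (h₁ : Small p r E S₁) (h₂ : Small p r F S₂) :
    ∀ f ∈ F, ∃ e ∈ E, ∀ v ∈ VV p E, f * v * f⁻¹ = e * v * e⁻¹ := by
  have hEn : E ≤ normalizer (VV p E : Set G) := le_normalizer_VV E
  have hFn : F ≤ normalizer (VV p E : Set G) := by
    rw [hV]; exact le_normalizer_VV F
  have hVM : VV p E ≤ MM p G := V_le_M hG T₁ hE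
  have hle : closure S₂ ⊔ QQ p F ≤ liftSub (VV p E) E F hEn hFn := by
    apply sup_le
    · rw [closure_le]
      intro y hy
      refine ⟨h₂.hS hy, ?_⟩
      refine h₁.hcov y (fun v hv => ?_) ?_
      · have : v ∈ VV p F := hV ▸ hv
        have := conj_mem_VV (h₂.hS hy) this
        rwa [← hV] at this
      · have := h₂.htype y hy
        rw [hV]
        exact this
    · intro q hq
      have hqF : q ∈ F := by
        have hQ : QQ p F ≤ F := by
          show pCoreOf p F ≤ F
          unfold pCoreOf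
          rintro _ ⟨x, -, rfl⟩
          exact x.2
        exact hQ hq
      refine ⟨hqF, 1, E.one_mem, fun v hv => ?_⟩
      have hqY : q ∈ YY p G := Q_le_Y hFs hq
      have hvc : v ∈ centralizer (YY p G : Set G) := omegaOneCenter_le_cent _ (hVM hv)
      have := mem_centralizer_iff.1 hvc q hqY
      simp only [one_mul, inv_one, mul_one]
      rw [this, mul_inv_cancel_right]
  intro f hf
  exact (hle (h₂.hgen hf)).2

/-- `closure {x, y}` is an `r`-group. -/
theorem isPGroup_closure {r : ℕ} [Fact r.Prime] (hEs : E.IsSubnormal) (hFs : F.IsSubnormal)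
    (hrE : IsPGroup r (E.map (act p G))) (hrF : IsPGroup r (F.map (act p G))) {x y : G} (hx : x ∈ E) (hy : y ∈ F) :
    IsPGroup r (closure {act p G x, act p G y} : Subgroup (MulAut ↥(MM p G))) := by
  set f : G →* (act p G).range := (act p G).rangeRestrict with hf
  have hsurj : Function.Surjective f := MonoidHom.rangeRestrict_surjective _
  have aux : ∀ {H : Subgroup G}, H.IsSubnormal → IsPGroup r (H.map (act p G)) →
      (H.map (act p G)) ≤ (pCore r (act p G).range).map (act p G).range.subtype := by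
    intro H hHs hHr
    have h1 : (H.map f).IsSubnormal := hHs.map hsurj
    have h2 : IsPGroup r (H.map f) := by
      rintro ⟨_, g, hg, rfl⟩
      obtain ⟨k, hk⟩ := hHr ⟨act p G g, g, hg, rfl⟩
      refine ⟨k, ?_⟩
      apply Subtype.ext
      apply Subtype.ext
      have := congrArg Subtype.val hk
      simpa [hf] using this
    have h3 := Cfsg.Agent.Lib.Basic.PCore.le_pCore_of_subnormal h1 h2
    rintro _ ⟨g, hg, rfl⟩
    exact ⟨f g, h3 ⟨g, hg, rfl⟩, rfl⟩
  have hP : IsPGroup r ((pCore r (act p G).range).map (act p G).range.subtype) :=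
    (Cfsg.Agent.Lib.Basic.PCore.pCore_isPGroup r).map _
  refine hP.to_le ?_
  rw [closure_le]
  intro z hz
  rcases hz with rfl | rfl
  · exact aux hEs hrE ⟨x, hx, rfl⟩
  · exact aux hFs hrF ⟨y, hy, rfl⟩

end SmallCaseAux

open SmallCaseAux

theorem small_case (hG : centralizer (YY p G : Set G) ≤ YY p G) {T₁ T₂ : Sylow p G}
    (hE : IsBaumannBlock p (T₁ : Subgroup G) E) (hF : IsBaumannBlock p (T₂ : Subgroup G) F)
    (hEs : E.IsSubnormal) (hFs : F.IsSubnormal) {r : ℕ} {S₁ S₂ : Set G} (hr : r.Prime)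
    (h₁ : Small p r E S₁) (h₂ : Small p r F S₂) : E = F ∨ ⁅E, F⁆ = ⊥ := by
  have : Fact r.Prime := ⟨hr⟩
  by_cases hV : VV p E = VV p F
  · left
    refine two_blocks hG hE hF hEs hFs hV (lift_of_small hG hE hFs hV h₁ h₂) ?_
    intro e he
    have hV' : VV p F = VV p E := hV.symm
    obtain ⟨f, hf, h⟩ := lift_of_small hG hF hEs hV' h₂ h₁ e he
    refine ⟨f, hf, fun v hv => h v (hV ▸ hv)⟩
  · right
    refine claimA hG hE hF hEs hFs ?_
    -- `F` centralizes `V_E`
    have hMab : ∀ a b : ↥(MM p G), a * b = b * a := by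
      rintro ⟨a, ha⟩ ⟨b, hb⟩
      exact Subtype.ext (Cfsg.Agent.Lib.PGroup.BaumannSect.omegaOneCenter_comm ha hb)
    have hVM : VV p E ≤ MM p G := V_le_M hG T₁ hE
    by_cases hS₁ : S₁.Nonempty
    · obtain ⟨x, hx⟩ := hS₁
      have hle : closure S₂ ⊔ QQ p F ≤ centralizer (VV p E : Set G) := by
        apply sup_le
        · rw [closure_le]
          intro y hy
          have hpair := pair_lemma hMab (h₁.hT x hx) (h₂.hT y hy)
            (isPGroup_closure (p := p) hEs hFs h₁.hrM h₂.hrM (h₁.hS hx) (h₂.hS hy))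
          rcases hpair with h | ⟨-, h, -⟩
          · exfalso
            apply hV
            rw [← h₁.hcomm x hx, ← h₂.hcomm y hy, h]
          · rw [SetLike.mem_coe, mem_centralizer_iff]
            intro v hv
            have hv' : v ∈ (commSub (act p G x)).map (MM p G).subtype := by
              rw [h₁.hcomm x hx]; exact hv
            obtain ⟨w, hw, rfl⟩ := hv'
            have := h w hw
            have h2 : y * (w : G) * y⁻¹ = w := by
              have := congrArg (Subtype.val) this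
              simpa [act, MulAut.conjNormal_apply] using this
            exact (mul_inv_eq_iff_eq_mul.1 h2).symm
        · intro q hq
          rw [mem_centralizer_iff]
          intro v hv
          have hqY : q ∈ YY p G := Q_le_Y hFs hq
          have hvc : v ∈ centralizer (YY p G : Set G) :=
            Cfsg.Agent.Lib.PGroup.BaumannSect.omegaOneCenter_le_cent _ (hVM hv)
          exact (mem_centralizer_iff.1 hvc q hqY).symm
      exact h₂.hgen.trans hle
    · -- `S₁` empty: `V_E = 1`
      have hS : S₁ = ∅ := Set.not_nonempty_iff_eq_empty.1 hS₁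
      have hEQ : E ≤ QQ p E := by
        have := h₁.hgen
        rw [hS, Subgroup.closure_empty, bot_sup_eq] at this
        exact this
      have hVbot : VV p E = ⊥ := by
        rw [eq_bot_iff]
        show ⁅omegaOneCenter p (pCoreOf p E), E⁆ ≤ ⊥
        rw [Subgroup.commutator_le]
        intro w hw e he
        have := mem_centralizer_iff.1 (Cfsg.Agent.Lib.PGroup.BaumannSect.omegaOneCenter_le_cent _ hw) e (hEQ he)
        rw [Subgroup.mem_bot, commutatorElement_eq_one_iff_mul_comm]
        exact this.symm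
      rw [hVbot]
      intro f _
      rw [mem_centralizer_iff]
      intro v hv
      have : v = 1 := hv
      simp [this]

end Cfsg.Agent.Lib.BlockY
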